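import Mathlib
import Cfsg.Prelude.Def_Involutions
import Cfsg.Agent.H67.Base3.Colour

/-!
Groups acting with every non-identity element fixing at most four points: general tools.
-/

set_option autoImplicit false
set_option linter.unusedSectionVars false

namespace Cfsg.Agent.H81.Fix4

open MulAction Pointwise Subgroup

variable {G Ω : Type*} [Group G] [Finite G] [MulAction G Ω] [Finite Ω]

/-- Every non-identity element fixes at most four points. -/
def Small4 (G Ω : Type*) [Group G] [MulAction G Ω] : Prop :=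
  ∀ g : G, g ≠ 1 → (fixedBy Ω g).ncard ≤ 4

theorem eq_one_of_fix (h4 : Small4 G Ω) {g : G} (A : Set Ω) (hA : ∀ x ∈ A, g • x = x)
    (h : 4 < A.ncard) : g = 1 := by
  by_contra hg
  have h1 := Set.ncard_le_ncard (t := fixedBy Ω g) (fun x hx => hA x hx) (Set.toFinite _)
  have := h4 g hg
  omega

theorem fixedBy_eq_of_subset {g : G} {A : Set Ω} (hA : ∀ x ∈ A, g • x = x)
    (h : (fixedBy Ω g).ncard ≤ A.ncard) : fixedBy Ω g = A :=
  (Set.eq_of_subset_of_ncard_le (fun x hx => hA x hx) h (Set.toFinite _)).symm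

theorem fixedBy_conj (g x : G) : fixedBy Ω (g * x * g⁻¹) = g • fixedBy Ω x := by
  ext ω
  rw [Set.mem_smul_set_iff_inv_smul_mem, mem_fixedBy, mem_fixedBy, mul_smul, mul_smul,
    eq_inv_smul_iff]

theorem smul_ncard (g : G) (A : Set Ω) : (g • A).ncard = A.ncard :=
  Set.ncard_image_of_injective A (MulAction.injective g)

theorem smul_fixedBy_of_comm {g x : G} (h : g * x = x * g) : g • fixedBy Ω x = fixedBy Ω x := by
  rw [← fixedBy_conj, h, mul_inv_cancel_right]

theorem fix_subset_pow (g : G) (j : ℕ) : fixedBy Ω g ⊆ fixedBy Ω (g ^ j) := by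
  intro x hx
  induction j with
  | zero => simp [mem_fixedBy]
  | succ j ih =>
    rw [mem_fixedBy] at hx ih ⊢
    rw [pow_succ, mul_smul, hx, ih]

/-- The action of the stabiliser of a set on that set. -/
def actOn (A : Set Ω) : stabilizer G A →* Equiv.Perm A where
  toFun g := (MulAction.toPerm (g : G)).subtypePerm fun x => by
    have h : (g : G) • A = A := g.2
    rw [MulAction.toPerm_apply]
    exact ⟨fun hx => Set.smul_mem_smul_set_iff.1 (by rw [h]; exact hx),
      fun hx => by have := Set.smul_mem_smul_set (a := (g : G)) hx; rwa [h] at this⟩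
  map_one' := by ext x; simp
  map_mul' a b := by
    ext x
    show ((a : G) * (b : G)) • (x : Ω) = (a : G) • (b : G) • (x : Ω)
    rw [mul_smul]

@[simp] theorem actOn_apply (A : Set Ω) (g : stabilizer G A) (x : A) :
    ((actOn A g x : A) : Ω) = (g : G) • (x : Ω) := rfl

theorem mem_fixing {g : G} {A : Set Ω} : g ∈ fixingSubgroup G A ↔ ∀ x ∈ A, g • x = x :=
  mem_fixingSubgroup_iff G

theorem fixing_le_stabilizer (A : Set Ω) : fixingSubgroup G A ≤ stabilizer G A := by
  intro g hg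
  rw [mem_stabilizer_iff]
  ext x
  rw [Set.mem_smul_set]
  exact ⟨fun ⟨y, hy, h⟩ => by rw [mem_fixing.1 hg y hy] at h; exact h ▸ hy,
    fun hx => ⟨x, hx, mem_fixing.1 hg x hx⟩⟩

theorem actOn_eq_one {A : Set Ω} {g : stabilizer G A} :
    actOn A g = 1 ↔ (g : G) ∈ fixingSubgroup G A := by
  rw [mem_fixing]
  constructor
  · intro h x hx
    simpa using congrArg (fun e : Equiv.Perm A => ((e ⟨x, hx⟩ : A) : Ω)) h
  · intro h
    ext x
    simpa using h x x.2

/-- The image of a subgroup on an invariant set. -/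
theorem card_eq_mul_image (X : Subgroup G) (A : Set Ω) (hXA : X ≤ stabilizer G A) :
    Nat.card X = Nat.card (X ⊓ fixingSubgroup G A : Subgroup G) *
      Nat.card ((actOn A).comp (Subgroup.inclusion hXA)).range := by
  let f := (actOn A).comp (Subgroup.inclusion hXA)
  have hk : f.ker = (X ⊓ fixingSubgroup G A).subgroupOf X := by
    ext x
    rw [MonoidHom.mem_ker, mem_subgroupOf, mem_inf]
    exact ⟨fun h => ⟨x.2, actOn_eq_one.1 h⟩, fun h => actOn_eq_one.2 h.2⟩
  rw [card_eq_card_quotient_mul_card_subgroup f.ker,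
    Nat.card_congr (QuotientGroup.quotientKerEquivRange f).toEquiv, hk,
    Nat.card_congr (subgroupOfEquivOfLe inf_le_left).toEquiv, mul_comm]

theorem exists_image_pow {p : ℕ} [Fact p.Prime] {X : Subgroup G} (hX : IsPGroup p X) (A : Set Ω)
    (hXA : X ≤ stabilizer G A) :
    ∃ i : ℕ, p ^ i ∣ A.ncard.factorial ∧
      Nat.card X = Nat.card (X ⊓ fixingSubgroup G A : Subgroup G) * p ^ i := by
  let f := (actOn A).comp (Subgroup.inclusion hXA)
  have hp : IsPGroup p f.range := by
    refine IsPGroup.of_surjective hX f.rangeRestrict f.rangeRestrict_surjective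
  obtain ⟨i, hi⟩ := IsPGroup.iff_card.1 hp
  refine ⟨i, ?_, hi ▸ card_eq_mul_image X A hXA⟩
  have h := f.range.card_subgroup_dvd_card
  rwa [hi, Nat.card_perm, Nat.card_coe_set_eq] at h

/-- A subgroup acting freely at a point of an invariant set. -/
theorem card_le_of_free (X : Subgroup G) (B : Set Ω) (hB : ∀ x ∈ X, ∀ b ∈ B, x • b ∈ B) {b : Ω}
    (hb : b ∈ B) (hfree : ∀ x ∈ X, x • b = b → x = 1) : Nat.card X ≤ B.ncard := by
  rw [← Nat.card_coe_set_eq]
  refine Nat.card_le_card_of_injective (fun x : X => (⟨(x : G) • b, hB x x.2 b hb⟩ : B)) ?_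
  intro x y h
  have h1 : (x : G) • b = (y : G) • b := congrArg Subtype.val h
  have h2 := hfree ((y : G)⁻¹ * x) (mul_mem (inv_mem y.2) x.2)
    (by rw [mul_smul, h1, inv_smul_smul])
  exact Subtype.ext (inv_mul_eq_one.1 h2).symm

theorem ncard_modEq {p : ℕ} [Fact p.Prime] {X : Subgroup G} (hX : IsPGroup p X) (A : Set Ω)
    (hA : X ≤ stabilizer G A) :
    A.ncard ≡ {x ∈ A | ∀ g ∈ X, g • x = x}.ncard [MOD p] := by
  let f : X →* Equiv.Perm A := (actOn A).comp (Subgroup.inclusion hA)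
  letI : MulAction X A := MulAction.compHom A f
  have h := hX.card_modEq_card_fixedPoints A
  rw [Nat.card_coe_set_eq] at h
  suffices he : Nat.card (fixedPoints X A) = {x ∈ A | ∀ g ∈ X, g • x = x}.ncard by rwa [he] at h
  rw [← Nat.card_coe_set_eq {x ∈ A | ∀ g ∈ X, g • x = x}]
  refine Nat.card_congr
    { toFun := fun x => ⟨(x : A), (x : A).2, fun g hg => congrArg Subtype.val (x.2 ⟨g, hg⟩)⟩
      invFun := fun x => ⟨⟨(x : Ω), x.2.1⟩, fun g => Subtype.ext (x.2.2 g g.2)⟩
      left_inv := fun _ => rfl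
      right_inv := fun _ => rfl }

theorem exists_fixed {p : ℕ} [Fact p.Prime] {X : Subgroup G} (hX : IsPGroup p X) {A : Set Ω}
    (hA : X ≤ stabilizer G A) (hp : ¬ p ∣ A.ncard) : ∃ x ∈ A, ∀ g ∈ X, g • x = x := by
  by_contra h
  push Not at h
  have h0 : {x ∈ A | ∀ g ∈ X, g • x = x} = ∅ := Set.eq_empty_of_forall_notMem fun x hx => by
    obtain ⟨g, hg, hne⟩ := h x hx.1
    exact hne (hx.2 g hg)
  have := ncard_modEq hX A hA
  rw [h0, Set.ncard_empty] at this
  exact hp (Nat.modEq_zero_iff_dvd.1 this)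

theorem zpowers_le_stabilizer {g : G} {A : Set Ω} (h : g • A = A) :
    Subgroup.zpowers g ≤ stabilizer G A := Subgroup.zpowers_le.2 h

theorem card_fixed_modEq {p : ℕ} [Fact p.Prime] {g : G} (hg : IsPGroup p (Subgroup.zpowers g)) :
    Nat.card Ω ≡ (fixedBy Ω g).ncard [MOD p] := by
  have h := ncard_modEq hg (Set.univ : Set Ω) (fun x _ => by
    rw [mem_stabilizer_iff, Set.smul_set_univ])
  rw [Set.ncard_univ] at h
  convert h using 2
  ext x
  simp only [mem_fixedBy, Set.mem_setOf_eq, Set.mem_univ, true_and]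
  refine ⟨fun hx y hy => ?_, fun h => h g (Subgroup.mem_zpowers g)⟩
  exact (Subgroup.zpowers_le.2 (show g ∈ stabilizer G x from hx)) hy

theorem isPGroup_zpowers {p : ℕ} {X : Subgroup G} (hX : IsPGroup p X) {g : G} (hg : g ∈ X) :
    IsPGroup p (Subgroup.zpowers g) := hX.to_le (Subgroup.zpowers_le.2 hg)

/-! ### Simplicity -/

theorem not_solvable [IsSimpleGroup G] (hna : ¬ IsMulCommutative G) : ¬ Group.IsSolvable G := fun h =>
  hna ⟨⟨fun a b => IsSimpleGroup.comm_iff_isSolvable.2 h a b⟩⟩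

theorem four_lt_card [IsSimpleGroup G] (hna : ¬ IsMulCommutative G) [FaithfulSMul G Ω] :
    4 < Nat.card Ω := by
  by_contra h
  refine not_solvable hna ?_
  haveI := Cfsg.Agent.H88.isSolvable_perm_of_card_four (α := Fin 4) (by simp)
  haveI := Fintype.ofFinite Ω
  obtain ⟨e⟩ := Function.Embedding.nonempty_of_card_le (α := Ω) (β := Fin 4) (by
    rw [Fintype.card_fin, ← Nat.card_eq_fintype_card]; omega)
  exact Group.isSolvable_of_isSolvable_injective
    (f := (Equiv.Perm.viaEmbeddingHom e).comp (MulAction.toPermHom G Ω))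
    ((Equiv.Perm.viaEmbeddingHom_injective e).comp MulAction.toPerm_injective)

theorem hom_comm_trivial [IsSimpleGroup G] (hna : ¬ IsMulCommutative G) {A : Type*} [CommGroup A]
    (f : G →* A) (g : G) : f g = 1 := by
  rcases (MonoidHom.normal_ker f).eq_bot_or_eq_top with h | h
  · exfalso
    refine hna ⟨⟨fun a b => ?_⟩⟩
    refine (MonoidHom.ker_eq_bot_iff f).1 h ?_
    rw [map_mul, map_mul, mul_comm]
  · exact MonoidHom.mem_ker.1 (h ▸ Subgroup.mem_top g)

theorem mod_four [IsSimpleGroup G] (hna : ¬ IsMulCommutative G) {x : G} (hx : x * x = 1) :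
    Nat.card Ω % 4 = (fixedBy Ω x).ncard % 4 := by
  classical
  haveI := Fintype.ofFinite Ω
  have hs : Equiv.Perm.sign (MulAction.toPermHom G Ω x) = 1 :=
    hom_comm_trivial hna (Equiv.Perm.sign.comp (MulAction.toPermHom G Ω)) x
  have h2 : (MulAction.toPermHom G Ω x) ^ 2 = 1 := by rw [← map_pow, pow_two, hx, map_one]
  rw [Equiv.Perm.sign_of_pow_two_eq_one h2] at hs
  have hfix : Fintype.card (Function.fixedPoints (MulAction.toPermHom G Ω x)) = (fixedBy Ω x).ncard := by
    rw [← Nat.card_eq_fintype_card, Nat.card_coe_set_eq]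
    rfl
  rw [hfix, ← Nat.card_eq_fintype_card] at hs
  have hev : Even ((Nat.card Ω - (fixedBy Ω x).ncard) / 2) := by
    by_contra ho
    rw [(Nat.not_even_iff_odd.1 ho).neg_one_pow] at hs
    exact absurd hs (by decide)
  have hle : (fixedBy Ω x).ncard ≤ Nat.card Ω := by
    rw [← Set.ncard_univ Ω]
    exact Set.ncard_le_ncard (Set.subset_univ _) (Set.toFinite _)
  have hpar : Nat.card Ω ≡ (fixedBy Ω x).ncard [MOD 2] := by
    haveI : Fact (Nat.Prime 2) := ⟨Nat.prime_two⟩
    refine card_fixed_modEq (IsPGroup.of_card_dvd_pow (n := 1) ?_)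
    rw [Nat.card_zpowers, pow_one, orderOf_dvd_iff_pow_eq_one, pow_two, hx]
  obtain ⟨c, hc⟩ := hev
  rw [Nat.ModEq] at hpar
  omega

/-! ### Sylow subgroups -/

theorem sylow_conj_mem {p : ℕ} [Fact p.Prime] (P : Sylow p G) {M : Subgroup G} (hM : (P : Subgroup G) ≤ M)
    {X : Subgroup G} (hX : IsPGroup p X) (hXM : X ≤ M) :
    ∃ m ∈ M, ∀ x ∈ X, m * x * m⁻¹ ∈ (P : Subgroup G) := by
  obtain ⟨Q, hQ⟩ := (hX.comap_subtype : IsPGroup p (X.subgroupOf M)).exists_le_sylow
  obtain ⟨m, hm⟩ := MulAction.exists_smul_eq M Q (P.subtype hM)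
  refine ⟨(m : G), m.2, fun x hx => ?_⟩
  have h1 : m * ⟨x, hXM hx⟩ * m⁻¹ ∈ ((m • Q : Sylow p M) : Subgroup M) := by
    rw [Sylow.smul_def, Sylow.pointwise_smul_def]
    exact ⟨⟨x, hXM hx⟩, hQ hx, rfl⟩
  rw [hm, Sylow.coe_subtype, mem_subgroupOf] at h1
  exact h1

/-- The setwise stabiliser of a set fixed exactly by the `p`-elements of a Sylow subgroup. -/
theorem uniform {p : ℕ} [hp : Fact p.Prime] [IsSimpleGroup G] (hna : ¬ IsMulCommutative G)
    [FaithfulSMul G Ω] (htr : IsPretransitive G Ω) (P : Sylow p G) (F : Set Ω) (hF : F.Nonempty)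
    (hF4 : F.ncard ≤ 4) (hPF : (P : Subgroup G) ≤ stabilizer G F)
    (hall : ∀ x ∈ (P : Subgroup G), orderOf x = p → fixedBy Ω x = F) (hdvd : p ∣ Nat.card G) :
    stabilizer G F ≠ ⊤ ∧ p ∣ Nat.card (stabilizer G F) ∧
      ∀ g : G, g ∉ stabilizer G F →
        ¬ p ∣ Nat.card ↥(stabilizer G F ⊓ (stabilizer G F).map (MulAut.conj g).toMonoidHom) := by
  refine ⟨fun htop => ?_, ?_, fun g hg hd => hg ?_⟩
  · obtain ⟨a, ha⟩ := hF
    have huniv : F = Set.univ := Set.eq_univ_of_forall fun y => by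
      obtain ⟨g, rfl⟩ := htr.exists_smul_eq a y
      have h1 : g ∈ stabilizer G F := htop ▸ mem_top g
      rw [← h1]
      exact Set.smul_mem_smul_set ha
    rw [huniv, Set.ncard_univ] at hF4
    have := four_lt_card (Ω := Ω) hna
    omega
  · exact (P.dvd_card_of_dvd_card hdvd).trans (card_dvd_of_le hPF)
  · obtain ⟨y, hy⟩ := exists_prime_orderOf_dvd_card' p hd
    rw [← orderOf_coe] at hy
    have hyM : (y : G) ∈ stabilizer G F := y.2.1
    obtain ⟨z, hz, hzy⟩ := y.2.2
    replace hzy : g * z * g⁻¹ = (y : G) := hzy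
    have key : ∀ w ∈ stabilizer G F, orderOf w = p → fixedBy Ω w = F := by
      intro w hw how
      obtain ⟨m, hm, hmP⟩ := sylow_conj_mem P hPF
        (IsPGroup.of_card (p := p) (n := 1) (G := zpowers w) (by rw [Nat.card_zpowers, how, pow_one]))
        (zpowers_le.2 hw)
      have h1 := hall _ (hmP w (mem_zpowers w)) (by
        rw [← how]; exact orderOf_injective (MulAut.conj m).toMonoidHom (MulAut.conj m).injective w)
      rw [fixedBy_conj] at h1
      rw [← inv_smul_smul m (fixedBy Ω w), h1]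
      exact (inv_mem hm : m⁻¹ ∈ stabilizer G F)
    have hzo : orderOf z = p := by
      rw [← hy, ← hzy]; exact (orderOf_injective (MulAut.conj g).toMonoidHom (MulAut.conj g).injective z).symm
    have h1 := key _ hyM hy
    rw [← hzy, fixedBy_conj, key z hz hzo] at h1
    exact h1

theorem isStronglyEmbedded_of_uniform [IsSimpleGroup G] (hna : ¬ IsMulCommutative G) [FaithfulSMul G Ω]
    (htr : IsPretransitive G Ω) (S : Sylow 2 G) (F : Set Ω) (hF : F.Nonempty) (hF4 : F.ncard ≤ 4)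
    (hSF : (S : Subgroup G) ≤ stabilizer G F)
    (hall : ∀ x ∈ (S : Subgroup G), orderOf x = 2 → fixedBy Ω x = F) (hdvd : 2 ∣ Nat.card G) :
    Cfsg.IsStronglyEmbedded (stabilizer G F) := by
  haveI : Fact (Nat.Prime 2) := ⟨Nat.prime_two⟩
  obtain ⟨h1, h2, h3⟩ := uniform hna htr S F hF hF4 hSF hall hdvd
  exact ⟨h1, even_iff_two_dvd.2 h2, fun g hg => Nat.not_even_iff_odd.1 fun he => h3 g hg he.two_dvd⟩

end Cfsg.Agent.H81.Fix4
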