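import Cfsg.Agent.H81.Fix4.Core

/-!
An auxiliary fixer forces sectional rank at most four.
-/

set_option autoImplicit false
set_option linter.unusedSectionVars false

namespace Cfsg.Agent.H81.Fix4

open MulAction Pointwise Subgroup
open Cfsg.Agent.H81.MacW (sqSub sq_mem_sqSub card_split card_pow_two sectional_of_sq comm_mem_sqSub)
open Cfsg.Agent.H81.SelfEight (flag_bound bound_of two_le_card card_le_fix_sq)

variable {S Ω : Type*} [Group S] [Finite S] [MulAction S Ω] [Finite Ω]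
variable (h4 : Small4 S Ω)
include h4

theorem beta (hP : IsPGroup 2 S) (E : Subgroup S) [hEn : E.Normal] (hE2 : ∀ x ∈ E, x * x = 1)
    (h8 : Nat.card E = 8) {t : S} (htf : Fixer Ω t) (haux : Aux Ω t)
    (hnoaux : ∀ e ∈ E, Fixer Ω e → ¬ Aux Ω e)
    (hdis : ∀ e ∈ E, Fixer Ω e →
      3 ≤ Nat.card (fixingSubgroup S (fixedBy Ω t)) → Disjoint (fixedBy Ω e) (fixedBy Ω t)) :
    Cfsg.SectionalPRankLE 2 4 S := by
  classical
  haveI : Fact (Nat.Prime 2) := ⟨Nat.prime_two⟩
  have hEc : ∀ x ∈ E, ∀ y ∈ E, x * y = y * x := fun x hx y hy => comm_of_exp_two hE2 hx hy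
  obtain ⟨ht1, ht2, hF⟩ := htf
  obtain ⟨O, hd, hO, hO4, hst⟩ := haux
  obtain ⟨F, hFdef⟩ : ∃ F, F = fixedBy Ω t := ⟨_, rfl⟩
  rw [← hFdef] at hF hd hst
  obtain ⟨V, hV⟩ : ∃ V, V = E ⊓ centralizer ({t} : Set S) := ⟨_, rfl⟩
  have hVE : V ≤ E := hV ▸ inf_le_left
  have hVt : ∀ v ∈ V, v * t = t * v := fun v hv => mem_centralizer_singleton_iff.1 (hV ▸ hv).2
  have hVF : V ≤ stabilizer S F := fun v hv => by
    rw [mem_stabilizer_iff, hFdef, smul_fixedBy_of_comm (hVt v hv)]
  -- `E` meets the kernel trivially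
  have hEK : ∀ x ∈ E, x ∈ fixingSubgroup S F → x = 1 := by
    intro x hx hxF
    by_contra hx1
    have hfx := fix_eq_four h4 hF hx1 (mem_fixing.1 hxF)
    exact hnoaux x hx ⟨hx1, hE2 x hx, by rw [hfx, hF]⟩ ⟨O, by rw [hfx]; exact hd, hO, hO4, by
      rw [hfx]; exact hst⟩
  have hVK : V ⊓ fixingSubgroup S F = ⊥ :=
    eq_bot_iff.2 fun x hx => mem_bot.2 (hEK x (hVE hx.1) hx.2)
  have hV4' : Nat.card V ≤ 4 := by
    have := card_le_four_mul V F hF hVF fun v hv => hE2 v (hVE hv)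
    rwa [hVK, card_bot, mul_one] at this
  have hV4 : Nat.card V = 4 := by
    have h := card_le_fix_sq E hEc hE2 ht2 (fun x hx => hEn.conj_mem x hx t)
    rw [h8, ← hV] at h
    obtain ⟨n, hn⟩ := card_pow_two hP V
    rw [hn] at h hV4' ⊢
    rcases n with _ | _ | _ | n
    · simp at h
    · simp at h
    · rfl
    · rw [pow_succ, pow_succ, pow_succ] at hV4'
      have := Nat.one_le_two_pow (n := n)
      omega
  obtain ⟨K, hK⟩ : ∃ K, K = fixingSubgroup S F := ⟨_, rfl⟩
  have htK : t ∈ K := hK ▸ mem_fixing.2 fun p hp => by rw [hFdef] at hp; exact hp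
  have hKO : Nat.card K ≤ O.ncard :=
    hK ▸ card_fixing_le h4 hF hd hO _ le_rfl ((fixing_le_stabilizer F).trans hst)
  -- the four group covers everything centralising it
  have hcover : ∀ x ∈ stabilizer S F, (∀ v ∈ V, x * v = v * x) → ∃ v ∈ V, v⁻¹ * x ∈ K := by
    intro x hx hxV
    have hX : V ⊔ zpowers x ≤ stabilizer S F := sup_le hVF (zpowers_le.2 hx)
    obtain ⟨v, hv, hvx⟩ := exists_cover (V ⊔ zpowers x) V F hF le_sup_left hX
      (fun v hv => hE2 v (hVE hv)) (by rw [hVK, card_bot, hV4]; norm_num)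
      (fun y hy v hv => by
        have : V ⊔ zpowers x ≤ centralizer ({v} : Set S) := sup_le
          (fun w hw => mem_centralizer_singleton_iff.2 (hEc w (hVE hw) v (hVE hv)))
          (zpowers_le.2 (mem_centralizer_singleton_iff.2 (hxV v hv)))
        exact mem_centralizer_singleton_iff.1 (this hy)) x (mem_sup_right (mem_zpowers x))
    exact ⟨v, hv, hK ▸ hvx⟩
  by_cases hK2 : Nat.card K ≤ 2
  · -- a self-centralising group of order eight
    have hKt : zpowers t = K := eq_of_le_of_card_ge (zpowers_le.2 htK) (by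
      rw [Nat.card_zpowers, orderOf_eq_prime (by rw [pow_two]; exact ht2) ht1]; exact hK2)
    obtain ⟨A, hA⟩ : ∃ A, A = V ⊔ zpowers t := ⟨_, rfl⟩
    have hAct : A ≤ centralizer ({t} : Set S) := hA ▸ sup_le
      (fun w hw => mem_centralizer_singleton_iff.2 (hVt w hw))
      (zpowers_le.2 (mem_centralizer_singleton_iff.2 rfl))
    have hAV : ∀ a ∈ A, ∀ v ∈ V, a * v = v * a := fun a ha v hv => by
      have : A ≤ centralizer ({v} : Set S) := hA ▸ sup_le
        (fun w hw => mem_centralizer_singleton_iff.2 (hEc w (hVE hw) v (hVE hv)))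
        (zpowers_le.2 (mem_centralizer_singleton_iff.2 (hVt v hv).symm))
      exact mem_centralizer_singleton_iff.1 (this ha)
    have hdec : ∀ x : S, x * t = t * x → (∀ v ∈ V, x * v = v * x) → ∃ v ∈ V, x = v ∨ x = v * t := by
      intro x hxt hxV
      obtain ⟨v, hv, hvx⟩ := hcover x (by
        rw [mem_stabilizer_iff, hFdef, smul_fixedBy_of_comm hxt]) hxV
      rw [← hKt] at hvx
      obtain ⟨i, hi⟩ := (isOfFinOrder_of_finite t).mem_powers_iff_mem_zpowers.2 hvx
      simp only at hi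
      rw [pow_eq_pow_mod i (show t ^ 2 = 1 by rw [pow_two]; exact ht2)] at hi
      refine ⟨v, hv, ?_⟩
      have hi2 : i % 2 = 0 ∨ i % 2 = 1 := by omega
      rcases hi2 with e | e <;> rw [e] at hi
      · left; rw [pow_zero] at hi; exact (inv_mul_eq_one.1 hi.symm).symm
      · right; rw [pow_one] at hi; rw [hi, mul_inv_cancel_left]
    have hA8 : Nat.card A = 8 := by
      refine le_antisymm ?_ ?_
      · refine le_trans (Nat.card_le_card_of_injective (fun a : A => ((
          ⟨((hdec a (mem_centralizer_singleton_iff.1 (hAct a.2)) (hAV a a.2)).choose),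
            (hdec a (mem_centralizer_singleton_iff.1 (hAct a.2)) (hAV a a.2)).choose_spec.1⟩,
          decide ((a : S) = (hdec a (mem_centralizer_singleton_iff.1 (hAct a.2)) (hAV a a.2)).choose)) :
          V × Bool)) ?_) (by rw [Nat.card_prod, hV4]; simp)
        intro a b hab
        simp only [Prod.mk.injEq, Subtype.mk.injEq, decide_eq_decide] at hab
        have sa := (hdec a (mem_centralizer_singleton_iff.1 (hAct a.2)) (hAV a a.2)).choose_spec.2
        have sb := (hdec b (mem_centralizer_singleton_iff.1 (hAct b.2)) (hAV b b.2)).choose_spec.2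
        refine Subtype.ext ?_
        rcases sa with e | e
        · rw [e, hab.1, ← hab.2.1 e]
        · rcases sb with e' | e'
          · rw [e', ← hab.1, ← hab.2.2 e']
          · rw [e, e', hab.1]
      · have hlt : V < A := lt_of_le_of_ne (hA ▸ le_sup_left) fun h => ht1 (hEK t
          (hVE (h ▸ (hA ▸ mem_sup_right (mem_zpowers t) : t ∈ A))) (hK ▸ htK))
        obtain ⟨n, hn⟩ := card_pow_two hP A
        have h := lt_of_le_of_ne (card_le_of_le hlt.le) fun h => hlt.ne (eq_of_le_of_card_ge hlt.le h.ge)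
        rw [hV4, hn] at h
        rw [hn]
        calc 8 = 2 ^ 3 := by norm_num
          _ ≤ _ := Nat.pow_le_pow_right (by norm_num) (by
            by_contra hh
            have := Nat.pow_le_pow_right (show 1 ≤ 2 by norm_num) (show n ≤ 2 by omega)
            omega)
    have hA2 : ∀ a ∈ A, a * a = 1 := fun a ha => by
      obtain ⟨v, hv, e | e⟩ := hdec a (mem_centralizer_singleton_iff.1 (hAct ha)) (hAV a ha)
      · rw [e, hE2 v (hVE hv)]
      · rw [e, show v * t * (v * t) = v * (t * v) * t by group, ← hVt v hv,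
          show v * (v * t) * t = (v * v) * (t * t) by group, hE2 v (hVE hv), ht2, one_mul]
    refine Cfsg.Agent.H81.SelfEight.sectional_rank_le_four hP A
      ⟨⟨⟨fun a b => Subtype.ext (comm_of_exp_two hA2 a.2 b.2)⟩⟩,
        fun g hg => by rw [pow_two]; exact hA2 g hg⟩ hA8 ?_
    refine le_antisymm (fun x hx => ?_) fun x hx =>
      mem_centralizer_iff.2 fun y hy => comm_of_exp_two hA2 hy hx
    rw [mem_centralizer_iff] at hx
    obtain ⟨v, hv, e | e⟩ := hdec x (hx t (hA ▸ mem_sup_right (mem_zpowers t))).symm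
      fun v hv => (hx v (hA ▸ mem_sup_left hv)).symm
    · rw [e, hA]; exact mem_sup_left hv
    · rw [e, hA]; exact mul_mem (mem_sup_left hv) (mem_sup_right (mem_zpowers t))
  -- a four group of kernels
  have hK4 : Nat.card K = 4 := by
    obtain ⟨n, hn⟩ := card_pow_two hP K
    rw [hn] at hKO hK2 ⊢
    rcases n with _ | _ | _ | n
    · simp at hK2
    · simp at hK2
    · rfl
    · rw [pow_succ, pow_succ, pow_succ] at hKO
      have := Nat.one_le_two_pow (n := n)
      omega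
  have hdisF : ∀ e ∈ E, Fixer Ω e → Disjoint (fixedBy Ω e) F := fun e he hef => by
    rw [hFdef]
    exact hdis e he hef
      (by rw [← hFdef, ← hK, hK4]; norm_num)
  have hKconj : ∀ v ∈ stabilizer S F, ∀ k ∈ K, v * k * v⁻¹ ∈ K := fun v hv k hk => by
    rw [hK] at hk ⊢
    refine mem_fixing.2 fun p hp => ?_
    rw [mul_smul, mul_smul, mem_fixing.1 hk _ (by
      rw [← Set.mem_smul_set_iff_inv_smul_mem, show v • F = F from hv]; exact hp), smul_inv_smul]
  have hKV : ∀ k ∈ K, ∀ v ∈ V, k * v = v * k := by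
    intro k hk v hv
    have h1 : k * v * k⁻¹ * v⁻¹ ∈ K := by
      rw [show k * v * k⁻¹ * v⁻¹ = k * (v * k⁻¹ * v⁻¹) by group]
      exact mul_mem hk (hKconj v (hVF hv) _ (inv_mem hk))
    have h := hEK _ (mul_mem (hEn.conj_mem v (hVE hv) k) (inv_mem (hVE hv))) (hK ▸ h1)
    rwa [mul_inv_eq_one, mul_inv_eq_iff_eq_mul] at h
  have hK2' : ∀ k ∈ K, k * k = 1 := by
    intro h hh
    by_contra hh2
    obtain ⟨-, hsq⟩ := four_cyclic hP hK4.le hh hh2
    have ht : t = h * h := ((hsq t htK).2 ht2).resolve_left ht1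
    obtain ⟨x, hx, hxV⟩ : ∃ x ∈ E, x ∉ V := by
      by_contra hcon
      push Not at hcon
      have := card_le_of_le (show E ≤ V from hcon)
      omega
    have hhxV : h * x * h⁻¹ ∉ V := fun hm => hxV (by
      have := hKV h hh _ hm
      have e : h * x * h⁻¹ = x := by
        calc h * x * h⁻¹ = h⁻¹ * (h * (h * x * h⁻¹)) := by group
          _ = h⁻¹ * ((h * x * h⁻¹) * h) := by rw [this]
          _ = x := by group
      rwa [e] at hm)
    have hidx : (V.subgroupOf E).index = 2 := by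
      have h := index_mul_card (V.subgroupOf E)
      rw [Nat.card_congr (subgroupOfEquivOfLe hVE).toEquiv, hV4, h8] at h
      omega
    have hdV : h * x * h⁻¹ * x ∈ V := by
      have := (mul_mem_iff_of_index_two hidx (a := (⟨h * x * h⁻¹, hEn.conj_mem x hx h⟩ : E))
        (b := ⟨x, hx⟩)).2 (by simp [mem_subgroupOf, hxV, hhxV])
      simpa [mem_subgroupOf] using this
    refine hxV (hV ▸ ⟨hx, mem_centralizer_singleton_iff.2 ?_⟩)
    obtain ⟨d, hd'⟩ : ∃ d, d = h * x * h⁻¹ * x := ⟨_, rfl⟩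
    rw [← hd'] at hdV
    have hx' : h * x * h⁻¹ = d * x := by rw [hd', mul_assoc (h * x * h⁻¹), hE2 x hx, mul_one]
    have hd2 := hE2 d (hVE hdV)
    have hdh : h * d * h⁻¹ = d := by rw [hKV h hh d hdV, mul_inv_cancel_right]
    rw [ht, eq_comm, ← mul_inv_eq_iff_eq_mul]
    calc h * h * x * (h * h)⁻¹ = h * (h * x * h⁻¹) * h⁻¹ := by group
      _ = (h * d * h⁻¹) * (h * x * h⁻¹) := by
        rw [show h * (h * x * h⁻¹) * h⁻¹ = h * (d * x) * h⁻¹ by rw [hx']]; group
      _ = d * (d * x) := by rw [hdh, hx']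
      _ = x := by rw [← mul_assoc, hd2, one_mul]
  have hVw : ∀ w ∈ K, w ≠ 1 → ∀ x ∈ E, x * w = w * x → x ∈ V := by
    intro w hw hw1 x hx hxw
    obtain ⟨U, hU⟩ : ∃ U, U = E ⊓ centralizer ({w} : Set S) := ⟨_, rfl⟩
    have hUF : U ≤ stabilizer S F := fun u hu => by
      rw [mem_stabilizer_iff, ← fix_eq_four h4 hF hw1 (mem_fixing.1 (hK ▸ hw))]
      exact smul_fixedBy_of_comm (mem_centralizer_singleton_iff.1 (hU ▸ hu).2)
    have hUK : U ⊓ fixingSubgroup S F = ⊥ :=
      eq_bot_iff.2 fun u hu => mem_bot.2 (hEK u (hU ▸ hu.1).1 hu.2)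
    have hU4 := card_le_four_mul U F hF hUF fun u hu => hE2 u (hU ▸ hu).1
    rw [hUK, card_bot, mul_one] at hU4
    have hle : V ≤ U := hU ▸ fun v hv =>
      ⟨hVE hv, mem_centralizer_singleton_iff.2 (hKV w hw v hv).symm⟩
    exact (eq_of_le_of_card_ge hle (by rw [hV4]; exact hU4)).ge
      (hU ▸ ⟨hx, mem_centralizer_singleton_iff.2 hxw⟩)
  refine rank_of_four_group hP E K V hEc hE2 h8 hK4 hK2' hVE hV4 (fun v hv w hw => hKV w hw v hv) ?_
  intro w hw hw1 x hx hxw
  have hxE : ∀ v ∈ E, v * x = x * v := mem_centralizer_iff.1 hx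
  obtain ⟨v, hv, hvx⟩ := hcover x (by
    rw [mem_stabilizer_iff, ← fix_eq_four h4 hF hw1 (mem_fixing.1 (hK ▸ hw))]
    exact smul_fixedBy_of_comm hxw) fun v hv => (hxE v (hVE hv)).symm
  by_cases hk1 : v⁻¹ * x = 1
  · rwa [← inv_mul_eq_one.1 hk1]
  exfalso
  have hle : E ≤ V := fun u hu => hVw _ hvx hk1 u hu (by
    calc u * (v⁻¹ * x) = (u * v⁻¹) * x := by group
      _ = v⁻¹ * (u * x) := by rw [hEc u hu _ (inv_mem (hVE hv))]; group
      _ = v⁻¹ * x * u := by rw [hxE u hu]; group)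
  have := card_le_of_le hle
  omega

theorem core (hP : IsPGroup 2 S) {t : S} (htf : Fixer Ω t) (haux : Aux Ω t)
    (hdich : ∀ e : S, Fixer Ω e → Aux Ω e ∨
      (3 ≤ Nat.card (fixingSubgroup S (fixedBy Ω t)) → Disjoint (fixedBy Ω e) (fixedBy Ω t))) :
    Cfsg.SectionalPRankLE 2 4 S := by
  classical
  haveI : Fact (Nat.Prime 2) := ⟨Nat.prime_two⟩
  by_cases h : ∀ A : Subgroup S, A.Normal → IsMulCommutative A → (∀ a ∈ A, a ^ 2 = 1) → Nat.card A ≤ 4
  · exact Cfsg.Agent.H81.MacW.macWilliams hP h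
  push Not at h
  obtain ⟨B, hBn, -, hB2, hB4⟩ := h
  obtain ⟨E, hEn, hEB, hE8⟩ : ∃ E : Subgroup S, E.Normal ∧ E ≤ B ∧ Nat.card E = 8 := by
    obtain ⟨n, hn⟩ := card_pow_two hP B
    haveI := hBn
    obtain ⟨E, hE1, hE2', hE3⟩ := Cfsg.Agent.H24.exists_normal_le_card hP hn (j := 3) (by
      by_contra hh
      have := Nat.pow_le_pow_right (show 1 ≤ 2 by norm_num) (show n ≤ 2 by omega)
      omega)
    exact ⟨E, hE1, hE2', by rw [hE3]; norm_num⟩
  haveI := hEn
  have hE2 : ∀ x ∈ E, x * x = 1 := fun x hx => by rw [← pow_two]; exact hB2 x (hEB hx)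
  by_cases ha : ∃ e ∈ E, Fixer Ω e ∧ Aux Ω e
  · obtain ⟨e, he, hef, hea⟩ := ha
    exact alpha h4 hP E hE2 hE8 he hef hea
  push Not at ha
  exact beta h4 hP E hE2 hE8 htf haux ha fun e he hef => (hdich e hef).resolve_left (ha e he hef)

end Cfsg.Agent.H81.Fix4
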