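import Cfsg.Agent.H81.Fix4.Beta
import Cfsg.Agent.H29.SmallOrder720
import Cfsg.Agent.H21.UniqueSubgroup

/-!
All fixers of a Sylow 2-subgroup have the same fixed point set.
-/

set_option autoImplicit false
set_option linter.unusedSectionVars false

namespace Cfsg.Agent.H81.Fix4

open MulAction Pointwise Subgroup
open Cfsg.Agent.H81.MacW (sqSub sq_mem_sqSub card_split card_pow_two sectional_of_sq comm_mem_sqSub)
open Cfsg.Agent.H81.SelfEight (two_le_card card_le_fix_sq card_cyclic_le)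

variable {G Ω : Type*} [Group G] [Finite G] [MulAction G Ω] [Finite Ω]

theorem commute_of_two {a b : G} (ha : a * a = 1) (hb : b * b = 1) (hab : (a * b) * (a * b) = 1) :
    a * b = b * a := by
  calc a * b = (a * b)⁻¹ := eq_inv_of_mul_eq_one_left hab
    _ = b * a := by
      rw [mul_inv_rev, inv_eq_of_mul_eq_one_right ha, inv_eq_of_mul_eq_one_right hb]

theorem conj_of_odd {a b : G} (ha : a * a = 1) (hb : b * b = 1) (h : Odd (orderOf (a * b))) :
    ∃ c : G, b = c * a * c⁻¹ := by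
  obtain ⟨k, hk⟩ := h
  obtain ⟨m, hm⟩ : ∃ m, m = (a * b) ^ (k + 1) := ⟨_, rfl⟩
  have hmm : m * m = a * b := by
    rw [hm, ← pow_add, show k + 1 + (k + 1) = (2 * k + 1) + 1 by ring, pow_succ, ← hk,
      pow_orderOf_eq_one, one_mul]
  have ai : a⁻¹ = a := inv_eq_of_mul_eq_one_right ha
  have bi : b⁻¹ = b := inv_eq_of_mul_eq_one_right hb
  have ham : a * m * a = m⁻¹ := by
    have : a * m * a⁻¹ = m⁻¹ := by
      rw [hm, ← conj_pow, ← inv_pow, mul_inv_rev, ai, bi]
      congr 1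
      rw [← mul_assoc, ha, one_mul]
    rwa [ai] at this
  refine ⟨a * m, ?_⟩
  have e1 : m * a * m⁻¹ = a * b * a := by
    rw [← ham, show m * a * (a * m * a) = m * (a * a) * m * a by group, ha, mul_one, hmm]
  calc b = a * a * b * (a * a) := by rw [ha, one_mul, mul_one]
    _ = a * (a * b * a) * a := by group
    _ = a * (m * a * m⁻¹) * a⁻¹ := by rw [e1, ai]
    _ = _ := by group

theorem exists_between {a b : G} (ha : a * a = 1) (hb : b * b = 1) (hab : a ≠ b)
    (h : ¬ Odd (orderOf (a * b))) :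
    ∃ u : G, u ≠ 1 ∧ u * u = 1 ∧ a * u = u * a ∧ b * u = u * b := by
  obtain ⟨k, hk⟩ := (Nat.not_odd_iff_even.1 h)
  have hk0 : 0 < k := by have := orderOf_pos (a * b); omega
  obtain ⟨u, hu⟩ : ∃ u, u = (a * b) ^ k := ⟨_, rfl⟩
  have hu2 : u * u = 1 := by rw [hu, ← pow_add, ← hk, pow_orderOf_eq_one]
  have hui : u⁻¹ = u := inv_eq_of_mul_eq_one_right hu2
  have ai : a⁻¹ = a := inv_eq_of_mul_eq_one_right ha
  have bi : b⁻¹ = b := inv_eq_of_mul_eq_one_right hb
  refine ⟨u, fun h1 => ?_, hu2, ?_, ?_⟩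
  · have := orderOf_le_of_pow_eq_one hk0 (hu ▸ h1)
    omega
  · rw [← mul_inv_eq_iff_eq_mul]
    conv_rhs => rw [← hui]
    rw [hu, ← conj_pow, ← inv_pow, mul_inv_rev, ai, bi]
    congr 1
    rw [← mul_assoc, ha, one_mul]
  · rw [← mul_inv_eq_iff_eq_mul]
    conv_rhs => rw [← hui]
    rw [hu, ← conj_pow, ← inv_pow, mul_inv_rev, ai, bi]
    congr 1
    rw [mul_assoc b (a * b), mul_assoc a b b, hb, mul_one]

theorem order_two_zpowers {u : G} (h : u * u = 1) : IsPGroup 2 (zpowers u) := by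
  haveI : Fact (Nat.Prime 2) := ⟨Nat.prime_two⟩
  refine IsPGroup.of_card_dvd_pow (n := 1) ?_
  rw [Nat.card_zpowers, pow_one, orderOf_dvd_iff_pow_eq_one, pow_two, h]

/-- The data of the closed case. -/
structure ClosedCtx (G Ω : Type*) [Group G] [MulAction G Ω] (F : Set Ω) : Prop where
  h4 : Small4 G Ω
  hF : F.ncard = 4
  hfree : ∀ u : G, u ≠ 1 → u * u = 1 → ∀ p : Ω, u • p = p → (fixedBy Ω u).ncard = 4
  hfix : ∀ u ∈ stabilizer G F, u ≠ 1 → u * u = 1 → ∀ p : Ω, u • p = p → fixedBy Ω u = F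
  hsign : ∀ c v : G, c ∈ stabilizer G F → v ∈ stabilizer G F → v * v = 1 →
    v ∉ fixingSubgroup G F → c * v = v * c → c * c ∈ fixingSubgroup G F
  hcen : ∀ Q : Subgroup G, IsPGroup 2 Q → Q ≤ stabilizer G F →
    ∃ z ∈ fixingSubgroup G F, z ≠ 1 ∧ z * z = 1 ∧ ∀ q ∈ Q, q * z = z * q

variable {F : Set Ω}

theorem ClosedCtx.fix_translate (h : ClosedCtx G Ω F) {g u : G} (hu : u • g • F = g • F) (hu1 : u ≠ 1)
    (hu2 : u * u = 1) {p : Ω} (hp : u • p = p) : fixedBy Ω u = g • F := by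
  have h1 := h.hfix (g⁻¹ * u * g) (show (g⁻¹ * u * g) • F = F by
      rw [mul_smul, mul_smul, hu, inv_smul_smul])
    (fun hh => hu1 (by
      calc u = g * (g⁻¹ * u * g) * g⁻¹ := by group
        _ = 1 := by rw [hh]; group))
    (by rw [show g⁻¹ * u * g * (g⁻¹ * u * g) = g⁻¹ * (u * u) * g by group, hu2]; group) (g⁻¹ • p)
    (by rw [mul_smul, mul_smul, smul_inv_smul, hp])
  rw [show g⁻¹ * u * g = g⁻¹ * u * g⁻¹⁻¹ by group, fixedBy_conj] at h1
  rw [← h1, smul_inv_smul]

theorem ClosedCtx.sq_translate (h : ClosedCtx G Ω F) {g c v : G} (hc : c • g • F = g • F)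
    (hv : v • g • F = g • F) (hv2 : v * v = 1) (hvf : v ∉ fixingSubgroup G (g • F))
    (hcv : c * v = v * c) : c * c ∈ fixingSubgroup G (g • F) := by
  have key : ∀ x : G, g⁻¹ * x * g ∈ fixingSubgroup G F ↔ x ∈ fixingSubgroup G (g • F) := fun x => by
    rw [mem_fixing, mem_fixing]
    constructor
    · intro hx p hp
      have h1 := hx (g⁻¹ • p) (Set.mem_smul_set_iff_inv_smul_mem.1 hp)
      rw [mul_smul, mul_smul, smul_inv_smul] at h1
      exact MulAction.injective g⁻¹ h1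
    · intro hx p hp
      rw [mul_smul, mul_smul, hx _ (Set.smul_mem_smul_set hp), inv_smul_smul]
  have hst : ∀ x : G, x • g • F = g • F → g⁻¹ * x * g ∈ stabilizer G F := fun x hx => by
    rw [mem_stabilizer_iff, mul_smul, mul_smul, hx, inv_smul_smul]
  have := h.hsign _ _ (hst c hc) (hst v hv)
    (by rw [show g⁻¹ * v * g * (g⁻¹ * v * g) = g⁻¹ * (v * v) * g by group, hv2]; group)
    (fun hh => hvf ((key v).1 hh))
    (by
      calc g⁻¹ * c * g * (g⁻¹ * v * g) = g⁻¹ * (c * v) * g := by group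
        _ = g⁻¹ * (v * c) * g := by rw [hcv]
        _ = _ := by group)
  refine (key _).1 ?_
  rwa [show g⁻¹ * (c * c) * g = g⁻¹ * c * g * (g⁻¹ * c * g) by group]

theorem ClosedCtx.exists_fixer (h : ClosedCtx G Ω F) {v : G} (hv2 : v * v = 1) (g : G)
    (hv : v • g • F = g • F) :
    ∃ t : G, t ≠ 1 ∧ t * t = 1 ∧ t * v = v * t ∧ fixedBy Ω t = g • F := by
  obtain ⟨z, hz, hz1, hz2, hzc⟩ := h.hcen (zpowers (g⁻¹ * v * g)) (order_two_zpowers (by
      rw [show g⁻¹ * v * g * (g⁻¹ * v * g) = g⁻¹ * (v * v) * g by group, hv2]; group))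
    (zpowers_le.2 (by rw [mem_stabilizer_iff, mul_smul, mul_smul, hv, inv_smul_smul]))
  refine ⟨g * z * g⁻¹, fun hh => hz1 ?_, ?_, ?_, ?_⟩
  · rwa [conj_eq_one_iff] at hh
  · rw [show g * z * g⁻¹ * (g * z * g⁻¹) = g * (z * z) * g⁻¹ by group, hz2]; group
  · have := hzc _ (mem_zpowers (g⁻¹ * v * g))
    calc g * z * g⁻¹ * v = g * (z * (g⁻¹ * v * g)) * g⁻¹ := by group
      _ = g * (g⁻¹ * v * g * z) * g⁻¹ := by rw [this]
      _ = v * (g * z * g⁻¹) := by group
  · rw [fixedBy_conj, fix_eq_four h.h4 h.hF hz1 (mem_fixing.1 hz)]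

/-- A second stabilised translate. -/
theorem ClosedCtx.key (h : ClosedCtx G Ω F) {v : G} (hv2 : v * v = 1) (hv1 : v ≠ 1)
    (hvF : v • F = F) {g0 : G} (hg0 : g0 • F ≠ F) (hvg0 : v • g0 • F = g0 • F)
    {y : G} (hy2 : y * y = 1) (hyF : y • F = F) (hyv : y * v = v * y)
    (huniq : ∀ g : G, v • g • F = g • F → y • g • F = g • F → g • F = F)
    {z : G} (hz2 : z * z = 1) (hz1 : z ≠ 1) (hzv : z * v = v * z) (hzfix : fixedBy Ω z = F) :
    ∃ g : G, g • F ≠ F ∧ v • g • F = g • F ∧ (z * y) • g • F = g • F := by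
  classical
  let Λ := {r : Set Ω // ∃ g : G, g • F = r ∧ v • r = r}
  haveI : Finite Λ := Finite.of_injective (fun q : Λ => q.1) Subtype.val_injective
  have hcard : ∀ q : Λ, q.1.ncard = 4 := fun q => by
    obtain ⟨g, hg, -⟩ := q.2
    rw [← hg, smul_ncard, h.hF]
  have hnontriv : ∀ q : Λ, v ∉ fixingSubgroup G q.1 := by
    intro q hq
    obtain ⟨g, hg, -⟩ := q.2
    have hfv := fix_eq_four h.h4 (hcard q) hv1 (mem_fixing.1 hq)
    have hne : (fixedBy Ω v).Nonempty := by
      rw [hfv]; exact Set.nonempty_of_ncard_ne_zero (by rw [hcard q]; norm_num)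
    obtain ⟨p, hp⟩ := hne
    have e1 := h.fix_translate (g := g0) hvg0 hv1 hv2 hp
    have e2 := h.hfix v hvF hv1 hv2 p hp
    exact hg0 (e1.symm.trans e2)
  have ht : ∀ q : Λ, ∃ t : G, t ≠ 1 ∧ t * t = 1 ∧ t * v = v * t ∧ fixedBy Ω t = q.1 ∧
      (q.1 = F → t = z) := by
    intro q
    by_cases hq : q.1 = F
    · exact ⟨z, hz1, hz2, hzv, by rw [hzfix, hq], fun _ => rfl⟩
    · obtain ⟨g, hg, hvq⟩ := q.2
      obtain ⟨t, h1, h2, h3, h4'⟩ := h.exists_fixer hv2 g (by rw [hg, hvq])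
      exact ⟨t, h1, h2, h3, h4'.trans hg, fun e => absurd e hq⟩
  choose t ht1 ht2 htv htfix htF using ht
  -- a fixer stabilises only its own set
  have honly : ∀ q r : Λ, t q • r.1 = r.1 → r = q := by
    intro q r hqr
    obtain ⟨g, hg, -⟩ := r.2
    have hne : (fixedBy Ω (t q)).Nonempty := by
      rw [htfix]; exact Set.nonempty_of_ncard_ne_zero (by rw [hcard q]; norm_num)
    obtain ⟨p, hp⟩ := hne
    have := h.fix_translate (g := g) (by rw [hg, hqr]) (ht1 q) (ht2 q) hp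
    rw [htfix, hg] at this
    exact Subtype.ext this.symm
  -- elements stabilising two members
  have hexp : ∀ (c : G) (r u : Λ), r ≠ u → c * v = v * c → c • r.1 = r.1 → c • u.1 = u.1 →
      c * c = 1 := by
    intro c r u hne hcv h1 h2
    have hsq : ∀ s : Λ, c • s.1 = s.1 → c * c ∈ fixingSubgroup G s.1 := by
      intro s hs
      obtain ⟨g, hg, hvs⟩ := s.2
      rw [← hg]
      exact h.sq_translate (by rw [hg, hs]) (by rw [hg, hvs]) hv2 (hg ▸ hnontriv s) hcv
    refine eq_one_of_fix h.h4 (r.1 ∪ u.1) ?_ ?_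
    · rintro p (hp | hp)
      · exact mem_fixing.1 (hsq r h1) p hp
      · exact mem_fixing.1 (hsq u h2) p hp
    · rw [← hcard r]
      refine Set.ncard_lt_ncard ⟨Set.subset_union_left, fun hs => hne (Subtype.ext ?_)⟩ (Set.toFinite _)
      exact (Set.eq_of_subset_of_ncard_le (fun p hp => hs (Or.inr hp)) (by rw [hcard, hcard])
        (Set.toFinite _)).symm
  have hmove : ∀ c : G, c * v = v * c → ∀ r : Λ, ∃ g : G, g • F = c • r.1 ∧ v • c • r.1 = c • r.1 := by
    intro c hc r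
    obtain ⟨g, hg, hvr⟩ := r.2
    exact ⟨c * g, by rw [mul_smul, hg], by rw [← mul_smul, ← hc, mul_smul, hvr]⟩
  obtain ⟨r, hr⟩ : ∃ r : Λ, r.1 = g0 • F := ⟨⟨g0 • F, g0, rfl, hvg0⟩, rfl⟩
  let f : Λ → Λ := fun q => ⟨t q • r.1, hmove (t q) (htv q) r⟩
  have hf : Function.Injective f := by
    intro q q' hqq
    have he : t q • r.1 = t q' • r.1 := congrArg Subtype.val hqq
    by_cases hu : f q = r
    · have h1 : t q • r.1 = r.1 := congrArg Subtype.val hu
      exact (honly q r h1).symm.trans (honly q' r (he ▸ h1))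
    have hback : t q' • t q • r.1 = r.1 := by
      rw [he, ← mul_smul, ht2, one_smul]
    have hc1 : (t q * t q') • r.1 = r.1 := by rw [mul_smul, ← he, ← mul_smul, ht2, one_smul]
    have hc2 : (t q * t q') • (f q).1 = (f q).1 := by
      show (t q * t q') • t q • r.1 = t q • r.1
      rw [mul_smul, hback]
    have hcomm := commute_of_two (ht2 q) (ht2 q') (hexp _ r (f q) (Ne.symm hu) (by
      rw [mul_assoc, htv, ← mul_assoc, htv, mul_assoc]) hc1 hc2)
    refine honly q' q ?_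
    rw [← htfix q]
    exact smul_fixedBy_of_comm hcomm.symm
  obtain ⟨q, hq⟩ := (Finite.injective_iff_surjective.1 hf) ⟨y • r.1, hmove y hyv r⟩
  have hq' : t q • r.1 = y • r.1 := congrArg Subtype.val hq
  by_cases hqF : q.1 = F
  · refine ⟨g0, hg0, hvg0, ?_⟩
    rw [← hr, mul_smul, ← hq', ← htF q hqF, ← mul_smul, ht2, one_smul]
  exfalso
  have hu : f q ≠ r := fun hh => by
    have h1 : y • r.1 = r.1 := hq' ▸ congrArg Subtype.val hh
    exact hg0 (huniq g0 hvg0 (hr ▸ h1))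
  have hc1 : (y * t q) • r.1 = r.1 := by rw [mul_smul, hq', ← mul_smul, hy2, one_smul]
  have hc2 : (y * t q) • (f q).1 = (f q).1 := by
    show (y * t q) • t q • r.1 = t q • r.1
    rw [mul_smul, ← mul_smul (t q), ht2, one_smul, hq']
  have hcomm := commute_of_two hy2 (ht2 q) (hexp _ r (f q) (Ne.symm hu) (by
    rw [mul_assoc, htv, ← mul_assoc, hyv, mul_assoc]) hc1 hc2)
  obtain ⟨g, hg, hvq⟩ := q.2
  have hyq : y • q.1 = q.1 := by rw [← htfix q]; exact smul_fixedBy_of_comm hcomm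
  exact hqF (hg.symm.trans (huniq g (by rw [hg, hvq]) (by rw [hg, hyq])))

/-- An involution stabilising two translates centralises at most one fixer of `F`. -/
theorem ClosedCtx.unique_of_good (h : ClosedCtx G Ω F) {v : G} (hv2 : v * v = 1) (hv1 : v ≠ 1)
    (hvF : v • F = F) {g0 : G} (hg0 : g0 • F ≠ F) (hvg0 : v • g0 • F = g0 • F) {x z : G}
    (hx : x ∈ fixingSubgroup G F) (hx2 : x * x = 1) (hx1 : x ≠ 1) (hxv : x * v = v * x)
    (hz : z ∈ fixingSubgroup G F) (hz2 : z * z = 1) (hz1 : z ≠ 1) (hzv : z * v = v * z) : x = z := by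
  have hxfix := fix_eq_four h.h4 h.hF hx1 (mem_fixing.1 hx)
  obtain ⟨a, ha⟩ := Set.nonempty_of_ncard_ne_zero (s := F) (by rw [h.hF]; norm_num)
  obtain ⟨g, hgF, hvg, hzx⟩ := h.key hv2 hv1 hvF hg0 hvg0 hx2
    (fixing_le_stabilizer F hx) hxv (fun g _ hxg => by
      rw [← h.fix_translate hxg hx1 hx2 (mem_fixing.1 hx a ha), hxfix])
    hz2 hz1 hzv (fix_eq_four h.h4 h.hF hz1 (mem_fixing.1 hz))
  by_contra hne
  have hc : z * x * (z * x) = 1 := by
    refine eq_one_of_fix h.h4 (F ∪ g • F) ?_ ?_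
    · have hin : z * x * (z * x) ∈ fixingSubgroup G F := mul_mem (mul_mem hz hx) (mul_mem hz hx)
      rintro p (hp | hp)
      · exact mem_fixing.1 hin p hp
      · refine mem_fixing.1 (h.sq_translate hzx hvg hv2 ?_ ?_) p hp
        · intro hv
          have hfv := fix_eq_four h.h4 (by rw [smul_ncard, h.hF]) hv1 (mem_fixing.1 hv)
          obtain ⟨p, hp⟩ : (fixedBy Ω v).Nonempty := by
            rw [hfv]; exact Set.nonempty_of_ncard_ne_zero (by rw [smul_ncard, h.hF]; norm_num)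
          exact hgF (hfv.symm.trans (h.hfix v hvF hv1 hv2 p hp))
        · rw [mul_assoc, hxv, ← mul_assoc, hzv, mul_assoc]
    · rw [← h.hF]
      refine Set.ncard_lt_ncard ⟨Set.subset_union_left, fun hs => hgF ?_⟩ (Set.toFinite _)
      exact Set.eq_of_subset_of_ncard_le (fun p hp => hs (Or.inr hp)) (by rw [smul_ncard]) (Set.toFinite _)
  have hzx1 : z * x ≠ 1 := fun e => hne (by
    rw [eq_inv_of_mul_eq_one_left e]; exact (inv_eq_of_mul_eq_one_right hx2).symm)
  have hf := fix_eq_four h.h4 h.hF hzx1 (mem_fixing.1 (mul_mem hz hx))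
  exact hgF ((h.fix_translate hzx hzx1 hc (mem_fixing.1 (mul_mem hz hx) a ha)).symm.trans hf)

/-- A fixed point free involution centralises at most one fixer of `F`. -/
theorem ClosedCtx.unique_fixer (h : ClosedCtx G Ω F) (hM : ∃ g : G, g • F ≠ F) {y : G}
    (hy2 : y * y = 1) (hy1 : y ≠ 1) (hyF : y • F = F) (hyfree : ∀ p : Ω, y • p ≠ p) {x x' : G}
    (hx : x ∈ fixingSubgroup G F) (hx2 : x * x = 1) (hx1 : x ≠ 1) (hxy : x * y = y * x)
    (hx' : x' ∈ fixingSubgroup G F) (hx'2 : x' * x' = 1) (hx'1 : x' ≠ 1) (hx'y : x' * y = y * x')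
    (hxx' : x * x' = x' * x) : x = x' := by
  haveI : Fact (Nat.Prime 2) := ⟨Nat.prime_two⟩
  by_contra hne
  have honly : ∀ g : G, y • g • F = g • F → g • F = F := fun g hg => by
    by_contra hgF
    exact hne (h.unique_of_good hy2 hy1 hyF hgF hg hx hx2 hx1 hxy hx' hx'2 hx'1 hx'y)
  obtain ⟨g, hg⟩ := hM
  obtain ⟨a, ha⟩ := Set.nonempty_of_ncard_ne_zero (s := F) (by rw [h.hF]; norm_num)
  have hxfix := fix_eq_four h.h4 h.hF hx1 (mem_fixing.1 hx)
  obtain ⟨b, hb⟩ : ∃ b, b = g * y * g⁻¹ := ⟨_, rfl⟩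
  have hb2 : b * b = 1 := by
    rw [hb, show g * y * g⁻¹ * (g * y * g⁻¹) = g * (y * y) * g⁻¹ by group, hy2]; group
  have hfixb : ∀ p : Ω, b • p ≠ p := fun p hp => hyfree (g⁻¹ • p) (by
    rw [hb, mul_smul, mul_smul] at hp
    exact MulAction.injective g (hp.trans (smul_inv_smul g p).symm))
  have hnodd : ¬ Odd (orderOf (x * b)) := fun ho => by
    obtain ⟨c, hc⟩ := conj_of_odd hx2 hb2 ho
    exact hfixb (c • a) (by rw [hc, mul_smul, mul_smul, inv_smul_smul, mem_fixing.1 hx a ha])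
  obtain ⟨u, hu1, hu2, hux, hub⟩ := exists_between hx2 hb2
    (fun e => hfixb a (e ▸ mem_fixing.1 hx a ha)) hnodd
  have huF : u • F = F := by rw [← hxfix]; exact smul_fixedBy_of_comm hux.symm
  obtain ⟨v, hv⟩ : ∃ v, v = g⁻¹ * u * g := ⟨_, rfl⟩
  have hv2 : v * v = 1 := by
    rw [hv, show g⁻¹ * u * g * (g⁻¹ * u * g) = g⁻¹ * (u * u) * g by group, hu2]; group
  have hvy : v * y = y * v := by
    rw [hv]
    calc g⁻¹ * u * g * y = g⁻¹ * (u * b) * g := by rw [hb]; group
      _ = g⁻¹ * (b * u) * g := by rw [hub]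
      _ = y * (g⁻¹ * u * g) := by rw [hb]; group
  obtain ⟨R, hR⟩ : ∃ R, R = zpowers x ⊔ zpowers x' := ⟨_, rfl⟩
  have hsupp : ∀ {A : Subgroup G} {s : G}, IsPGroup 2 A → s * s = 1 → (∀ w ∈ A, w * s = s * w) →
      IsPGroup 2 (A ⊔ zpowers s : Subgroup G) := fun {A s} hA hs hc =>
    IsPGroup.to_sup_of_normal_right' hA (order_two_zpowers hs) (le_trans (fun w hw => by
      rw [zpowers_eq_closure s, centralizer_closure]
      exact mem_centralizer_singleton_iff.2 (hc w hw)) (centralizer_le_normalizer _))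
  have hRp : IsPGroup 2 R := hR ▸ hsupp (order_two_zpowers hx2) hx'2 (fun w hw => by
    have : zpowers x ≤ centralizer ({x'} : Set G) :=
      zpowers_le.2 (mem_centralizer_singleton_iff.2 hxx')
    exact mem_centralizer_singleton_iff.1 (this hw))
  have hRy : ∀ w ∈ R, w * y = y * w := fun w hw => by
    have : R ≤ centralizer ({y} : Set G) := hR ▸ sup_le
      (zpowers_le.2 (mem_centralizer_singleton_iff.2 hxy))
      (zpowers_le.2 (mem_centralizer_singleton_iff.2 hx'y))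
    exact mem_centralizer_singleton_iff.1 (this hw)
  obtain ⟨Q, hQC, hQp, hRQ, hmax⟩ := exists_sylow_in (C := centralizer ({y} : Set G))
    (hsupp hRp hy2 hRy) (sup_le (fun w hw => mem_centralizer_singleton_iff.2 (hRy w hw))
      (zpowers_le.2 (mem_centralizer_singleton_iff.2 rfl)))
  have hCM : ∀ w ∈ centralizer ({y} : Set G), w • F = F := fun w hw => honly w (by
    rw [← mul_smul, ← mem_centralizer_singleton_iff.1 hw, mul_smul, hyF])
  have hvC : v ∈ centralizer ({y} : Set G) := mem_centralizer_singleton_iff.2 hvy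
  obtain ⟨⟨c, hcC, hcv⟩, -⟩ := hmax (zpowers v) (order_two_zpowers hv2) (zpowers_le.2 hvC)
  obtain ⟨w, hw⟩ : ∃ w, w = c * v * c⁻¹ := ⟨_, rfl⟩
  have hwQ : w ∈ Q := hw ▸ hcv v (mem_zpowers v)
  have hw2 : w * w = 1 := by
    rw [hw, show c * v * c⁻¹ * (c * v * c⁻¹) = c * (v * v) * c⁻¹ by group, hv2]; group
  have hw1 : w ≠ 1 := fun e => hu1 (by
    rw [hw, conj_eq_one_iff, hv, show g⁻¹ * u * g = g⁻¹ * u * g⁻¹⁻¹ by group, conj_eq_one_iff] at e
    exact e)
  have hwF : w • F = F := hCM w (hQC hwQ)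
  have hwy : w * y = y * w := mem_centralizer_singleton_iff.1 (hQC hwQ)
  obtain ⟨g0, hg0⟩ : ∃ g0, g0 = c * g⁻¹ := ⟨_, rfl⟩
  have hg0F : g0 • F ≠ F := fun e => hg (by
    rw [hg0, mul_smul] at e
    have e2 : g⁻¹ • F = F := by
      refine MulAction.injective c (e.trans ?_)
      exact (hCM c hcC).symm
    conv_lhs => rw [← e2]
    rw [smul_inv_smul])
  have hwg0 : w • g0 • F = g0 • F := by
    rw [hw, hg0, hv, ← mul_smul, show c * (g⁻¹ * u * g) * c⁻¹ * (c * g⁻¹) = c * g⁻¹ * u by group,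
      mul_smul, huF]
  obtain ⟨z, hz, hz1, hz2, hzc⟩ := h.hcen Q hQp (fun q hq => hCM q (hQC hq))
  have hzy : z * y = y * z := (hzc y (hRQ (mem_sup_right (mem_zpowers y)))).symm
  obtain ⟨g1, hg1F, -, hzyg1⟩ := h.key hw2 hw1 hwF hg0F hwg0 hy2 hyF hwy.symm
    (fun g _ hg => honly g hg) hz2 hz1 (hzc w hwQ).symm (fix_eq_four h.h4 h.hF hz1 (mem_fixing.1 hz))
  have hzy2 : z * y * (z * y) = 1 := by
    rw [show z * y * (z * y) = z * (y * z) * y by group, ← hzy,
      show z * (z * y) * y = (z * z) * (y * y) by group, hz2, hy2, one_mul]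
  have hzy1 : z * y ≠ 1 := fun e => hyfree a (by
    rw [eq_inv_of_mul_eq_one_right e, inv_eq_of_mul_eq_one_right hz2, mem_fixing.1 hz a ha])
  have hzyF : (z * y) • F = F := by rw [mul_smul, hyF]; exact fixing_le_stabilizer F hz
  have hcomm : ∀ s ∈ Q, s * y = y * s → s * (z * y) = z * y * s := fun s hs hsy => by
    rw [← mul_assoc, hzc s hs, mul_assoc, hsy, mul_assoc]
  have hxQ : x ∈ Q := hRQ (mem_sup_left (hR ▸ mem_sup_left (mem_zpowers x)))
  have hx'Q : x' ∈ Q := hRQ (mem_sup_left (hR ▸ mem_sup_right (mem_zpowers x')))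
  exact hne (h.unique_of_good hzy2 hzy1 hzyF hg1F hzyg1 hx hx2 hx1 (hcomm x hxQ hxy) hx' hx'2 hx'1
    (hcomm x' hx'Q hx'y))

theorem card_le_sq_of_unique {P : Type*} [Group P] [Finite P] (hP : IsPGroup 2 P) (D : Subgroup P)
    (hu : ∀ a ∈ D, ∀ b ∈ D, a ≠ 1 → a * a = 1 → b ≠ 1 → b * b = 1 → a = b) :
    Nat.card D ≤ 4 * Nat.card (sqSub D) := by
  haveI : Fact (Nat.Prime 2) := ⟨Nat.prime_two⟩
  have huniq : ∀ H K : Subgroup D, Nat.card H = 2 → Nat.card K = 2 → H = K := by
    intro H K hH hK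
    obtain ⟨a, ha⟩ := exists_prime_orderOf_dvd_card' (G := H) 2 (by rw [hH])
    obtain ⟨b, hb⟩ := exists_prime_orderOf_dvd_card' (G := K) 2 (by rw [hK])
    rw [← orderOf_coe, ← orderOf_coe] at ha hb
    have e := hu _ (a : D).2 _ (b : D).2 (fun h => by rw [h, orderOf_one] at ha; omega)
      (by rw [← pow_two, ← ha, pow_orderOf_eq_one]) (fun h => by rw [h, orderOf_one] at hb; omega)
      (by rw [← pow_two, ← hb, pow_orderOf_eq_one])
    have h1 : zpowers (a : D) = H := eq_of_le_of_card_ge (zpowers_le.2 a.2) (by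
      rw [hH, Nat.card_zpowers, ← ha, orderOf_coe])
    have h2 : zpowers (b : D) = K := eq_of_le_of_card_ge (zpowers_le.2 b.2) (by
      rw [hK, Nat.card_zpowers, ← hb, orderOf_coe])
    rw [← h1, ← h2, Subtype.ext e]
  have hcyc : ∀ x ∈ D, Nat.card (zpowers x) ≤ 2 * Nat.card (sqSub D) := fun x hx =>
    card_cyclic_le (zpowers x) fun y hy => sq_mem_sqSub (zpowers_le.2 hx hy)
  rcases Cfsg.Agent.H21.cyclic_or_quaternion 2 (hP.to_subgroup D) huniq with hc | ⟨-, n, ⟨e⟩⟩
  · haveI := hc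
    obtain ⟨g, hg⟩ := IsCyclic.exists_generator (α := D)
    have hD : zpowers (g : P) = D := le_antisymm (zpowers_le.2 g.2) fun x hx => by
      obtain ⟨i, hi⟩ := hg ⟨x, hx⟩
      exact ⟨i, congrArg Subtype.val hi⟩
    have := hcyc g g.2
    rw [hD] at this
    omega
  · haveI : NeZero (2 ^ n) := ⟨pow_ne_zero n (by norm_num)⟩
    have h1 : orderOf ((e.symm (QuaternionGroup.a 1) : D) : P) = 2 * 2 ^ n := by
      rw [orderOf_coe, MulEquiv.orderOf_eq, QuaternionGroup.orderOf_a_one]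
    have h2 := hcyc _ (e.symm (QuaternionGroup.a 1)).2
    rw [Nat.card_zpowers, h1] at h2
    rw [Nat.card_congr e.toEquiv, Nat.card_eq_fintype_card, QuaternionGroup.card]
    omega

theorem sign_inst {α : Type*} (d1 d2 : DecidableEq α) (f1 f2 : Fintype α) (σ : Equiv.Perm α) :
    @Equiv.Perm.sign α d1 f1 σ = @Equiv.Perm.sign α d2 f2 σ := by
  rw [Subsingleton.elim d1 d2, Subsingleton.elim f1 f2]

/-- All fixers of `S` fix the same four points. -/
theorem closed [IsSimpleGroup G] (hna : ¬ IsMulCommutative G) [FaithfulSMul G Ω]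
    (htr : IsPretransitive G Ω) (h4 : Small4 G Ω)
    (hfree : ∀ u : G, u ≠ 1 → u * u = 1 → ∀ p : Ω, u • p = p → (fixedBy Ω u).ncard = 4)
    (S : Sylow 2 G) (F : Set Ω) (hF : F.ncard = 4) (hn : Nat.card Ω % 8 = 4)
    (hSF : (S : Subgroup G) ≤ stabilizer G F)
    (hfixers : ∀ u ∈ (S : Subgroup G), u ≠ 1 → u * u = 1 → ∀ p : Ω, u • p = p → fixedBy Ω u = F)
    (hex : ∃ u ∈ (S : Subgroup G), u ≠ 1 ∧ u * u = 1 ∧ ∀ p ∈ F, u • p = p) :
    (∃ H : Subgroup G, Cfsg.IsStronglyEmbedded H) ∨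
      Cfsg.SectionalPRankLE 2 4 (S : Subgroup G) := by
  classical
  haveI : Fact (Nat.Prime 2) := ⟨Nat.prime_two⟩
  obtain ⟨z0, hz0S, hz01, hz02, hz0F⟩ := hex
  have hz0o : orderOf z0 = 2 := orderOf_eq_prime (by rw [pow_two]; exact hz02) hz01
  have hdvd : 2 ∣ Nat.card G := hz0o ▸ orderOf_dvd_natCard z0
  have hFne : F.Nonempty := Set.nonempty_of_ncard_ne_zero (by omega)
  by_cases hall : ∀ x ∈ (S : Subgroup G), orderOf x = 2 → fixedBy Ω x = F
  · exact Or.inl ⟨_, isStronglyEmbedded_of_uniform hna htr S F hFne (by omega) hSF hall hdvd⟩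
  right
  push Not at hall
  obtain ⟨y0, hy0S, hy0o, hy0F⟩ := hall
  have hy01 : y0 ≠ 1 := fun e => by rw [e, orderOf_one] at hy0o; omega
  have hy02 : y0 * y0 = 1 := by rw [← pow_two, ← hy0o, pow_orderOf_eq_one]
  have hy0free : ∀ p : Ω, y0 • p ≠ p := fun p hp => hy0F (hfixers y0 hy0S hy01 hy02 p hp)
  -- fixers in the stabiliser
  have hfix : ∀ u ∈ stabilizer G F, u ≠ 1 → u * u = 1 → ∀ p : Ω, u • p = p → fixedBy Ω u = F := by
    intro u hu hu1 hu2 p hp
    obtain ⟨m, hm, hmS⟩ := sylow_conj_mem S hSF (order_two_zpowers hu2) (zpowers_le.2 hu)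
    have h1 := hfixers _ (hmS u (mem_zpowers u)) (fun e => hu1 (by rwa [conj_eq_one_iff] at e))
      (by rw [show m * u * m⁻¹ * (m * u * m⁻¹) = m * (u * u) * m⁻¹ by group, hu2]; group) (m • p)
      (by rw [mul_smul, mul_smul, inv_smul_smul, hp])
    rw [fixedBy_conj] at h1
    rw [← inv_smul_smul m (fixedBy Ω u), h1]
    exact (inv_mem hm : m⁻¹ ∈ stabilizer G F)
  -- no element of `S` fixes a point outside `F`
  have hsemi : ∀ x ∈ (S : Subgroup G), x ≠ 1 → ∀ p : Ω, p ∉ F → x • p ≠ p := by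
    intro x hx hx1 p hp hxp
    obtain ⟨j, hj⟩ := exists_order_pow S.2 hx hx1
    have hjp : (x ^ j) • p = p := fix_subset_pow x j hxp
    have := hfixers _ (pow_mem hx j) (fun e => by rw [e, orderOf_one] at hj; omega)
      (by rw [← pow_two, ← hj, pow_orderOf_eq_one]) p hjp
    exact hp (this ▸ hjp)
  -- a central fixer
  obtain ⟨zS, hzS, hzSo, hzSc⟩ := exists_central_order (p := 2) S.2
    (K := (S : Subgroup G) ⊓ fixingSubgroup G F) inf_le_left
    (fun hb => hz01 (mem_bot.1 (hb ▸ (⟨hz0S, mem_fixing.2 hz0F⟩ : z0 ∈ (S : Subgroup G) ⊓ fixingSubgroup G F))))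
    fun s hs v hv => ⟨(S : Subgroup G).mul_mem ((S : Subgroup G).mul_mem hs hv.1)
      ((S : Subgroup G).inv_mem hs), mem_fixing.2 fun p hp => by
        rw [mul_smul, mul_smul, mem_fixing.1 hv.2 _ (by
          rw [← Set.mem_smul_set_iff_inv_smul_mem, show s • F = F from hSF hs]; exact hp),
          smul_inv_smul]⟩
  have hzS1 : zS ≠ 1 := fun e => by rw [e, orderOf_one] at hzSo; omega
  have hzS2 : zS * zS = 1 := by rw [← pow_two, ← hzSo, pow_orderOf_eq_one]
  have hcen : ∀ Q : Subgroup G, IsPGroup 2 Q → Q ≤ stabilizer G F →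
      ∃ z ∈ fixingSubgroup G F, z ≠ 1 ∧ z * z = 1 ∧ ∀ q ∈ Q, q * z = z * q := by
    intro Q hQ hQF
    obtain ⟨m, hm, hmS⟩ := sylow_conj_mem S hSF hQ hQF
    refine ⟨m⁻¹ * zS * m, mem_fixing.2 fun p hp => ?_, fun e => hzS1 ?_, ?_, fun q hq => ?_⟩
    · rw [mul_smul, mul_smul, mem_fixing.1 hzS.2 _ (by
        rw [← show m • F = F from hm]; exact Set.smul_mem_smul_set hp), inv_smul_smul]
    · calc zS = m * (m⁻¹ * zS * m) * m⁻¹ := by group
        _ = 1 := by rw [e]; group
    · rw [show m⁻¹ * zS * m * (m⁻¹ * zS * m) = m⁻¹ * (zS * zS) * m by group, hzS2]; group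
    · calc q * (m⁻¹ * zS * m) = m⁻¹ * (m * q * m⁻¹ * zS) * m := by group
        _ = m⁻¹ * (zS * (m * q * m⁻¹)) * m := by rw [hzSc _ (hmS q hq)]
        _ = _ := by group
  -- the sign on `F`
  haveI := Fintype.ofFinite Ω
  have hsignS : ∀ x : G, ∀ hx : x ∈ (S : Subgroup G),
      Equiv.Perm.sign (actOn F ⟨x, hSF hx⟩) = 1 := by
    intro x hx
    by_cases hx1 : x = 1
    · subst hx1
      rw [show (⟨1, hSF hx⟩ : stabilizer G F) = 1 from rfl, map_one, map_one]
    let C : Set Ω := Fᶜ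
    have hinvF : ∀ s ∈ (S : Subgroup G), ∀ p, s • p ∈ F ↔ p ∈ F := fun s hs p => by
      conv_lhs => rw [← show s • F = F from hSF hs]
      exact Set.smul_mem_smul_set_iff
    have hSC : (S : Subgroup G) ≤ stabilizer G C := fun s hs => by
      rw [mem_stabilizer_iff, show C = Fᶜ from rfl, Set.smul_set_compl, show s • F = F from hSF hs]
    -- the complement is a union of free orbits
    let f : (S : Subgroup G) →* Equiv.Perm C := (actOn C).comp (Subgroup.inclusion hSC)
    letI : MulAction (S : Subgroup G) C := MulAction.compHom C f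
    haveI := Fintype.ofFinite (S : Subgroup G)
    haveI := Fintype.ofFinite C
    haveI : ∀ a : (S : Subgroup G), Fintype (fixedBy C a) := fun a => Fintype.ofFinite _
    haveI := Fintype.ofFinite (Quotient (orbitRel (S : Subgroup G) C))
    have hb := MulAction.sum_card_fixedBy_eq_card_orbits_mul_card_group (S : Subgroup G) C
    rw [Finset.sum_eq_single_of_mem 1 (Finset.mem_univ _) fun a _ ha => by
      rw [Fintype.card_eq_zero_iff]
      exact ⟨fun q => hsemi (a : G) a.2 (fun e => ha (Subtype.ext e)) (q.1 : Ω)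
        q.1.2 (congrArg Subtype.val q.2)⟩] at hb
    have hC1 : Fintype.card (fixedBy C (1 : (S : Subgroup G))) = Fintype.card C :=
      Fintype.card_congr ((Equiv.setCongr (fixedBy_one_eq_univ C (S : Subgroup G))).trans
        (Equiv.Set.univ C))
    rw [hC1] at hb
    have hdvdS : Nat.card (S : Subgroup G) ∣ Fintype.card C := by
      rw [hb, ← Nat.card_eq_fintype_card (α := (S : Subgroup G))]
      exact dvd_mul_left _ _
    obtain ⟨N, hN⟩ := card_pow_two S.2 (⊤ : Subgroup (S : Subgroup G))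
    rw [card_top] at hN
    obtain ⟨k, hk⟩ := IsPGroup.iff_card.1 (isPGroup_zpowers S.2 hx)
    rw [Nat.card_zpowers] at hk
    have hkN : k < N := by
      by_contra hle
      have hxS : zpowers x = (S : Subgroup G) := eq_of_le_of_card_ge (zpowers_le.2 hx) (by
        rw [Nat.card_zpowers, hk, hN]; exact Nat.pow_le_pow_right (by norm_num) (by omega))
      haveI : IsCyclic (S : Subgroup G) := hxS ▸ inferInstance
      haveI := Fintype.ofFinite (S : Subgroup G)
      have h2 := IsCyclic.card_pow_eq_one_le (α := (S : Subgroup G)) (n := 2) (by norm_num)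
      have h3 : ({1, ⟨z0, hz0S⟩, ⟨y0, hy0S⟩} : Finset (S : Subgroup G)) ⊆
          Finset.univ.filter fun a => a ^ 2 = 1 := by
        intro a ha
        rw [Finset.mem_filter]
        refine ⟨Finset.mem_univ _, ?_⟩
        simp only [Finset.mem_insert, Finset.mem_singleton] at ha
        rcases ha with rfl | rfl | rfl
        · exact one_pow 2
        · exact Subtype.ext (by show z0 ^ 2 = 1; rw [pow_two]; exact hz02)
        · exact Subtype.ext (by show y0 ^ 2 = 1; rw [pow_two]; exact hy02)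
      have h5 := (Finset.card_le_card h3).trans h2
      have hzy : z0 ≠ y0 := fun e => by
        obtain ⟨p, hp⟩ := hFne
        exact hy0free p (e ▸ hz0F p hp)
      rw [Finset.card_insert_of_notMem, Finset.card_insert_of_notMem] at h5
      · simp at h5
      · simp [Subtype.ext_iff, hzy]
      · simp [Subtype.ext_iff, Ne.symm hz01, Ne.symm hy01]
    obtain ⟨e, rfl⟩ : ∃ e, k = e + 1 := Nat.exists_eq_succ_of_ne_zero fun h => hx1 (by
      rw [h, pow_zero, orderOf_eq_one_iff] at hk; exact hk)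
    have hxC : Equiv.Perm.sign (f ⟨x, hx⟩) = 1 := by
      rw [Cfsg.Agent.H29.Small.sign_of_free e ?_ ?_]
      · have h8 : 2 ^ (e + 2) ∣ Fintype.card C :=
          (hN ▸ pow_dvd_pow 2 (by omega : e + 2 ≤ N)).trans hdvdS
        obtain ⟨q, hq⟩ := h8
        rw [hq, pow_succ 2 (e + 1), mul_assoc, Nat.mul_div_cancel_left _ (by positivity)]
        rw [pow_mul, neg_one_sq, one_pow]
      · rw [← map_pow, show (⟨x, hx⟩ : (S : Subgroup G)) ^ 2 ^ (e + 1) = 1 from
          Subtype.ext (by show x ^ 2 ^ (e + 1) = 1; rw [← hk, pow_orderOf_eq_one]), map_one]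
      · intro a ha
        rw [← map_pow] at ha
        have hne : x ^ 2 ^ e ≠ 1 := fun e' => by
          have := orderOf_le_of_pow_eq_one (by positivity) e'
          rw [hk, pow_succ] at this
          have := Nat.one_le_two_pow (n := e)
          omega
        exact hsemi _ (pow_mem hx _) hne (a : Ω) a.2
          (congrArg Subtype.val ha)
    have hall' : Equiv.Perm.sign (MulAction.toPermHom G Ω x) = 1 :=
      hom_comm_trivial hna (Equiv.Perm.sign.comp (MulAction.toPermHom G Ω)) x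
    have hdec : MulAction.toPermHom G Ω x = Equiv.Perm.subtypeCongr
        ((MulAction.toPermHom G Ω x).subtypePerm (fun p => hinvF x hx p))
        ((MulAction.toPermHom G Ω x).subtypePerm (fun p => not_congr (hinvF x hx p))) := by
      ext p
      by_cases hp : p ∈ F <;> simp [Equiv.Perm.subtypeCongr.apply, hp]
    rw [hdec, Equiv.Perm.sign_subtypeCongr] at hall'
    have he1 : Equiv.Perm.sign ((MulAction.toPermHom G Ω x).subtypePerm (p := fun p => ¬ p ∈ F)
        (fun p => not_congr (hinvF x hx p))) = 1 := by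
      exact (sign_inst _ _ _ _ _).trans hxC
    rw [he1, mul_one] at hall'
    rw [← hall']
    rfl
  let χ : stabilizer G F →* ℤˣ := Equiv.Perm.sign.comp (actOn F)
  have hχ : ∀ g : stabilizer G F, χ g = 1 := by
    intro g
    have hker : ((S.subtype hSF : Sylow 2 (stabilizer G F)) : Subgroup (stabilizer G F)) ≤ χ.ker := by
      intro m hm
      rw [Sylow.coe_subtype, mem_subgroupOf] at hm
      exact MonoidHom.mem_ker.2 (hsignS (m : G) hm)
    have h1 : χ.ker.index ∣ ((S.subtype hSF : Sylow 2 (stabilizer G F)) : Subgroup _).index :=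
      index_dvd_of_le hker
    have h2 : Nat.card χ.range ∣ 2 := by
      have := χ.range.card_subgroup_dvd_card
      rwa [show Nat.card ℤˣ = 2 by rw [Nat.card_eq_fintype_card, Fintype.card_units_int]] at this
    rw [index_ker] at h1
    rcases (Nat.dvd_prime Nat.prime_two).1 h2 with h | h
    · have := (Subgroup.card_eq_one.1 h)
      rw [MonoidHom.range_eq_bot_iff] at this
      rw [this]; rfl
    · rw [h] at h1
      exact absurd h1 (S.subtype hSF).not_dvd_index
  haveI := Fintype.ofFinite F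
  let eF : F ≃ Fin 4 := Fintype.equivFinOfCardEq (by rw [← Nat.card_eq_fintype_card, Nat.card_coe_set_eq, hF])
  let ψ : stabilizer G F →* Equiv.Perm (Fin 4) := eF.permCongrHom.toMonoidHom.comp (actOn F)
  have hψ : ∀ g : stabilizer G F, ψ g = 1 ↔ (g : G) ∈ fixingSubgroup G F := fun g => by
    rw [← actOn_eq_one]; exact map_eq_one_iff _ eF.permCongrHom.injective
  have hψs : ∀ g : stabilizer G F, Equiv.Perm.sign (ψ g) = 1 := fun g => by
    rw [← hχ g]
    exact (Equiv.Perm.sign_permCongr eF (actOn F g)).trans (sign_inst _ _ _ _ _)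
  have hctx : ClosedCtx G Ω F := ⟨h4, hF, hfree, hfix, fun c v hc hv hv2 hvf hcv => by
    have h1 := fin4_even_comm (ψ ⟨v, hv⟩)
      (by rw [← map_mul, hψ]; show v * v ∈ _; rw [hv2]; exact one_mem _)
      (fun e => hvf ((hψ _).1 e)) (hψs _) (ψ ⟨c, hc⟩) (hψs _)
      (by rw [← map_mul, ← map_mul]; exact congrArg ψ (Subtype.ext hcv))
    rw [← map_mul] at h1
    exact (hψ _).1 h1, hcen⟩
  have hM : ∃ g : G, g • F ≠ F := by
    by_contra hcon
    push Not at hcon
    obtain ⟨a, ha⟩ := hFne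
    have : F = Set.univ := Set.eq_univ_of_forall fun q => by
      obtain ⟨g, rfl⟩ := htr.exists_smul_eq a q
      rw [← hcon g]; exact Set.smul_mem_smul_set ha
    rw [this, Set.ncard_univ] at hF
    have := four_lt_card (Ω := Ω) hna
    omega
  -- inside `S`
  obtain ⟨K, hK⟩ : ∃ K, K = (fixingSubgroup G F).subgroupOf (S : Subgroup G) := ⟨_, rfl⟩
  haveI hKn : K.Normal := hK ▸ ⟨fun k hk s => by
    rw [mem_subgroupOf] at hk ⊢
    refine mem_fixing.2 fun p hp => ?_
    show ((s : G) * k * (s : G)⁻¹) • p = p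
    rw [mul_smul, mul_smul, mem_fixing.1 hk _ (by
      rw [← Set.mem_smul_set_iff_inv_smul_mem, show (s : G) • F = F from hSF s.2]; exact hp), smul_inv_smul]⟩
  have hKfix : ∀ x : (S : Subgroup G), x ∈ K ↔ ∀ p ∈ F, (x : G) • p = p := fun x => by
    rw [hK, mem_subgroupOf, mem_fixing]
  obtain ⟨Z, hZ⟩ : ∃ Z : (S : Subgroup G), Z = ⟨zS, hzS.1⟩ := ⟨_, rfl⟩
  have hkey : ∀ x y : (S : Subgroup G), x ∈ K → x ≠ 1 → x * x = 1 → y ∉ K → y * y = 1 →
      x * y = y * x → x = Z := by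
    intro x y hx hx1 hx2 hy hy2 hxy
    have hy1 : (y : G) ≠ 1 := fun e => hy (by rw [show y = 1 from Subtype.ext e]; exact one_mem K)
    have hy2' : (y : G) * y = 1 := congrArg Subtype.val hy2
    refine Subtype.ext ?_
    rw [hZ]
    refine hctx.unique_fixer hM hy2' hy1 (hSF y.2) ?_ (mem_fixing.2 ((hKfix x).1 hx))
      (congrArg Subtype.val hx2) (fun e => hx1 (Subtype.ext e)) (congrArg Subtype.val hxy) hzS.2 hzS2
      hzS1 (hzSc y y.2).symm (hzSc x x.2)
    intro p hp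
    refine hy ((hKfix y).2 fun q hq => ?_)
    have := hfixers y y.2 hy1 hy2' p hp
    rw [← this] at hq
    exact hq
  by_cases hmac : ∀ A : Subgroup (S : Subgroup G), A.Normal → IsMulCommutative A →
      (∀ a ∈ A, a ^ 2 = 1) → Nat.card A ≤ 4
  · exact Cfsg.Agent.H81.MacW.macWilliams S.2 hmac
  push Not at hmac
  obtain ⟨B, hBn, -, hB2, hB4⟩ := hmac
  obtain ⟨n, hn'⟩ := card_pow_two S.2 B
  haveI := hBn
  obtain ⟨E, hEn, hEB, hE8⟩ := Cfsg.Agent.H24.exists_normal_le_card (p := 2) S.2 hn' (j := 3) (by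
    by_contra hh
    have := Nat.pow_le_pow_right (show 1 ≤ 2 by norm_num) (show n ≤ 2 by omega)
    omega)
  haveI := hEn
  have hE2 : ∀ x ∈ E, x * x = 1 := fun x hx => by rw [← pow_two]; exact hB2 x (hEB hx)
  have hE8' : Nat.card E = 8 := by rw [hE8]; norm_num
  have hEc : ∀ x ∈ E, ∀ y ∈ E, x * y = y * x := fun x hx y hy => comm_of_exp_two hE2 hx hy
  have hEK2 : Nat.card (E ⊓ K : Subgroup (S : Subgroup G)) ≤ 2 := by
    by_contra hlt
    have two : ∀ {X : Subgroup (S : Subgroup G)}, X ≤ E ⊓ K → 2 < Nat.card X →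
        ∀ y : (S : Subgroup G), y ∉ K → y * y = 1 → (∀ x ∈ X, x * y = y * x) → False := by
      intro X hX hX2 y hy hy2 hcomm
      have hsub : (X : Set (S : Subgroup G)) ⊆ {1, Z} := fun x hx => by
        by_cases hx1 : x = 1
        · exact Or.inl hx1
        · exact Or.inr (hkey x y (hX hx).2 hx1 (hE2 x (hX hx).1) hy hy2 (hcomm x hx))
      have h := (Set.ncard_le_ncard hsub (Set.toFinite _)).trans (Set.ncard_insert_le _ _)
      rw [Set.ncard_singleton, ← Nat.card_coe_set_eq] at h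
      have e : Nat.card (X : Set (S : Subgroup G)) = Nat.card X := rfl
      omega
    by_cases hEK : E ≤ K
    · have hy0K : (⟨y0, hy0S⟩ : (S : Subgroup G)) ∉ K := fun h => by
        obtain ⟨p, hp⟩ := hFne
        exact hy0free p ((hKfix _).1 h p hp)
      have hy0sq : (⟨y0, hy0S⟩ : (S : Subgroup G)) * ⟨y0, hy0S⟩ = 1 := Subtype.ext hy02
      have h := card_le_fix_sq E hEc hE2 hy0sq (fun x hx => hEn.conj_mem x hx _)
      rw [hE8'] at h
      refine two (X := E ⊓ centralizer ({(⟨y0, hy0S⟩ : (S : Subgroup G))} : Set (S : Subgroup G)))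
        (le_inf inf_le_left (inf_le_left.trans hEK)) (by nlinarith) _ hy0K hy0sq
        fun x hx => mem_centralizer_singleton_iff.1 hx.2
    · obtain ⟨y, hy, hyK⟩ := SetLike.not_le_iff_exists.1 hEK
      exact two le_rfl (by omega) y hyK (hE2 y hy) fun x hx => hEc x hx.1 y hy
  have huniq : ∀ x ∈ K, x ≠ 1 → x * x = 1 → x = Z := by
    intro x hx hx1 hx2
    have h := card_le_fix_sq E hEc hE2 hx2 (fun v hv => hEn.conj_mem v hv x)
    rw [hE8'] at h
    obtain ⟨y, hy, hyK⟩ : ∃ y ∈ E ⊓ centralizer ({x} : Set (S : Subgroup G)), y ∉ K := by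
      by_contra hcon
      push Not at hcon
      have := card_le_of_le (le_inf inf_le_left hcon :
        E ⊓ centralizer ({x} : Set (S : Subgroup G)) ≤ E ⊓ K)
      nlinarith
    exact hkey x y hx hx1 hx2 hyK (hE2 y hy.1) (mem_centralizer_singleton_iff.1 hy.2).symm
  have hidx : K.index ≤ 4 := by
    let ψS : (S : Subgroup G) →* Equiv.Perm (Fin 4) := ψ.comp (Subgroup.inclusion hSF)
    have hk : ψS.ker = K := by
      ext x
      rw [MonoidHom.mem_ker, hK, mem_subgroupOf]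
      exact hψ _
    rw [← hk, index_ker]
    have hle : ψS.range ≤ alternatingGroup (Fin 4) := by
      rintro _ ⟨x, rfl⟩
      exact Equiv.Perm.mem_alternatingGroup.2 (hψs _)
    have h12 := card_dvd_of_le hle
    rw [nat_card_alternatingGroup, Nat.card_eq_fintype_card (α := Fin 4), Fintype.card_fin] at h12
    obtain ⟨i, hi⟩ := IsPGroup.iff_card.1
      (IsPGroup.of_surjective S.2 ψS.rangeRestrict ψS.rangeRestrict_surjective)
    rw [hi] at h12 ⊢
    rcases i with _ | _ | _ | i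
    · norm_num
    · norm_num
    · norm_num
    · have h8 : 8 ∣ Nat.factorial 4 / 2 := dvd_trans ⟨2 ^ i, by ring⟩ h12
      norm_num [Nat.factorial] at h8
  refine sectional_of_sq 4 fun H => ?_
  have hs := card_split (QuotientGroup.mk' K) H
  rw [QuotientGroup.ker_mk'] at hs
  have h1 : Nat.card (H.map (QuotientGroup.mk' K)) ≤ 4 := by
    refine le_trans (Subgroup.card_le_card_group _) ?_
    rwa [← index_eq_card]
  have h2 := card_le_sq_of_unique S.2 (H ⊓ K) fun a ha b hb ha1 ha2 hb1 hb2 =>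
    (huniq a ha.2 ha1 ha2).trans (huniq b hb.2 hb1 hb2).symm
  have h3 : Nat.card (sqSub (H ⊓ K)) ≤ Nat.card (sqSub H) := by
    refine card_le_of_le ((closure_le _).2 ?_)
    rintro _ ⟨x, hx, rfl⟩
    exact sq_mem_sqSub hx.1
  rw [hs]
  calc Nat.card (H ⊓ K : Subgroup (S : Subgroup G)) * Nat.card (H.map (QuotientGroup.mk' K))
      ≤ (4 * Nat.card (sqSub H)) * 4 := Nat.mul_le_mul (h2.trans (Nat.mul_le_mul_left 4 h3)) h1
    _ = 2 ^ 4 * Nat.card (sqSub H) := by ring

end Cfsg.Agent.H81.Fix4
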