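import Cfsg.Agent.H81.Fix4.Basic

/-!
Actions on four points.
-/

set_option autoImplicit false
set_option linter.unusedSectionVars false

namespace Cfsg.Agent.H81.Fix4

open MulAction Pointwise Subgroup

set_option maxRecDepth 20000 in
set_option maxHeartbeats 2000000 in
theorem fin4_even_comm : ∀ b : Equiv.Perm (Fin 4), b * b = 1 → b ≠ 1 → Equiv.Perm.sign b = 1 →
    ∀ a : Equiv.Perm (Fin 4), Equiv.Perm.sign a = 1 → a * b = b * a → a * a = 1 := by decide

set_option maxRecDepth 20000 in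
set_option maxHeartbeats 4000000 in
set_option synthInstance.maxSize 2000 in
theorem fin4_four : ∀ a : Equiv.Perm (Fin 4), a * a = 1 → a ≠ 1 → ∀ b : Equiv.Perm (Fin 4),
    b * b = 1 → b ≠ 1 → a * b ≠ 1 → a * b = b * a → ∀ c : Equiv.Perm (Fin 4),
    c * a = a * c → c * b = b * c → c = 1 ∨ c = a ∨ c = b ∨ c = a * b := by decide

variable {G Ω : Type*} [Group G] [Finite G] [MulAction G Ω] [Finite Ω]

/-- A four group on four points is its own centralizer. -/
theorem four_cover {A : Set Ω} (hA : A.ncard = 4) {a b c : G} (ha : a ∈ stabilizer G A)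
    (hb : b ∈ stabilizer G A) (hc : c ∈ stabilizer G A) (ha2 : a * a ∈ fixingSubgroup G A)
    (hb2 : b * b ∈ fixingSubgroup G A) (haf : a ∉ fixingSubgroup G A) (hbf : b ∉ fixingSubgroup G A)
    (habf : a * b ∉ fixingSubgroup G A) (hab : a * b = b * a) (hca : c * a = a * c)
    (hcb : c * b = b * c) :
    c ∈ fixingSubgroup G A ∨ a⁻¹ * c ∈ fixingSubgroup G A ∨ b⁻¹ * c ∈ fixingSubgroup G A ∨
      (a * b)⁻¹ * c ∈ fixingSubgroup G A := by
  classical
  haveI := Fintype.ofFinite A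
  let e : A ≃ Fin 4 := Fintype.equivFinOfCardEq (by rw [← Nat.card_eq_fintype_card, Nat.card_coe_set_eq, hA])
  let ψ : stabilizer G A →* Equiv.Perm (Fin 4) := e.permCongrHom.toMonoidHom.comp (actOn A)
  have hψ : ∀ g : stabilizer G A, ψ g = 1 ↔ (g : G) ∈ fixingSubgroup G A := fun g => by
    rw [← actOn_eq_one]
    exact map_eq_one_iff _ e.permCongrHom.injective
  obtain ⟨a', rfl⟩ : ∃ a' : stabilizer G A, (a' : G) = a := ⟨⟨a, ha⟩, rfl⟩
  obtain ⟨b', rfl⟩ : ∃ b' : stabilizer G A, (b' : G) = b := ⟨⟨b, hb⟩, rfl⟩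
  obtain ⟨c', rfl⟩ : ∃ c' : stabilizer G A, (c' : G) = c := ⟨⟨c, hc⟩, rfl⟩
  have hrel : ∀ x y : stabilizer G A, ψ x = ψ y → (x : G)⁻¹ * y ∈ fixingSubgroup G A := fun x y h => by
    have h1 : ψ (x⁻¹ * y) = 1 := by rw [map_mul, map_inv, h, inv_mul_cancel]
    exact (hψ _).1 h1
  have hcomm : ∀ x y : stabilizer G A, (x : G) * y = y * x → ψ x * ψ y = ψ y * ψ x := fun x y h => by
    rw [← map_mul, ← map_mul]
    exact congrArg ψ (Subtype.ext h)
  rcases fin4_four (ψ a') (by rw [← map_mul, hψ]; exact ha2) (fun h => haf ((hψ _).1 h)) (ψ b')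
    (by rw [← map_mul, hψ]; exact hb2) (fun h => hbf ((hψ _).1 h))
    (fun h => habf ((hψ (a' * b')).1 (by rw [map_mul, h]))) (hcomm _ _ hab) (ψ c') (hcomm _ _ hca)
    (hcomm _ _ hcb) with h | h | h | h
  · exact Or.inl ((hψ _).1 h)
  · exact Or.inr (Or.inl (hrel _ _ h.symm))
  · exact Or.inr (Or.inr (Or.inl (hrel _ _ h.symm)))
  · exact Or.inr (Or.inr (Or.inr (hrel (a' * b') c' (by rw [map_mul]; exact h.symm))))

/-- A large elementary abelian group on four points contains a covering four group. -/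
theorem exists_cover (X W : Subgroup G) (A : Set Ω) (hA : A.ncard = 4) (hWX : W ≤ X)
    (hXA : X ≤ stabilizer G A) (hW2 : ∀ w ∈ W, w * w = 1)
    (hlarge : 2 * Nat.card (W ⊓ fixingSubgroup G A : Subgroup G) < Nat.card W)
    (hcomm : ∀ x ∈ X, ∀ w ∈ W, x * w = w * x) :
    ∀ x ∈ X, ∃ w ∈ W, w⁻¹ * x ∈ fixingSubgroup G A := by
  classical
  obtain ⟨a, ha, haf⟩ : ∃ a ∈ W, a ∉ fixingSubgroup G A := by
    by_contra h
    push Not at h
    rw [inf_eq_left.2 (show W ≤ fixingSubgroup G A from h)] at hlarge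
    omega
  have ha1 : a⁻¹ = a := inv_eq_of_mul_eq_one_right (hW2 a ha)
  obtain ⟨b, hb, hbf, habf⟩ : ∃ b ∈ W, b ∉ fixingSubgroup G A ∧ a * b ∉ fixingSubgroup G A := by
    by_contra h
    push Not at h
    have h1 : (W : Set G) ⊆ ((W ⊓ fixingSubgroup G A : Subgroup G) : Set G) ∪
        (a * ·) '' ((W ⊓ fixingSubgroup G A : Subgroup G) : Set G) := by
      intro b hb
      by_cases hbf : b ∈ fixingSubgroup G A
      · exact Or.inl ⟨hb, hbf⟩
      · exact Or.inr ⟨a * b, ⟨mul_mem ha hb, h b hb hbf⟩, by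
          show a * (a * b) = b
          rw [← mul_assoc, hW2 a ha, one_mul]⟩
    have h2 := (Set.ncard_le_ncard h1 (Set.toFinite _)).trans (Set.ncard_union_le _ _)
    have h3 := Set.ncard_image_le (f := (a * ·))
      (s := ((W ⊓ fixingSubgroup G A : Subgroup G) : Set G)) (Set.toFinite _)
    rw [← Nat.card_coe_set_eq (W : Set G)] at h2
    rw [← Nat.card_coe_set_eq ((W ⊓ fixingSubgroup G A : Subgroup G) : Set G)] at h2 h3
    have e1 : Nat.card ((W : Set G)) = Nat.card W := rfl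
    have e2 : Nat.card (((W ⊓ fixingSubgroup G A : Subgroup G) : Set G)) =
        Nat.card (W ⊓ fixingSubgroup G A : Subgroup G) := rfl
    omega
  intro x hx
  rcases four_cover hA (hXA (hWX ha)) (hXA (hWX hb)) (hXA hx)
    (by rw [hW2 a ha]; exact one_mem _) (by rw [hW2 b hb]; exact one_mem _) haf hbf habf
    (hcomm a (hWX ha) b hb) (hcomm x hx a ha) (hcomm x hx b hb) with h | h | h | h
  · exact ⟨1, one_mem _, by rwa [inv_one, one_mul]⟩
  · exact ⟨a, ha, h⟩
  · exact ⟨b, hb, h⟩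
  · exact ⟨a * b, mul_mem ha hb, h⟩

/-- A group centralising a large elementary abelian group on four points. -/
theorem cover_bound (X W : Subgroup G) (A : Set Ω) (hA : A.ncard = 4) (hWX : W ≤ X)
    (hXA : X ≤ stabilizer G A) (hW2 : ∀ w ∈ W, w * w = 1)
    (hlarge : 2 * Nat.card (W ⊓ fixingSubgroup G A : Subgroup G) < Nat.card W)
    (hWc : ∀ x ∈ X, ∀ w ∈ W, x * w = w * x) :
    Nat.card X ≤ 4 * Nat.card (X ⊓ fixingSubgroup G A : Subgroup G) := by
  classical
  obtain ⟨K, hK⟩ : ∃ K, K = W ⊓ fixingSubgroup G A := ⟨_, rfl⟩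
  obtain ⟨a, ha, haf⟩ : ∃ a ∈ W, a ∉ fixingSubgroup G A := by
    by_contra h
    push Not at h
    rw [inf_eq_left.2 (show W ≤ fixingSubgroup G A from h)] at hlarge
    omega
  obtain ⟨b, hb, hbf, habf⟩ : ∃ b ∈ W, b ∉ fixingSubgroup G A ∧ a * b ∉ fixingSubgroup G A := by
    by_contra h
    push Not at h
    have h1 : (W : Set G) ⊆ (K : Set G) ∪ (a * ·) '' (K : Set G) := by
      intro b hb
      by_cases hbf : b ∈ fixingSubgroup G A
      · exact Or.inl (hK ▸ ⟨hb, hbf⟩)
      · exact Or.inr ⟨a * b, hK ▸ ⟨mul_mem ha hb, h b hb hbf⟩, by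
          show a * (a * b) = b
          rw [← mul_assoc, hW2 a ha, one_mul]⟩
    have h2 := (Set.ncard_le_ncard h1 (Set.toFinite _)).trans (Set.ncard_union_le _ _)
    have h3 := Set.ncard_image_le (f := (a * ·)) (s := (K : Set G)) (Set.toFinite _)
    rw [← Nat.card_coe_set_eq (W : Set G)] at h2
    rw [← Nat.card_coe_set_eq (K : Set G)] at h2 h3
    have e1 : Nat.card ((W : Set G)) = Nat.card W := rfl
    have e2 : Nat.card ((K : Set G)) = Nat.card K := rfl
    subst hK
    omega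
  have key : ∀ x : X, ∃ i : Bool × Bool,
      ((if i.1 then a else 1) * (if i.2 then b else 1))⁻¹ * (x : G) ∈ X ⊓ fixingSubgroup G A := by
    intro x
    rcases four_cover hA (hXA (hWX ha)) (hXA (hWX hb)) (hXA x.2)
      (by rw [hW2 a ha]; exact one_mem _) (by rw [hW2 b hb]; exact one_mem _) haf hbf habf
      (hWc a (hWX ha) b hb) (hWc x x.2 a ha) (hWc x x.2 b hb) with h | h | h | h
    · exact ⟨(false, false), by simpa using x.2, by simpa using h⟩
    · exact ⟨(true, false), X.mul_mem (X.inv_mem (X.mul_mem (hWX ha) X.one_mem)) x.2, by simpa using h⟩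
    · exact ⟨(false, true), X.mul_mem (X.inv_mem (X.mul_mem X.one_mem (hWX hb))) x.2, by simpa using h⟩
    · exact ⟨(true, true), X.mul_mem (X.inv_mem (X.mul_mem (hWX ha) (hWX hb))) x.2, by simpa using h⟩
  choose i hi using key
  have h := Nat.card_le_card_of_injective
    (fun x : X => ((i x, ⟨_, hi x⟩) : (Bool × Bool) × (X ⊓ fixingSubgroup G A : Subgroup G))) ?_
  · rw [Nat.card_prod, show Nat.card (Bool × Bool) = 4 by simp] at h
    exact h
  · intro x y hxy
    simp only [Prod.mk.injEq, Subtype.mk.injEq] at hxy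
    rw [hxy.1] at hxy
    exact Subtype.ext (mul_left_cancel hxy.2)

/-- An elementary abelian group on four points has image of order at most four. -/
theorem card_le_four_mul (W : Subgroup G) (A : Set Ω) (hA : A.ncard = 4) (hWA : W ≤ stabilizer G A)
    (hW2 : ∀ w ∈ W, w * w = 1) :
    Nat.card W ≤ 4 * Nat.card (W ⊓ fixingSubgroup G A : Subgroup G) := by
  by_cases h : 2 * Nat.card (W ⊓ fixingSubgroup G A : Subgroup G) < Nat.card W
  · refine cover_bound W W A hA le_rfl hWA hW2 h fun x hx w hw => ?_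
    have i : ∀ v ∈ W, v⁻¹ = v := fun v hv => inv_eq_of_mul_eq_one_right (hW2 v hv)
    calc x * w = (x * w)⁻¹ := (i _ (mul_mem hx hw)).symm
      _ = w * x := by rw [mul_inv_rev, i x hx, i w hw]
  · omega

/-- Two-subgroups have image of order at most eight. -/
theorem card_le_eight_mul {X : Subgroup G} (hX : IsPGroup 2 X) (A : Set Ω) (hA : A.ncard ≤ 4)
    (hXA : X ≤ stabilizer G A) :
    Nat.card X ≤ 8 * Nat.card (X ⊓ fixingSubgroup G A : Subgroup G) := by
  haveI : Fact (Nat.Prime 2) := ⟨Nat.prime_two⟩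
  obtain ⟨i, hi, hcard⟩ := exists_image_pow hX A hXA
  have h' : 2 ^ i ∣ 24 := hi.trans (Nat.factorial_dvd_factorial hA)
  have h8 : 2 ^ i ≤ 8 := by
    rcases i with _ | _ | _ | _ | i
    · norm_num
    · norm_num
    · norm_num
    · norm_num
    · have : 16 ∣ 24 := dvd_trans ⟨2 ^ i, by ring⟩ h'
      norm_num at this
  rw [hcard, mul_comm]
  exact Nat.mul_le_mul_right _ h8

end Cfsg.Agent.H81.Fix4
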