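import Cfsg.Agent.H81.Fix4.TwoGroup
import Cfsg.Agent.H81.Fix4.Four

/-!
A 2-group acting with fixity four and involutions fixing no point or four points.
-/

set_option autoImplicit false
set_option linter.unusedSectionVars false

namespace Cfsg.Agent.H81.Fix4

open MulAction Pointwise Subgroup
open Cfsg.Agent.H81.MacW (sqSub sq_mem_sqSub card_split card_pow_two sectional_of_sq comm_mem_sqSub)
open Cfsg.Agent.H81.SelfEight (flag_bound bound_of two_le_card card_le_fix_sq)

variable {S Ω : Type*} [Group S] [Finite S] [MulAction S Ω] [Finite Ω]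

/-- An involution fixing exactly four points. -/
def Fixer (Ω : Type*) [MulAction S Ω] (u : S) : Prop :=
  u ≠ 1 ∧ u * u = 1 ∧ (fixedBy Ω u).ncard = 4

/-- A small set outside the fixed points, stable under their stabiliser. -/
def Aux (Ω : Type*) [MulAction S Ω] (t : S) : Prop :=
  ∃ O : Set Ω, Disjoint O (fixedBy Ω t) ∧ O.Nonempty ∧ O.ncard ≤ 4 ∧
    stabilizer S (fixedBy Ω t) ≤ stabilizer S O

theorem comm_of_exp_two {X : Subgroup S} (h : ∀ x ∈ X, x * x = 1) {x y : S} (hx : x ∈ X) (hy : y ∈ X) :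
    x * y = y * x := by
  have i : ∀ v ∈ X, v⁻¹ = v := fun v hv => inv_eq_of_mul_eq_one_right (h v hv)
  calc x * y = (x * y)⁻¹ := (i _ (mul_mem hx hy)).symm
    _ = y * x := by rw [mul_inv_rev, i x hx, i y hy]

theorem card_mul_le_of_disjoint {A B C : Subgroup S} (hA : A ≤ C) (hB : B ≤ C) (h : A ⊓ B = ⊥) :
    Nat.card A * Nat.card B ≤ Nat.card C := by
  rw [← Nat.card_prod]
  refine Nat.card_le_card_of_injective
    (fun g : A × B => (⟨(g.1 : S) * g.2, mul_mem (hA g.1.2) (hB g.2.2)⟩ : C)) ?_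
  intro x y hxy
  exact Subgroup.mul_injective_of_disjoint (disjoint_iff.2 h) (congrArg Subtype.val hxy)

theorem exists_mul_of_card {A B C : Subgroup S} (hA : A ≤ C) (hB : B ≤ C) (h : A ⊓ B = ⊥)
    (hc : Nat.card C ≤ Nat.card A * Nat.card B) {c : S} (hcC : c ∈ C) :
    ∃ a ∈ A, ∃ b ∈ B, c = a * b := by
  let f : A × B → C := fun g => ⟨(g.1 : S) * g.2, mul_mem (hA g.1.2) (hB g.2.2)⟩
  have hf : Function.Injective f := fun x y hxy =>
    Subgroup.mul_injective_of_disjoint (disjoint_iff.2 h) (congrArg Subtype.val hxy)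
  obtain ⟨⟨a, b⟩, hab⟩ := (hf.bijective_of_nat_card_le (by rw [Nat.card_prod]; exact hc)).2 ⟨c, hcC⟩
  exact ⟨a, a.2, b, b.2, (congrArg Subtype.val hab).symm⟩

/-- Squares and involutions in a group of order four with an element of order four. -/
theorem four_cyclic (hP : IsPGroup 2 S) {W : Subgroup S} (hW : Nat.card W ≤ 4) {h : S} (hh : h ∈ W)
    (hh2 : h * h ≠ 1) :
    h * h * (h * h) = 1 ∧ ∀ x ∈ W, (x * x = 1 ∨ x * x = h * h) ∧ (x * x = 1 → x = 1 ∨ x = h * h) := by
  haveI : Fact (Nat.Prime 2) := ⟨Nat.prime_two⟩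
  have hle : zpowers h ≤ W := zpowers_le.2 hh
  obtain ⟨k, hk⟩ := card_pow_two hP (zpowers h)
  have h1 := card_le_of_le hle
  have ho : orderOf h = 4 := by
    rw [Nat.card_zpowers] at hk h1
    have hd : ¬ orderOf h ∣ 2 := by rw [orderOf_dvd_iff_pow_eq_one, pow_two]; exact hh2
    rw [hk] at h1 hd ⊢
    rcases k with _ | _ | _ | k
    · simp at hd
    · simp at hd
    · rfl
    · rw [pow_succ, pow_succ, pow_succ] at h1
      have := Nat.one_le_two_pow (n := k)
      omega
  have heq : zpowers h = W := eq_of_le_of_card_ge hle (by rw [Nat.card_zpowers, ho]; exact hW)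
  have h4 : h ^ 4 = 1 := ho ▸ pow_orderOf_eq_one h
  refine ⟨by rw [← pow_two, ← pow_two, ← pow_mul]; exact h4, fun x hx => ?_⟩
  rw [← heq] at hx
  obtain ⟨i, rfl⟩ := (isOfFinOrder_of_finite h).mem_powers_iff_mem_zpowers.2 hx
  simp only
  rw [pow_eq_pow_mod i h4]
  have hlt := Nat.mod_lt i (show 0 < 4 by norm_num)
  generalize i % 4 = j at hlt ⊢
  interval_cases j
  · exact ⟨Or.inl (by simp), fun _ => Or.inl (pow_zero h)⟩
  · rw [pow_one]; exact ⟨Or.inr rfl, fun e => absurd e hh2⟩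
  · exact ⟨Or.inl (by rw [← pow_add]; exact h4), fun _ => Or.inr (pow_two h)⟩
  · refine ⟨Or.inr (by rw [← pow_add, show 3 + 3 = 2 + 4 by norm_num, pow_add, h4, mul_one, pow_two]),
      fun e => absurd ?_ hh2⟩
    rw [← pow_add, show 3 + 3 = 2 + 4 by norm_num, pow_add, h4, mul_one, pow_two] at e
    exact e

theorem card_eight_mul_top (hP : IsPGroup 2 S) {A : Set Ω} (hA : A.ncard ≤ 4) (h : ∀ s : S, s • A = A) :
    Nat.card S ≤ 8 * Nat.card (fixingSubgroup S A) := by
  have := card_le_eight_mul (X := (⊤ : Subgroup S)) (hP.to_subgroup ⊤) A hA fun s _ => h s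
  rwa [top_inf_eq, card_top] at this

variable (h4 : Small4 S Ω)
include h4

theorem kernel_free {A : Set Ω} (hA : A.ncard = 4) {x : S} (hx : ∀ a ∈ A, x • a = a) {b : Ω}
    (hb : b ∉ A) (hxb : x • b = b) : x = 1 := by
  refine eq_one_of_fix h4 (insert b A) ?_ ?_
  · rintro a (rfl | ha)
    · exact hxb
    · exact hx a ha
  · rw [Set.ncard_insert_of_notMem hb (Set.toFinite _), hA]
    norm_num

theorem card_fixing_le {A O : Set Ω} (hA : A.ncard = 4) (hd : Disjoint O A) (hO : O.Nonempty)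
    (X : Subgroup S) (hXA : X ≤ fixingSubgroup S A) (hXO : X ≤ stabilizer S O) :
    Nat.card X ≤ O.ncard := by
  obtain ⟨b, hb⟩ := hO
  refine card_le_of_free X O (fun x hx c hc => ?_) hb fun x hx hxb => ?_
  · rw [← show x • O = O from hXO hx]
    exact Set.smul_mem_smul_set hc
  · exact kernel_free h4 hA (mem_fixing.1 (hXA hx)) (Set.disjoint_left.1 hd hb) hxb

theorem fix_eq_four {A : Set Ω} (hA : A.ncard = 4) {x : S} (hx1 : x ≠ 1) (hx : ∀ a ∈ A, x • a = a) :
    fixedBy Ω x = A := fixedBy_eq_of_subset hx (by rw [hA]; exact h4 x hx1)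

/-- An auxiliary fixer inside the normal subgroup. -/
theorem alpha (hP : IsPGroup 2 S) (E : Subgroup S) [hEn : E.Normal]
    (hE2 : ∀ x ∈ E, x * x = 1) (h8 : Nat.card E = 8) {e : S} (he : e ∈ E) (hef : Fixer Ω e)
    (haux : Aux Ω e) : Cfsg.SectionalPRankLE 2 4 S := by
  classical
  haveI : Fact (Nat.Prime 2) := ⟨Nat.prime_two⟩
  have hEc : ∀ x ∈ E, ∀ y ∈ E, x * y = y * x := fun x hx y hy => comm_of_exp_two hE2 hx hy
  obtain ⟨he1, he2, hF⟩ := hef
  obtain ⟨O, hd, hO, hO4, hst⟩ := haux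
  obtain ⟨F, hFdef⟩ : ∃ F, F = fixedBy Ω e := ⟨_, rfl⟩
  rw [← hFdef] at hF hd hst
  obtain ⟨C, hC⟩ : ∃ C, C = centralizer (E : Set S) := ⟨_, rfl⟩
  have hEC : E ≤ C := hC ▸ fun x hx => mem_centralizer_iff.2 fun y hy => hEc y hy x hx
  have hCe : ∀ x ∈ C, ∀ v ∈ E, x * v = v * x := fun x hx v hv =>
    (mem_centralizer_iff.1 (hC ▸ hx) v hv).symm
  have hCn : ∀ s, ∀ c ∈ C, s * c * s⁻¹ ∈ C := fun s c hc => by
    rw [hC] at hc ⊢; exact (inferInstance : (centralizer (E : Set S)).Normal).conj_mem c hc s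
  have hCF : C ≤ stabilizer S F := fun x hx => by
    rw [mem_stabilizer_iff, hFdef, smul_fixedBy_of_comm (hCe x hx e he)]
  have hCO : C ≤ stabilizer S O := hCF.trans hst
  obtain ⟨K, hK⟩ : ∃ K, K = C ⊓ fixingSubgroup S F := ⟨_, rfl⟩
  have heK : e ∈ K := hK ▸ ⟨hEC he, mem_fixing.2 fun p hp => by rw [hFdef] at hp; exact hp⟩
  have hKO : Nat.card K ≤ O.ncard :=
    card_fixing_le h4 hF hd hO K (hK ▸ inf_le_right) (hK ▸ inf_le_left.trans hCO)
  have hKe := two_le_card heK he1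
  have hdone : C = E → Cfsg.SectionalPRankLE 2 4 S := fun h =>
    Cfsg.Agent.H81.SelfEight.sectional_rank_le_four hP E
      ⟨⟨⟨fun a b => Subtype.ext (hEc a a.2 b b.2)⟩⟩, fun g hg => by rw [pow_two]; exact hE2 g hg⟩ h8
      (hC ▸ h)
  by_cases hK2 : Nat.card K ≤ 2
  · refine hdone (le_antisymm (fun c hc => ?_) hEC)
    have hlarge : 2 * Nat.card (E ⊓ fixingSubgroup S F : Subgroup S) < Nat.card E := by
      have : Nat.card (E ⊓ fixingSubgroup S F : Subgroup S) ≤ Nat.card K :=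
        card_le_of_le (hK ▸ inf_le_inf_right _ hEC)
      omega
    obtain ⟨w, hw, hwc⟩ := exists_cover C E F hF hEC hCF hE2 hlarge hCe c hc
    have hKE : zpowers e = K := eq_of_le_of_card_ge (zpowers_le.2 heK) (by
      rw [Nat.card_zpowers, orderOf_eq_prime (by rw [pow_two]; exact he2) he1]; exact hK2)
    have h : w⁻¹ * c ∈ E := zpowers_le.2 he (hKE.ge (hK ▸ ⟨C.mul_mem (C.inv_mem (hEC hw)) hc, hwc⟩))
    have := mul_mem hw h
    rwa [mul_inv_cancel_left] at this
  have hK4 : Nat.card K = 4 ∧ O.ncard = 4 := by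
    obtain ⟨n, hn⟩ := card_pow_two hP K
    rw [hn] at hKO hK2 ⊢
    rcases n with _ | _ | _ | n
    · simp at hK2
    · simp at hK2
    · exact ⟨rfl, by norm_num at hKO; omega⟩
    · rw [pow_succ, pow_succ, pow_succ] at hKO
      have := Nat.one_le_two_pow (n := n)
      omega
  obtain ⟨hK4, hO'⟩ := hK4
  obtain ⟨W, hW⟩ : ∃ W, W = C ⊓ fixingSubgroup S O := ⟨_, rfl⟩
  have hFne : F.Nonempty := Set.nonempty_of_ncard_ne_zero (by omega)
  have hWF : Nat.card W ≤ 4 :=
    hF ▸ card_fixing_le h4 hO' hd.symm hFne W (hW ▸ inf_le_right) (hW ▸ inf_le_left.trans hCF)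
  have hKC : K ≤ C := hK ▸ inf_le_left
  have hWC : W ≤ C := hW ▸ inf_le_left
  have hKW : K ⊓ W = ⊥ := by
    rw [eq_bot_iff]
    rintro x ⟨hx, hx'⟩
    rw [hK] at hx
    rw [hW] at hx'
    obtain ⟨b, hb⟩ := hO
    exact mem_bot.2 (kernel_free h4 hF (mem_fixing.1 hx.2) (Set.disjoint_left.1 hd hb)
      (mem_fixing.1 hx'.2 b hb))
  have hCcard : Nat.card C ≤ Nat.card K * Nat.card W := by
    by_cases hEO : 2 * Nat.card (E ⊓ fixingSubgroup S O : Subgroup S) < Nat.card E
    · have := cover_bound C E O hO' hEC hCO hE2 hEO hCe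
      rw [← hW] at this
      rwa [hK4]
    · have hEF : 2 * Nat.card (E ⊓ fixingSubgroup S F : Subgroup S) < Nat.card E := by
        have h := card_mul_le_of_disjoint (A := E ⊓ fixingSubgroup S F) (B := E ⊓ fixingSubgroup S O)
          inf_le_left inf_le_left (by
            rw [eq_bot_iff]
            rintro x ⟨hx, hx'⟩
            exact hKW.le ⟨hK ▸ ⟨hEC hx.1, hx.2⟩, hW ▸ ⟨hEC hx.1, hx'.2⟩⟩)
        nlinarith
      have h := cover_bound C E F hF hEC hCF hE2 hEF hCe
      rw [← hK] at h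
      have : Nat.card (E ⊓ fixingSubgroup S O : Subgroup S) ≤ Nat.card W :=
        card_le_of_le (hW ▸ inf_le_inf_right _ hEC)
      have hW4 : Nat.card W = 4 := by omega
      rw [hW4]
      linarith
  -- `C` is abelian
  have hconjfix : ∀ (A : Set Ω), ∀ c ∈ stabilizer S A, ∀ x ∈ fixingSubgroup S A,
      c * x * c⁻¹ ∈ fixingSubgroup S A := fun A c hc x hx => mem_fixing.2 fun p hp => by
    rw [mul_smul, mul_smul, mem_fixing.1 hx _ (by
      rw [← Set.mem_smul_set_iff_inv_smul_mem, show c • A = A from hc]; exact hp), smul_inv_smul]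
  have hkw : ∀ k ∈ K, ∀ w ∈ W, k * w = w * k := by
    intro k hk w hw
    have h1 : k * w * k⁻¹ * w⁻¹ ∈ W := mul_mem (hW ▸ ⟨hCn k w (hWC hw), hconjfix O k (hCO (hKC hk)) w
      (hW ▸ hw).2⟩) (inv_mem hw)
    have h2 : k * w * k⁻¹ * w⁻¹ ∈ K := by
      rw [show k * w * k⁻¹ * w⁻¹ = k * (w * k⁻¹ * w⁻¹) by group]
      exact mul_mem hk (hK ▸ ⟨hCn w k⁻¹ (inv_mem (hKC hk)), hconjfix F w (hCF (hWC hw)) k⁻¹
        (inv_mem (hK ▸ hk).2)⟩)
    have := mem_bot.1 (hKW.le ⟨h2, h1⟩)
    rwa [mul_inv_eq_one, mul_inv_eq_iff_eq_mul] at this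
  have hcomm4 : ∀ {X : Subgroup S}, Nat.card X ≤ 4 → ∀ x ∈ X, ∀ y ∈ X, x * y = y * x := by
    intro X hX x hx y hy
    by_cases hexp : ∀ v ∈ X, v * v = 1
    · exact comm_of_exp_two hexp hx hy
    push Not at hexp
    obtain ⟨h, hh, hh2⟩ := hexp
    have hz : zpowers h = X := by
      refine eq_of_le_of_card_ge (zpowers_le.2 hh) ?_
      have hd2 : ¬ orderOf h ∣ 2 := by rw [orderOf_dvd_iff_pow_eq_one, pow_two]; exact hh2
      obtain ⟨n, hn⟩ := card_pow_two hP (zpowers h)
      rw [Nat.card_zpowers] at hn ⊢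
      rw [hn] at hd2 ⊢
      rcases n with _ | _ | n
      · simp at hd2
      · simp at hd2
      · rw [pow_succ, pow_succ]
        have := Nat.one_le_two_pow (n := n)
        omega
    rw [← hz] at hx hy
    obtain ⟨i, rfl⟩ := hx
    obtain ⟨j, rfl⟩ := hy
    simp only
    rw [← zpow_add, ← zpow_add, add_comm]
  have hdec : ∀ c ∈ C, ∃ k ∈ K, ∃ w ∈ W, c = k * w := fun c hc =>
    exists_mul_of_card hKC hWC hKW hCcard hc
  have hCab : ∀ x ∈ C, ∀ y ∈ C, x * y = y * x := by
    intro x hx y hy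
    obtain ⟨a, ha, b, hb, rfl⟩ := hdec x hx
    obtain ⟨a', ha', b', hb', rfl⟩ := hdec y hy
    calc a * b * (a' * b') = a * (b * a') * b' := by group
      _ = a * a' * (b * b') := by rw [← hkw a' ha' b hb]; group
      _ = a' * a * (b' * b) := by rw [hcomm4 hK4.le a ha a' ha', hcomm4 hWF b hb b' hb']
      _ = a' * (a * b') * b := by group
      _ = a' * b' * (a * b) := by rw [hkw a ha b' hb']; group
  have hC16 : Nat.card C ≤ 16 := by
    have := Nat.mul_le_mul_left 4 hWF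
    rw [hK4] at hCcard
    omega
  by_cases hC8 : Nat.card C ≤ 8
  · exact hdone (eq_of_le_of_card_ge hEC (by rw [h8]; exact hC8)).symm
  have hC16' : Nat.card C = 16 := by
    obtain ⟨n, hn⟩ := card_pow_two hP C
    rw [hn] at hC8 hC16 ⊢
    rcases Nat.lt_or_ge n 4 with h | h
    · have := Nat.pow_le_pow_right (show 1 ≤ 2 by norm_num) (show n ≤ 3 by omega)
      omega
    · have := Nat.pow_le_pow_right (show 1 ≤ 2 by norm_num) h
      omega
  have hW4 : Nat.card W = 4 := by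
    rw [hK4, hC16'] at hCcard
    omega
  have hkerF : ∀ r : S, r ∈ fixingSubgroup S F → r ∈ C := by
    intro r hr
    have hle : K ≤ fixingSubgroup S F := hK ▸ inf_le_right
    have h := card_fixing_le h4 hF hd hO (fixingSubgroup S F) le_rfl ((fixing_le_stabilizer F).trans hst)
    exact hKC ((eq_of_le_of_card_ge hle (by rw [hK4]; omega)).ge hr)
  by_cases hel : ∀ x ∈ C, x * x = 1
  · -- elementary
    refine rank_of_cent16 hP E hEc hE2 h8 (hC ▸ hC16') fun X hX => ?_
    rw [← hC]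
    obtain ⟨s, hs, hsC⟩ : ∃ s ∈ X, s ∉ C := by
      by_contra hcon
      push Not at hcon
      have : X.map (QuotientGroup.mk' (centralizer (E : Set S))) = ⊥ := by
        rw [Subgroup.map_eq_bot_iff, QuotientGroup.ker_mk', ← hC]
        exact hcon
      rw [this, card_bot] at hX
      omega
    refine ⟨s, hs, hsC, ?_⟩
    by_contra hlt
    push Not at hlt
    obtain ⟨D, hD⟩ : ∃ D, D = C ⊓ centralizer ({s} : Set S) := ⟨_, rfl⟩
    rw [← hD] at hlt
    have hDC : D ≤ C := hD ▸ inf_le_left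
    have hDs : ∀ d ∈ D, d * s = s * d := fun d hdD =>
      mem_centralizer_singleton_iff.1 (hD ▸ hdD).2
    have hD2 : ∀ d ∈ D, d * d = 1 := fun d hdD => hel d (hDC hdD)
    have hmeet : ∀ B : Subgroup S, B ≤ C → Nat.card B = 4 → ∃ b ∈ B, b ≠ 1 ∧ b ∈ D := by
      intro B hB hB4
      by_contra hcon
      push Not at hcon
      have := card_mul_le_of_disjoint hDC hB (by
        rw [eq_bot_iff]
        rintro x ⟨hx, hx'⟩
        by_contra hx1
        exact hcon x hx' (fun h => hx1 (mem_bot.2 h)) hx)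
      rw [hB4, hC16'] at this
      omega
    obtain ⟨k, hk, hk1, hkD⟩ := hmeet K hKC hK4
    obtain ⟨w, hw, hw1, hwD⟩ := hmeet W hWC hW4
    have hsF : s • F = F := by
      rw [← fix_eq_four h4 hF hk1 (mem_fixing.1 (hK ▸ hk).2)]
      exact smul_fixedBy_of_comm (hDs k hkD).symm
    have hsO : s • O = O := by
      rw [← fix_eq_four h4 hO' hw1 (mem_fixing.1 (hW ▸ hw).2)]
      exact smul_fixedBy_of_comm (hDs w hwD).symm
    have hDX : ∀ x ∈ D ⊔ zpowers s, ∀ d ∈ D, x * d = d * x := by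
      intro x hx d hdD
      have : D ⊔ zpowers s ≤ centralizer ({d} : Set S) := sup_le
        (fun y hy => mem_centralizer_singleton_iff.2 (hCab y (hDC hy) d (hDC hdD)))
        (zpowers_le.2 (mem_centralizer_singleton_iff.2 (hDs d hdD).symm))
      exact mem_centralizer_singleton_iff.1 (this hx)
    have hsX : s ∈ D ⊔ zpowers s := mem_sup_right (mem_zpowers s)
    have hXst : ∀ A : Set Ω, C ≤ stabilizer S A → s • A = A → D ⊔ zpowers s ≤ stabilizer S A :=
      fun A hA hsA => sup_le (hDC.trans hA) (zpowers_le.2 hsA)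
    by_cases hlF : 2 * Nat.card (D ⊓ fixingSubgroup S F : Subgroup S) < Nat.card D
    · obtain ⟨d, hdD, hds⟩ :=
        exists_cover (D ⊔ zpowers s) D F hF le_sup_left (hXst F hCF hsF) hD2 hlF hDX s hsX
      exact hsC (by have := mul_mem (hDC hdD) (hkerF _ hds); rwa [mul_inv_cancel_left] at this)
    by_cases hlO : 2 * Nat.card (D ⊓ fixingSubgroup S O : Subgroup S) < Nat.card D
    · obtain ⟨d, hdD, hds⟩ :=
        exists_cover (D ⊔ zpowers s) D O hO' le_sup_left (hXst O hCO hsO) hD2 hlO hDX s hsX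
      obtain ⟨W', hW'⟩ : ∃ W', W' = fixingSubgroup S O ⊓ stabilizer S F := ⟨_, rfl⟩
      have hle : W ≤ W' := hW' ▸ le_inf (hW ▸ inf_le_right) (hWC.trans hCF)
      have h := card_fixing_le h4 hO' hd.symm hFne W' (hW' ▸ inf_le_left) (hW' ▸ inf_le_right)
      have hr : d⁻¹ * s ∈ C := hWC ((eq_of_le_of_card_ge hle (by rw [hW4]; omega)).ge
        (hW' ▸ ⟨hds, (stabilizer S F).mul_mem ((stabilizer S F).inv_mem (hCF (hDC hdD))) hsF⟩))
      exact hsC (by have := mul_mem (hDC hdD) hr; rwa [mul_inv_cancel_left] at this)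
    have h := card_mul_le_of_disjoint (A := D ⊓ fixingSubgroup S F) (B := D ⊓ fixingSubgroup S O)
      inf_le_left inf_le_left (by
        rw [eq_bot_iff]
        rintro x ⟨hx, hx'⟩
        exact hKW.le ⟨hK ▸ ⟨hDC hx.1, hx.2⟩, hW ▸ ⟨hDC hx.1, hx'.2⟩⟩)
    push Not at hlF hlO
    nlinarith [Nat.mul_le_mul hlF hlO]
  push Not at hel
  obtain ⟨c, hc, hc2⟩ := hel
  -- one of the factors is cyclic
  have hone : (∀ x ∈ K, x * x = 1) ∨ (∀ x ∈ W, x * x = 1) := by
    by_contra hcon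
    push Not at hcon
    obtain ⟨⟨a, ha, ha2⟩, b, hb, hb2⟩ := hcon
    obtain ⟨-, hKsq⟩ := four_cyclic hP hK4.le ha ha2
    obtain ⟨-, hWsq⟩ := four_cyclic hP hWF hb hb2
    have hsub : (E : Set S) ⊆ {1, b * b} ∪ {a * a, a * a * (b * b)} := by
      intro v hv
      obtain ⟨k, hk, w, hw, rfl⟩ := hdec v (hEC hv)
      have h := hE2 _ hv
      rw [show k * w * (k * w) = k * (w * k) * w by group, ← hkw k hk w hw,
        show k * (k * w) * w = k * k * (w * w) by group] at h
      have hk2 : k * k = 1 := mem_bot.1 (hKW.le ⟨mul_mem hk hk, by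
        rw [eq_inv_of_mul_eq_one_left h]; exact W.inv_mem (W.mul_mem hw hw)⟩)
      have hw2 : w * w = 1 := by rwa [hk2, one_mul] at h
      rcases (hKsq k hk).2 hk2 with rfl | rfl <;> rcases (hWsq w hw).2 hw2 with rfl | rfl <;> simp
    have h := (Set.ncard_le_ncard hsub (Set.toFinite _)).trans (Set.ncard_union_le _ _)
    rw [← Nat.card_coe_set_eq (E : Set S)] at h
    have e8 : Nat.card (E : Set S) = 8 := h8
    have := Set.ncard_insert_le (1 : S) {b * b}
    have := Set.ncard_insert_le (a * a) {a * a * (b * b)}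
    rw [Set.ncard_singleton] at *
    omega
  have hsq : ∀ k ∈ K, ∀ w ∈ W, k * w * (k * w) = k * k * (w * w) := fun k hk w hw => by
    rw [show k * w * (k * w) = k * (w * k) * w by group, ← hkw k hk w hw]; group
  -- a central square
  have hcentral : ∀ x0 : S, (∀ v ∈ C, v * v = 1 ∨ v * v = x0) → ∀ h ∈ C, h * h = x0 → x0 ≠ 1 →
      ∀ s : S, s * x0 = x0 * s := by
    intro x0 hx0 h hh hhx hne s
    rw [← mul_inv_eq_iff_eq_mul, ← hhx, show s * (h * h) * s⁻¹ = (s * h * s⁻¹) * (s * h * s⁻¹) by group]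
    rcases hx0 _ (hCn s h hh) with e | e
    · exfalso
      rw [show (s * h * s⁻¹) * (s * h * s⁻¹) = s * (h * h) * s⁻¹ by group, hhx, conj_eq_one_iff] at e
      exact hne e
    · rw [e, hhx]
  have hsmall : Nat.card S ≤ 32 := by
    rcases hone with hKel | hWel
    · obtain ⟨h, hh, hh2⟩ : ∃ h ∈ W, h * h ≠ 1 := by
        by_contra hcon
        push Not at hcon
        obtain ⟨k, hk, w, hw, rfl⟩ := hdec c hc
        exact hc2 (by rw [hsq k hk w hw, hKel k hk, hcon w hw, one_mul])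
      obtain ⟨-, hWsq⟩ := four_cyclic hP hWF hh hh2
      obtain ⟨x0, hx0⟩ : ∃ x0, x0 = h * h := ⟨_, rfl⟩
      have hx0W : x0 ∈ W := hx0 ▸ mul_mem hh hh
      have hcen := hcentral x0 (fun v hv => by
        obtain ⟨k, hk, w, hw, rfl⟩ := hdec v hv
        rw [hsq k hk w hw, hKel k hk, one_mul, hx0]
        exact (hWsq w hw).1) h (hWC hh) hx0.symm (hx0 ▸ hh2)
      have hSO : ∀ s : S, s • O = O := fun s => by
        rw [← fix_eq_four h4 hO' (hx0 ▸ hh2) (mem_fixing.1 (hW ▸ hx0W).2)]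
        exact smul_fixedBy_of_comm (hcen s)
      have hTF : fixingSubgroup S O ≤ stabilizer S F := by
        intro t ht
        -- `t` centralises an involution of `K`
        have hmove : ∀ a ∈ K, a⁻¹ * (t * a * t⁻¹) = 1 ∨ a⁻¹ * (t * a * t⁻¹) = x0 := by
          intro a ha
          have h1 : a⁻¹ * (t * a * t⁻¹) ∈ C := mul_mem (inv_mem (hKC ha)) (hCn t a (hKC ha))
          have h2 : a⁻¹ * (t * a * t⁻¹) ∈ fixingSubgroup S O := mem_fixing.2 fun p hp => by
            rw [mul_smul, mul_smul, mul_smul, mem_fixing.1 (inv_mem ht) p hp, mem_fixing.1 ht _ (by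
              rw [← show a • O = O from hCO (hKC ha)]; exact Set.smul_mem_smul_set hp), inv_smul_smul]
          have e : a⁻¹ * (t * a * t⁻¹) * (a⁻¹ * (t * a * t⁻¹)) = 1 := by
            have hc' := hCab _ (hCn t a (hKC ha)) _ (inv_mem (hKC ha))
            calc a⁻¹ * (t * a * t⁻¹) * (a⁻¹ * (t * a * t⁻¹))
                = a⁻¹ * ((t * a * t⁻¹) * a⁻¹) * (t * a * t⁻¹) := by group
              _ = a⁻¹ * (a⁻¹ * (t * a * t⁻¹)) * (t * a * t⁻¹) := by rw [hc']
              _ = (a * a)⁻¹ * (t * (a * a) * t⁻¹) := by group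
              _ = 1 := by rw [hKel a ha]; group
          exact hx0 ▸ (hWsq _ (hW ▸ ⟨h1, h2⟩)).2 e
        obtain ⟨a, ha, ha1, hfixa⟩ : ∃ a ∈ K, a ≠ 1 ∧ t * a * t⁻¹ = a := by
          by_contra hcon
          push Not at hcon
          obtain ⟨b, hb, hb1, hbe⟩ : ∃ b ∈ K, b ≠ 1 ∧ b ≠ e := by
            by_contra hcon2
            push Not at hcon2
            have hsub : (K : Set S) ⊆ {1, e} := fun v hv => by
              by_cases h1 : v = 1
              · exact Or.inl h1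
              · exact Or.inr (hcon2 v hv h1)
            have h' := (Set.ncard_le_ncard hsub (Set.toFinite _)).trans (Set.ncard_insert_le _ _)
            rw [← Nat.card_coe_set_eq (K : Set S), Set.ncard_singleton] at h'
            have e4 : Nat.card (K : Set S) = 4 := hK4
            omega
          have hne : ∀ a ∈ K, a ≠ 1 → t * a * t⁻¹ = a * x0 := fun a ha ha1 => by
            rcases hmove a ha with h' | h'
            · exact absurd (inv_mul_eq_one.1 h').symm (hcon a ha ha1)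
            · rw [← h', mul_inv_cancel_left]
          have hprod1 : e * b ≠ 1 := fun h' => hbe (by
            rw [← inv_eq_of_mul_eq_one_right he2]; exact eq_inv_of_mul_eq_one_right h')
          refine hcon (e * b) (mul_mem heK hb) hprod1 ?_
          rw [show t * (e * b) * t⁻¹ = t * e * t⁻¹ * (t * b * t⁻¹) by group, hne e heK he1,
            hne b hb hb1, mul_assoc e x0, ← mul_assoc x0 b, hcen b |>.symm, mul_assoc b x0, hx0,
            (four_cyclic hP hWF hh hh2).1, mul_one]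
        rw [mem_stabilizer_iff, ← fix_eq_four h4 hF ha1 (mem_fixing.1 (hK ▸ ha).2)]
        exact smul_fixedBy_of_comm (mul_inv_eq_iff_eq_mul.1 hfixa)
      have hT := card_fixing_le h4 hO' hd.symm hFne (fixingSubgroup S O) le_rfl hTF
      have htop := card_eight_mul_top hP hO'.le hSO
      omega
    · obtain ⟨h, hh, hh2⟩ : ∃ h ∈ K, h * h ≠ 1 := by
        by_contra hcon
        push Not at hcon
        obtain ⟨k, hk, w, hw, rfl⟩ := hdec c hc
        exact hc2 (by rw [hsq k hk w hw, hcon k hk, hWel w hw, one_mul])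
      obtain ⟨-, hKsq⟩ := four_cyclic hP hK4.le hh hh2
      obtain ⟨x0, hx0⟩ : ∃ x0, x0 = h * h := ⟨_, rfl⟩
      have hx0K : x0 ∈ K := hx0 ▸ mul_mem hh hh
      have hcen := hcentral x0 (fun v hv => by
        obtain ⟨k, hk, w, hw, rfl⟩ := hdec v hv
        rw [hsq k hk w hw, hWel w hw, mul_one, hx0]
        exact (hKsq k hk).1) h (hKC hh) hx0.symm (hx0 ▸ hh2)
      have hSF : ∀ s : S, s • F = F := fun s => by
        rw [← fix_eq_four h4 hF (hx0 ▸ hh2) (mem_fixing.1 (hK ▸ hx0K).2)]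
        exact smul_fixedBy_of_comm (hcen s)
      have hT := card_fixing_le h4 hF hd hO (fixingSubgroup S F) le_rfl
        ((fixing_le_stabilizer F).trans hst)
      have htop := card_eight_mul_top hP hF.le hSF
      omega
  exact rank_of_small hP hsmall fun _ => ⟨c, by rwa [pow_two]⟩

end Cfsg.Agent.H81.Fix4
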