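import Cfsg.Agent.H81.Fix4.OddTransfer
import Cfsg.Agent.H31.SylowBasic

/-!
Fixity four with point stabilisers of odd order divisible by three.
-/

set_option autoImplicit false
set_option linter.unusedSectionVars false

namespace Cfsg.Agent.H81.Fix4

open MulAction Pointwise Subgroup

theorem no_invert {Q : Type*} [Group Q] {g r : Q} (hg : Odd (orderOf g)) (hr : r ^ 3 = 1) (hr1 : r ≠ 1)
    (h : g * r * g⁻¹ = r⁻¹) : False := by
  have h2 : Commute (g * g) r := by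
    show g * g * r = r * (g * g)
    calc g * g * r = g * (g * r * g⁻¹) * g⁻¹ * (g * g) := by group
      _ = g * r⁻¹ * g⁻¹ * (g * g) := by rw [h]
      _ = (g * r * g⁻¹)⁻¹ * (g * g) := by group
      _ = r * (g * g) := by rw [h, inv_inv]
  obtain ⟨m, hm⟩ := hg
  have h3 : (g * g) ^ (m + 1) = g := by
    rw [← pow_two, ← pow_mul, show 2 * (m + 1) = (2 * m + 1) + 1 by ring, pow_succ, ← hm,
      pow_orderOf_eq_one, one_mul]
  have h4 : g * r = r * g := by
    have := (h2.pow_left (m + 1)).eq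
    rwa [h3] at this
  rw [h4, mul_inv_cancel_right] at h
  refine hr1 ?_
  calc r = r ^ 3 * (r * r)⁻¹ := by group
    _ = 1 := by rw [hr, show r * r = 1 by nth_rw 1 [h]; rw [inv_mul_cancel]]; simp

theorem commute_of_sq {Q : Type*} [Group Q] {g z : Q} (hg : Odd (orderOf g))
    (h : g * g * z = z * (g * g)) : g * z = z * g := by
  obtain ⟨m, hm⟩ := hg
  have h3 : (g * g) ^ (m + 1) = g := by
    rw [← pow_two, ← pow_mul, show 2 * (m + 1) = (2 * m + 1) + 1 by ring, pow_succ, ← hm,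
      pow_orderOf_eq_one, one_mul]
  have := (Commute.pow_left (show Commute (g * g) z from h) (m + 1)).eq
  rwa [h3] at this

theorem not_mem_zpowers_symm {Q : Type*} [Group Q] {r z : Q} (hr : orderOf r = 3) (hz : orderOf z = 3)
    (h : z ∉ zpowers r) : r ∉ zpowers z := by
  intro hh
  have hle : zpowers r ≤ zpowers z := zpowers_le.2 hh
  haveI : Finite (zpowers z) := Nat.finite_of_card_ne_zero (by rw [Nat.card_zpowers, hz]; norm_num)
  exact h (eq_of_le_of_card_ge hle (by rw [Nat.card_zpowers, Nat.card_zpowers, hr, hz]) ▸ mem_zpowers z)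

theorem mem_sup_two {Q : Type*} [Group Q] [Finite Q] {r z x : Q} (hr : r ^ 3 = 1) (hz : z ^ 3 = 1)
    (hc : Commute r z) (hx : x ∈ zpowers r ⊔ zpowers z) :
    ∃ i j : ℕ, i < 3 ∧ j < 3 ∧ x = z ^ i * r ^ j := by
  have key : ∀ y ∈ closure ({r, z} : Set Q), ∃ i j : ℕ, y = z ^ i * r ^ j := by
    intro y hy
    induction hy using Subgroup.closure_induction with
    | mem y hy =>
      rcases hy with rfl | rfl
      · exact ⟨0, 1, by simp⟩
      · exact ⟨1, 0, by simp⟩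
    | one => exact ⟨0, 0, by simp⟩
    | mul a b _ _ ha hb =>
      obtain ⟨i, j, rfl⟩ := ha
      obtain ⟨i', j', rfl⟩ := hb
      refine ⟨i + i', j + j', ?_⟩
      rw [pow_add, pow_add, mul_assoc, ← mul_assoc (r ^ j), (hc.pow_pow j i').eq]
      simp only [mul_assoc]
    | inv a _ ha =>
      obtain ⟨i, j, rfl⟩ := ha
      refine ⟨2 * i, 2 * j, ?_⟩
      rw [mul_inv_rev, show z ^ (2 * i) = (z ^ i)⁻¹ from eq_inv_of_mul_eq_one_left (by
          rw [← pow_add, show 2 * i + i = 3 * i by ring, pow_mul, hz, one_pow]),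
        show r ^ (2 * j) = (r ^ j)⁻¹ from eq_inv_of_mul_eq_one_left (by
          rw [← pow_add, show 2 * j + j = 3 * j by ring, pow_mul, hr, one_pow])]
      exact ((hc.pow_pow j i).inv_inv).eq
  have hle : zpowers r ⊔ zpowers z ≤ closure ({r, z} : Set Q) :=
    sup_le (zpowers_le.2 (subset_closure (by simp))) (zpowers_le.2 (subset_closure (by simp)))
  obtain ⟨i, j, rfl⟩ := key x (hle hx)
  refine ⟨i % 3, j % 3, Nat.mod_lt _ (by norm_num), Nat.mod_lt _ (by norm_num), ?_⟩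
  rw [← pow_eq_pow_mod i hz, ← pow_eq_pow_mod j hr]

/-- An element inducing a shear. -/
theorem shear {Q : Type*} [Group Q] [Finite Q] {r z b : Q} (hr : r ^ 3 = 1) (hz : z ^ 3 = 1)
    (hc : Commute r z) (hzr : z ∉ zpowers r) (hb : Odd (orderOf b)) (hbr : b * r = r * b)
    (hbz : b * z * b⁻¹ ∈ zpowers r ⊔ zpowers z) (hne : b * z ≠ z * b) :
    ∃ c : Q, c * r * c⁻¹ = r ∧ c * z * c⁻¹ = z * r := by
  have hr' : b * r * b⁻¹ = r := by rw [hbr, mul_inv_cancel_right]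
  obtain ⟨i, j, hi, hj, h⟩ := mem_sup_two hr hz hc hbz
  have hrr : ∀ j, b * r ^ j * b⁻¹ = r ^ j := fun j => by rw [← conj_pow, hr']
  have h2 : b * b * z * (b * b)⁻¹ = (z ^ i * r ^ j) ^ i * r ^ j := by
    calc b * b * z * (b * b)⁻¹ = b * (b * z * b⁻¹) * b⁻¹ := by group
      _ = b * (z ^ i * r ^ j) * b⁻¹ := by rw [h]
      _ = (b * z * b⁻¹) ^ i * (b * r ^ j * b⁻¹) := by rw [conj_pow]; group
      _ = _ := by rw [hrr, h]
  interval_cases i
  · exfalso
    rw [pow_zero, one_mul] at h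
    refine hzr ?_
    have : z = r ^ j := by
      calc z = b⁻¹ * (b * z * b⁻¹) * b := by group
        _ = b⁻¹ * (b * r ^ j * b⁻¹) * b := by rw [h, hrr]
        _ = r ^ j := by group
    rw [this]
    exact npow_mem_zpowers r j
  · interval_cases j
    · exfalso
      rw [pow_one, pow_zero, mul_one, mul_inv_eq_iff_eq_mul] at h
      exact hne h
    · exact ⟨b, hr', by rw [h, pow_one, pow_one]⟩
    · refine ⟨b * b, ?_, ?_⟩
      · calc b * b * r * (b * b)⁻¹ = b * (b * r * b⁻¹) * b⁻¹ := by group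
          _ = r := by rw [hr', hr']
      · rw [h2, pow_one, pow_one]
        calc z * r ^ 2 * r ^ 2 = z * r * r ^ 3 := by group
          _ = z * r := by rw [hr, mul_one]
  · exfalso
    refine hne (commute_of_sq hb ?_)
    have e : (z ^ 2 * r ^ j) ^ 2 * r ^ j = z := by
      rw [((hc.symm.pow_pow 2 j)).mul_pow, ← pow_mul, ← pow_mul, mul_assoc, ← pow_add,
        show j * 2 + j = 3 * j by ring, pow_mul r, hr, one_pow, mul_one,
        show 2 * 2 = 3 + 1 by norm_num, pow_succ, hz, one_mul]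
    rw [e, mul_inv_eq_iff_eq_mul] at h2
    exact h2

variable {G Ω : Type*} [Group G] [Finite G] [MulAction G Ω] [Finite Ω]

theorem odd_of_fix {hodd : ∀ (g : G) (x : Ω), g • x = x → Odd (orderOf g)} {g : G} {A : Set Ω}
    (hg : g • A = A) (hA : Odd A.ncard) : Odd (orderOf g) := by
  haveI : Fact (Nat.Prime 2) := ⟨Nat.prime_two⟩
  by_contra h
  rw [Nat.not_odd_iff_even, even_iff_two_dvd] at h
  obtain ⟨u, hu⟩ := exists_prime_orderOf_dvd_card' (G := zpowers g) 2 (by rwa [Nat.card_zpowers])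
  rw [← orderOf_coe] at hu
  have hp : IsPGroup 2 (zpowers (u : G)) :=
    IsPGroup.of_card (n := 1) (by rw [Nat.card_zpowers, hu, pow_one])
  obtain ⟨x, -, hx⟩ := exists_fixed hp (A := A)
    ((zpowers_le.2 u.2).trans (zpowers_le_stabilizer hg)) hA.not_two_dvd_nat
  have := hodd (u : G) x (hx _ (mem_zpowers _))
  rw [hu] at this
  exact absurd this (by decide)

theorem pgroup_zpowers_of_order {p : ℕ} {x : G} (h : orderOf x = p) : IsPGroup p (zpowers x) :=
  IsPGroup.of_card (n := 1) (by rw [Nat.card_zpowers, h, pow_one])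

theorem exists_order_pow {p : ℕ} [Fact p.Prime] {X : Subgroup G} (hX : IsPGroup p X) {x : G}
    (hx : x ∈ X) (hx1 : x ≠ 1) : ∃ j : ℕ, orderOf (x ^ j) = p := by
  obtain ⟨k, hk⟩ := IsPGroup.iff_card.1 (isPGroup_zpowers hX hx)
  rw [Nat.card_zpowers] at hk
  rcases k with _ | k
  · rw [pow_zero, orderOf_eq_one_iff] at hk
    exact absurd hk hx1
  refine ⟨p ^ k, ?_⟩
  rw [orderOf_pow' x (pow_ne_zero k (Fact.out : p.Prime).ne_zero), hk,
    Nat.gcd_eq_right (pow_dvd_pow p (Nat.le_succ k)), pow_succ,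
    Nat.mul_div_cancel_left p (pow_pos (Fact.out : p.Prime).pos k)]

theorem exists_central_order {p : ℕ} [Fact p.Prime] {P K : Subgroup G} (hP : IsPGroup p P) (hKP : K ≤ P)
    (hK : K ≠ ⊥) (hKn : ∀ s ∈ P, ∀ k ∈ K, s * k * s⁻¹ ∈ K) :
    ∃ z ∈ K, orderOf z = p ∧ ∀ s ∈ P, s * z = z * s := by
  haveI : (K.subgroupOf P).Normal := ⟨fun k hk s => hKn s s.2 k hk⟩
  haveI : Nontrivial (K.subgroupOf P) := (Subgroup.nontrivial_iff_ne_bot _).2 fun h => by
    rw [subgroupOf_eq_bot, disjoint_iff, inf_of_le_left hKP] at h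
    exact hK h
  obtain ⟨k, hk, hkc, hk1⟩ := Cfsg.Agent.H24.exists_central_orderOf (p := p) hP (N := K.subgroupOf P)
    ((Subgroup.nontrivial_iff_ne_bot _).1 inferInstance)
  exact ⟨(k : G), hk, by rw [orderOf_coe, hk1], fun s hs => congrArg Subtype.val (mem_center_iff.1 hkc ⟨s, hs⟩)⟩

/-- The data of the odd branch: `k` is the number of fixed points of the fixers. -/
structure OddCtx (G Ω : Type*) [Group G] [MulAction G Ω] (k : ℕ) : Prop where
  hk : k = 3 ∨ k = 4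
  hodd : ∀ (g : G) (x : Ω), g • x = x → Odd (orderOf g)
  hle : ∀ X : Subgroup G, IsPGroup 3 X → ∀ x ∈ X, x ≠ 1 →
    (fixedBy Ω x).ncard ≤ k ∧ (fixedBy Ω x).ncard % 3 = k % 3

variable {k : ℕ}

theorem OddCtx.eq_one (h : OddCtx G Ω k) {X : Subgroup G} (hX : IsPGroup 3 X) {x : G} (hx : x ∈ X)
    (A : Set Ω) (hA : ∀ p ∈ A, x • p = p) (hlt : k < A.ncard) : x = 1 := by
  by_contra hx1
  have h1 := (h.hle X hX x hx hx1).1
  have h2 := Set.ncard_le_ncard (t := fixedBy Ω x) (fun p hp => hA p hp) (Set.toFinite _)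
  omega

theorem OddCtx.fix_eq (h : OddCtx G Ω k) {X : Subgroup G} (hX : IsPGroup 3 X) {x : G} (hx : x ∈ X)
    (hx1 : x ≠ 1) {A : Set Ω} (hA : ∀ p ∈ A, x • p = p) (hk : A.ncard = k) : fixedBy Ω x = A :=
  fixedBy_eq_of_subset hA (by rw [hk]; exact (h.hle X hX x hx hx1).1)

theorem OddCtx.invert_false (h : OddCtx G Ω k) {g r : G} (hr : orderOf r = 3)
    (hg : g * r * g⁻¹ = r⁻¹) {A : Set Ω} (hA : g • A = A) (hodd : Odd A.ncard) : False :=
  no_invert (odd_of_fix (hodd := h.hodd) hA hodd) (hr ▸ pow_orderOf_eq_one r)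
    (fun h => by rw [h, orderOf_one] at hr; omega) hg

theorem OddCtx.inter_ncard (h : OddCtx G Ω k) {z : G} (hz : orderOf z = 3) {F : Set Ω}
    (hF : F.ncard = k) (hzF : z • F = F) (hmove : ¬ F ⊆ fixedBy Ω z) :
    (F ∩ fixedBy Ω z).ncard + 3 = k := by
  haveI : Fact (Nat.Prime 3) := ⟨Nat.prime_three⟩
  have h1 := ncard_modEq (pgroup_zpowers_of_order hz) F (zpowers_le_stabilizer hzF)
  have h2 : {x ∈ F | ∀ g ∈ zpowers z, g • x = x} = F ∩ fixedBy Ω z := by
    ext x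
    exact ⟨fun hx => ⟨hx.1, hx.2 z (mem_zpowers z)⟩, fun hx => ⟨hx.1, fun g hg =>
      (zpowers_le.2 (show z ∈ stabilizer G x from hx.2)) hg⟩⟩
  rw [h2, hF, Nat.ModEq] at h1
  have h3 : (F ∩ fixedBy Ω z).ncard < k := by
    rw [← hF]
    exact Set.ncard_lt_ncard ⟨Set.inter_subset_left, fun h' => hmove fun x hx => (h' hx).2⟩
      (Set.toFinite _)
  have := h.hk
  omega

theorem three_pow_le {i k : ℕ} (h : 3 ^ i ∣ k.factorial) (hk : k ≤ 4) : 3 ^ i ≤ 3 := by
  have h' : 3 ^ i ∣ 24 := h.trans (Nat.factorial_dvd_factorial hk)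
  rcases i with _ | _ | i
  · norm_num
  · norm_num
  · have : 9 ∣ 24 := (dvd_trans ⟨3 ^ i, by ring⟩ h' : 9 ∣ 24)
    norm_num at this

theorem OddCtx.k_le (h : OddCtx G Ω k) : k ≤ 4 := by rcases h.hk with h | h <;> omega

/-- A 3-group stabilising two distinct fixed point sets has order at most nine. -/
theorem OddCtx.bound_stab (h : OddCtx G Ω k) {z r : G} (hz : orderOf z = 3) (hc : z * r = r * z)
    (hFz : (fixedBy Ω z).ncard = k) (hFr : (fixedBy Ω r).ncard = k)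
    (hne : fixedBy Ω z ≠ fixedBy Ω r) {X : Subgroup G} (hX : IsPGroup 3 X)
    (h1 : X ≤ stabilizer G (fixedBy Ω z)) (h2 : X ≤ stabilizer G (fixedBy Ω r)) :
    Nat.card X ≤ 9 := by
  haveI : Fact (Nat.Prime 3) := ⟨Nat.prime_three⟩
  have hmove : ¬ fixedBy Ω r ⊆ fixedBy Ω z := fun hs =>
    hne (Set.eq_of_subset_of_ncard_le hs (by omega) (Set.toFinite _)).symm
  have hI := h.inter_ncard hz hFr (smul_fixedBy_of_comm hc) hmove
  have hD : (fixedBy Ω r \ fixedBy Ω z).ncard = 3 := by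
    have := Set.ncard_inter_add_ncard_sdiff_eq_ncard (fixedBy Ω r) (fixedBy Ω z) (Set.toFinite _)
    omega
  obtain ⟨i, hi, hcard⟩ := exists_image_pow hX (fixedBy Ω z) h1
  rw [hFz] at hi
  rw [hcard]
  refine le_trans (Nat.mul_le_mul ?_ (three_pow_le hi h.k_le)) (show 3 * 3 ≤ 9 by norm_num)
  obtain ⟨b, hb⟩ := Set.nonempty_of_ncard_ne_zero (s := fixedBy Ω r \ fixedBy Ω z) (by omega)
  rw [← hD]
  refine card_le_of_free _ _ (fun x hx c hc => ?_) hb fun x hx hxb => ?_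
  · rw [← show x • (fixedBy Ω r \ fixedBy Ω z) = fixedBy Ω r \ fixedBy Ω z by
      rw [Set.smul_set_sdiff, show x • fixedBy Ω r = fixedBy Ω r from h2 hx.1,
        show x • fixedBy Ω z = fixedBy Ω z from h1 hx.1]]
    exact Set.smul_mem_smul_set hc
  · refine h.eq_one hX hx.1 (insert b (fixedBy Ω z)) ?_ ?_
    · rintro p (rfl | hp)
      · exact hxb
      · exact mem_fixing.1 hx.2 p hp
    · rw [Set.ncard_insert_of_notMem hb.2 (Set.toFinite _), hFz]
      exact Nat.lt_succ_self k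

theorem exists_sylow_in {p : ℕ} [Fact p.Prime] {C R : Subgroup G} (hR : IsPGroup p R) (hRC : R ≤ C) :
    ∃ Q : Subgroup G, Q ≤ C ∧ IsPGroup p Q ∧ R ≤ Q ∧
      ∀ Y : Subgroup G, IsPGroup p Y → Y ≤ C →
        (∃ c ∈ C, ∀ y ∈ Y, c * y * c⁻¹ ∈ Q) ∧ Nat.card Y ≤ Nat.card Q := by
  obtain ⟨Q, hQ⟩ := (hR.comap_subtype : IsPGroup p (R.subgroupOf C)).exists_le_sylow
  refine ⟨(Q : Subgroup C).map C.subtype, map_subtype_le _, Q.2.map _,
    fun x hx => ⟨⟨x, hRC hx⟩, hQ hx, rfl⟩, fun Y hY hYC => ?_⟩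
  obtain ⟨Q', hQ'⟩ := (hY.comap_subtype : IsPGroup p (Y.subgroupOf C)).exists_le_sylow
  obtain ⟨c, hc⟩ := MulAction.exists_smul_eq C Q' Q
  have key : ∀ y ∈ Y, (c : G) * y * (c : G)⁻¹ ∈ (Q : Subgroup C).map C.subtype := fun y hy => by
    have h1 : c * ⟨y, hYC hy⟩ * c⁻¹ ∈ ((c • Q' : Sylow p C) : Subgroup C) := by
      rw [Sylow.smul_def, Sylow.pointwise_smul_def]
      exact ⟨⟨y, hYC hy⟩, hQ' hy, rfl⟩
    rw [hc] at h1
    exact ⟨_, h1, rfl⟩
  refine ⟨⟨c, c.2, key⟩, ?_⟩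
  refine Nat.card_le_card_of_injective
    (fun y : Y => (⟨(c : G) * y * (c : G)⁻¹, key y y.2⟩ : (Q : Subgroup C).map C.subtype)) ?_
  intro a b hab
  exact Subtype.ext (mul_left_cancel (mul_right_cancel (congrArg Subtype.val hab)))

theorem exists_normalizing {p : ℕ} [Fact p.Prime] {X R : Subgroup G} (hX : IsPGroup p X) (hRX : R < X) :
    ∃ a ∈ X, a ∉ R ∧ ∀ v ∈ R, a * v * a⁻¹ ∈ R := by
  haveI := hX.isNilpotent
  obtain ⟨x, hx, hxR⟩ := SetLike.exists_of_lt (Group.normalizerCondition_of_isNilpotent (G := X)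
    (R.subgroupOf X) (lt_top_iff_ne_top.2 fun h => hRX.not_ge (subgroupOf_eq_top.1 h)))
  refine ⟨x, x.2, hxR, fun v hv => ?_⟩
  exact (Subgroup.mem_normalizer_iff.1 hx ⟨v, hRX.le hv⟩).1 hv

theorem nine_le_card {X : Subgroup G} (hX : IsPGroup 3 X) {r z : G} (hr : orderOf r = 3)
    (hrX : r ∈ X) (hzX : z ∈ X) (hz : z ∉ zpowers r) : 9 ≤ Nat.card X := by
  haveI : Fact (Nat.Prime 3) := ⟨Nat.prime_three⟩
  obtain ⟨n, hn⟩ := IsPGroup.iff_card.1 hX
  have h1 : 3 < Nat.card X := by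
    rw [← hr, ← Nat.card_zpowers r]
    refine lt_of_le_of_ne (card_le_of_le (zpowers_le.2 hrX)) fun e => hz ?_
    rw [eq_of_le_of_card_ge (zpowers_le.2 hrX) e.ge]
    exact hzX
  rw [hn] at h1 ⊢
  rcases n with _ | _ | n
  · omega
  · omega
  · calc 9 = 3 ^ 2 := by norm_num
      _ ≤ _ := Nat.pow_le_pow_right (by norm_num) (by omega)

theorem twenty_seven_le {X : Subgroup G} (hX : IsPGroup 3 X) (h : 9 < Nat.card X) : 27 ≤ Nat.card X := by
  haveI : Fact (Nat.Prime 3) := ⟨Nat.prime_three⟩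
  obtain ⟨n, hn⟩ := IsPGroup.iff_card.1 hX
  rw [hn] at h ⊢
  rcases n with _ | _ | _ | n
  · omega
  · omega
  · omega
  · calc 27 = 3 ^ 3 := by norm_num
      _ ≤ _ := Nat.pow_le_pow_right (by norm_num) (by omega)

/-- The fixer is not real. -/
theorem OddCtx.nonreal (h : OddCtx G Ω k) {r z : G} (hr : orderOf r = 3)
    (hFr : (fixedBy Ω r).ncard = k) (hz : orderOf z = 3) (hc : z * r = r * z)
    (hmove : ¬ fixedBy Ω r ⊆ fixedBy Ω z)
    (h9 : ∀ X : Subgroup G, IsPGroup 3 X → X ≤ centralizer {r} → Nat.card X ≤ 9) (g : G) :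
    g * r * g⁻¹ ≠ r⁻¹ := by
  haveI : Fact (Nat.Prime 3) := ⟨Nat.prime_three⟩
  intro hg
  rcases h.hk with hk | hk
  · refine h.invert_false hr hg (A := fixedBy Ω r) ?_ (by rw [hFr, hk]; decide)
    rw [← fixedBy_conj, hg, MulAction.fixedBy_inv]
  have hzr : z ∉ zpowers r := fun hm => by
    obtain ⟨i, rfl⟩ := (isOfFinOrder_of_finite r).mem_powers_iff_mem_zpowers.2 hm
    exact hmove (fix_subset_pow r i)
  obtain ⟨R, hR⟩ : ∃ R, R = zpowers r ⊔ zpowers z := ⟨_, rfl⟩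
  have hRp : IsPGroup 3 R := by
    refine hR ▸ IsPGroup.to_sup_of_normal_right' (pgroup_zpowers_of_order hr)
      (pgroup_zpowers_of_order hz) (zpowers_le.2 ?_)
    refine centralizer_le_normalizer _ ?_
    rw [zpowers_eq_closure z, centralizer_closure]
    exact mem_centralizer_singleton_iff.2 hc.symm
  have hRC : R ≤ centralizer {r} := hR ▸ sup_le (zpowers_le.2 (mem_centralizer_singleton_iff.2 rfl))
    (zpowers_le.2 (mem_centralizer_singleton_iff.2 hc))
  obtain ⟨Q, hQC, hQp, hRQ, hmax⟩ := exists_sylow_in hRp hRC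
  have hQR : R = Q := eq_of_le_of_card_ge hRQ ((h9 Q hQp hQC).trans (nine_le_card hRp hr
    (hR ▸ mem_sup_left (mem_zpowers r)) (hR ▸ mem_sup_right (mem_zpowers z)) hzr))
  obtain ⟨⟨c, hcC, hc'⟩, -⟩ := hmax (R.map (MulAut.conj g).toMonoidHom) (hRp.map _) (by
    rintro _ ⟨v, hv, rfl⟩
    refine mem_centralizer_singleton_iff.2 ?_
    show g * v * g⁻¹ * r = r * (g * v * g⁻¹)
    have hvr := mem_centralizer_singleton_iff.1 (hRC hv)
    have hr' : r = g * r⁻¹ * g⁻¹ := by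
      calc r = (g * r * g⁻¹)⁻¹ := by rw [hg, inv_inv]
        _ = _ := by group
    have hvr' : v * r⁻¹ = r⁻¹ * v := (Commute.inv_right (show Commute v r from hvr)).eq
    rw [hr']
    calc g * v * g⁻¹ * (g * r⁻¹ * g⁻¹) = g * (v * r⁻¹) * g⁻¹ := by group
      _ = g * (r⁻¹ * v) * g⁻¹ := by rw [hvr']
      _ = _ := by group)
  obtain ⟨A, hA⟩ : ∃ A, A = fixedBy Ω r ∩ fixedBy Ω z := ⟨_, rfl⟩
  have hA1 : A.ncard = 1 := by
    have := h.inter_ncard hz hFr (smul_fixedBy_of_comm hc) hmove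
    rw [← hA] at this
    omega
  have hAfix : ∀ p ∈ A, ∀ v ∈ R, v • p = p := by
    intro p hp v hv
    rw [hA] at hp
    rw [hR] at hv
    exact (sup_le (zpowers_le.2 (show r ∈ stabilizer G p from hp.1))
      (zpowers_le.2 (show z ∈ stabilizer G p from hp.2))) hv
  have hinv : (c * g) * r * (c * g)⁻¹ = r⁻¹ := by
    have hcr : c * r⁻¹ = r⁻¹ * c :=
      (Commute.inv_right (show Commute c r from mem_centralizer_singleton_iff.1 hcC)).eq
    calc (c * g) * r * (c * g)⁻¹ = c * (g * r * g⁻¹) * c⁻¹ := by group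
      _ = c * r⁻¹ * c⁻¹ := by rw [hg]
      _ = r⁻¹ := by rw [hcr, mul_inv_cancel_right]
  refine h.invert_false hr hinv (A := A) ?_ (hA1 ▸ odd_one)
  refine (Set.eq_of_subset_of_ncard_le ?_ (by rw [smul_ncard]) (Set.toFinite _)).symm
  intro p hp
  rw [Set.mem_smul_set_iff_inv_smul_mem]
  have key : ∀ v ∈ R, v • ((c * g)⁻¹ • p) = (c * g)⁻¹ • p := by
    intro v hv
    have h1 : c * (g * v * g⁻¹) * c⁻¹ ∈ R := hQR ▸ hc' _ ⟨v, hv, rfl⟩
    have h2 := hAfix p hp _ h1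
    rw [show c * (g * v * g⁻¹) * c⁻¹ = (c * g) * v * (c * g)⁻¹ by group, mul_smul, mul_smul,
      ← eq_inv_smul_iff] at h2
    exact h2
  rw [hA]
  exact ⟨key r (hR ▸ mem_sup_left (mem_zpowers r)), key z (hR ▸ mem_sup_right (mem_zpowers z))⟩

/-- The central case. -/
theorem OddCtx.nine_central (h : OddCtx G Ω k) (P : Sylow 3 G) (h27 : 27 ≤ Nat.card (P : Subgroup G))
    {r z : G} (hrP : r ∈ (P : Subgroup G)) (hzP : z ∈ (P : Subgroup G))
    (hzc : ∀ s ∈ (P : Subgroup G), s * z = z * s) (hr : orderOf r = 3) (hz : orderOf z = 3)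
    (hFr : (fixedBy Ω r).ncard = k) (hFz : (fixedBy Ω z).ncard = k)
    (hne : fixedBy Ω z ≠ fixedBy Ω r) (X : Subgroup G) (hX : IsPGroup 3 X)
    (hXr : X ≤ centralizer {r}) : Nat.card X ≤ 9 := by
  haveI : Fact (Nat.Prime 3) := ⟨Nat.prime_three⟩
  by_contra hX9
  have hrz : Commute r z := hzc r hrP
  have hzr : z ∉ zpowers r := fun hm => by
    obtain ⟨i, rfl⟩ := (isOfFinOrder_of_finite r).mem_powers_iff_mem_zpowers.2 hm
    exact hne (Set.eq_of_subset_of_ncard_le (fix_subset_pow r i) (by rw [hFr]; exact hFz.le)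
      (Set.toFinite _)).symm
  obtain ⟨R, hR⟩ : ∃ R, R = zpowers r ⊔ zpowers z := ⟨_, rfl⟩
  have hrR : r ∈ R := hR ▸ mem_sup_left (mem_zpowers r)
  have hzR : z ∈ R := hR ▸ mem_sup_right (mem_zpowers z)
  have hRP : R ≤ (P : Subgroup G) := hR ▸ sup_le (zpowers_le.2 hrP) (zpowers_le.2 hzP)
  have hRp : IsPGroup 3 R := P.2.to_le hRP
  have hRC : R ≤ centralizer {r} := hR ▸ sup_le (zpowers_le.2 (mem_centralizer_singleton_iff.2 rfl))
    (zpowers_le.2 (mem_centralizer_singleton_iff.2 hrz.eq.symm))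
  have hPF : (P : Subgroup G) ≤ stabilizer G (fixedBy Ω z) := fun s hs =>
    smul_fixedBy_of_comm (hzc s hs)
  have hCF : centralizer ({r} : Set G) ≤ stabilizer G (fixedBy Ω r) := fun s hs =>
    smul_fixedBy_of_comm (mem_centralizer_singleton_iff.1 hs)
  have hR9 : Nat.card R = 9 := le_antisymm
    (h.bound_stab hz hrz.eq.symm hFz hFr hne hRp (hRP.trans hPF) (hRC.trans hCF))
    (nine_le_card hRp hr hrR hzR hzr)
  -- no larger 3-group stabilises both sets
  have hbig : ∀ Y : Subgroup G, IsPGroup 3 Y → R ≤ Y → ∀ a ∈ Y, a ∉ R →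
      a • fixedBy Ω z = fixedBy Ω z → a • fixedBy Ω r = fixedBy Ω r → False := by
    intro Y hY hRY a ha haR h1 h2
    have hle : R ⊔ zpowers a ≤ Y := sup_le hRY (zpowers_le.2 ha)
    have h3 := h.bound_stab hz hrz.eq.symm hFz hFr hne (hY.to_le hle)
      (sup_le (hRP.trans hPF) (zpowers_le_stabilizer h1))
      (sup_le (hRC.trans hCF) (zpowers_le_stabilizer h2))
    exact haR ((eq_of_le_of_card_ge le_sup_left (h3.trans hR9.ge)).ge
      (mem_sup_right (mem_zpowers a)))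
  -- shears
  obtain ⟨Q, hQC, hQp, hRQ, hmax⟩ := exists_sylow_in hRp hRC
  have hRQ' : R < Q := lt_of_le_of_ne hRQ fun e => by
    have := (hmax X hX hXr).2
    rw [← e, hR9] at this
    exact hX9 this
  obtain ⟨b, hbQ, hbR, hbn⟩ := exists_normalizing hQp hRQ'
  have hRP' : R < (P : Subgroup G) := lt_of_le_of_ne hRP fun e => by
    rw [← e, hR9] at h27
    omega
  obtain ⟨a, haP, haR, han⟩ := exists_normalizing P.2 hRP'
  have hodd3 : ∀ {Y : Subgroup G}, IsPGroup 3 Y → ∀ y ∈ Y, Odd (orderOf y) := fun hY y hy => by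
    obtain ⟨n, hn⟩ := IsPGroup.iff_card.1 (isPGroup_zpowers hY hy)
    rw [Nat.card_zpowers] at hn
    rw [hn]
    exact Odd.pow (by decide)
  have hr3 : r ^ 3 = 1 := hr ▸ pow_orderOf_eq_one r
  have hz3 : z ^ 3 = 1 := hz ▸ pow_orderOf_eq_one z
  obtain ⟨c, hcr, hcz⟩ := shear hr3 hz3 hrz hzr (hodd3 hQp b hbQ)
    (mem_centralizer_singleton_iff.1 (hQC hbQ)) (hR ▸ hbn z hzR) fun e =>
    hbig Q hQp hRQ b hbQ hbR (smul_fixedBy_of_comm e) (hCF (hQC hbQ))
  obtain ⟨d, hdz, hdr⟩ := shear hz3 hr3 hrz.symm (not_mem_zpowers_symm hr hz hzr)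
    (hodd3 P.2 a haP) (hzc a haP) (by rw [sup_comm, ← hR]; exact han r hrR) fun e =>
    hbig P P.2 hRP a haP haR (hPF haP) (smul_fixedBy_of_comm e)
  -- inverting both
  obtain ⟨w, hw⟩ : ∃ w, w = d * c⁻¹ * d := ⟨_, rfl⟩
  have hcr' : c⁻¹ * r * c = r := by
    calc c⁻¹ * r * c = c⁻¹ * (c * r * c⁻¹) * c := by rw [hcr]
      _ = r := by group
  have hcz' : c⁻¹ * z * c = z * r⁻¹ := by
    calc c⁻¹ * z * c = c⁻¹ * ((c * z * c⁻¹) * (c * r * c⁻¹)⁻¹) * c := by
          rw [hcr, hcz, mul_inv_cancel_right]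
      _ = z * r⁻¹ := by group
  have hwr : w * r * w⁻¹ = z := by
    calc w * r * w⁻¹ = d * (c⁻¹ * (d * r * d⁻¹) * c) * d⁻¹ := by rw [hw]; group
      _ = d * ((c⁻¹ * r * c) * (c⁻¹ * z * c)) * d⁻¹ := by rw [hdr]; group
      _ = d * (r * (z * r⁻¹)) * d⁻¹ := by rw [hcr', hcz']
      _ = d * z * d⁻¹ := by rw [show r * (z * r⁻¹) = z by rw [← mul_assoc, hrz.eq, mul_inv_cancel_right]]
      _ = z := hdz
  have hwz : w * z * w⁻¹ = r⁻¹ := by
    calc w * z * w⁻¹ = d * (c⁻¹ * (d * z * d⁻¹) * c) * d⁻¹ := by rw [hw]; group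
      _ = d * (z * r⁻¹) * d⁻¹ := by rw [hdz, hcz']
      _ = (d * z * d⁻¹) * (d * r * d⁻¹)⁻¹ := by group
      _ = r⁻¹ := by rw [hdz, hdr]; group
  have hgr : (w * w) * r * (w * w)⁻¹ = r⁻¹ := by
    calc (w * w) * r * (w * w)⁻¹ = w * (w * r * w⁻¹) * w⁻¹ := by group
      _ = r⁻¹ := by rw [hwr, hwz]
  have hgz : (w * w) * z * (w * w)⁻¹ = z⁻¹ := by
    calc (w * w) * z * (w * w)⁻¹ = w * (w * z * w⁻¹) * w⁻¹ := by group
      _ = (w * r * w⁻¹)⁻¹ := by rw [hwz]; group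
      _ = z⁻¹ := by rw [hwr]
  have hgFr : (w * w) • fixedBy Ω r = fixedBy Ω r := by
    rw [← fixedBy_conj, hgr, MulAction.fixedBy_inv]
  rcases h.hk with hk | hk
  · exact h.invert_false hr hgr hgFr (by rw [hFr, hk]; decide)
  · refine h.invert_false hr hgr (A := fixedBy Ω r ∩ fixedBy Ω z) ?_ ?_
    · rw [Set.smul_set_inter, hgFr, ← fixedBy_conj, hgz, MulAction.fixedBy_inv]
    · have := h.inter_ncard hz hFr (smul_fixedBy_of_comm hrz.eq.symm) fun hs =>
        hne (Set.eq_of_subset_of_ncard_le hs (by rw [hFz]; exact hFr.ge) (Set.toFinite _)).symm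
      rw [show (fixedBy Ω r ∩ fixedBy Ω z).ncard = 1 by omega]
      exact odd_one

/-- The non-central case. -/
theorem OddCtx.nine_noncentral (h : OddCtx G Ω k) (P : Sylow 3 G)
    (hB : ∀ z ∈ (P : Subgroup G), orderOf z = 3 → (∀ s ∈ (P : Subgroup G), s * z = z * s) →
      (fixedBy Ω z).ncard ≠ k)
    {r : G} (hrP : r ∈ (P : Subgroup G)) (hr : orderOf r = 3) (hFr : (fixedBy Ω r).ncard = k) :
    Nat.card ((P : Subgroup G) ⊓ stabilizer G (fixedBy Ω r) : Subgroup G) ≤ 9 ∧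
      Nat.card ((P : Subgroup G) ⊓ stabilizer G (fixedBy Ω r) : Subgroup G) < Nat.card (P : Subgroup G) := by
  haveI : Fact (Nat.Prime 3) := ⟨Nat.prime_three⟩
  obtain ⟨F, hF⟩ : ∃ F, F = fixedBy Ω r := ⟨_, rfl⟩
  rw [← hF] at hFr ⊢
  obtain ⟨N, hN⟩ : ∃ N, N = (P : Subgroup G) ⊓ stabilizer G F := ⟨_, rfl⟩
  rw [← hN]
  have hrK : r ∈ (P : Subgroup G) ⊓ fixingSubgroup G F :=
    ⟨hrP, mem_fixing.2 fun p hp => by rw [hF] at hp; exact hp⟩
  have hlt : N < (P : Subgroup G) := by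
    refine lt_of_le_of_ne (hN ▸ inf_le_left) fun e => ?_
    have hPF : (P : Subgroup G) ≤ stabilizer G F := by rw [← e, hN]; exact inf_le_right
    obtain ⟨z, hz, hzo, hzc⟩ := exists_central_order (p := 3) P.2
      (K := (P : Subgroup G) ⊓ fixingSubgroup G F) inf_le_left
      (fun hb => by rw [hb, mem_bot] at hrK; rw [hrK, orderOf_one] at hr; omega)
      fun s hs v hv => ⟨(P : Subgroup G).mul_mem ((P : Subgroup G).mul_mem hs hv.1) ((P : Subgroup G).inv_mem hs), mem_fixing.2 fun p hp => by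
        rw [mul_smul, mul_smul, mem_fixing.1 hv.2 _ (by
          rw [← Set.mem_smul_set_iff_inv_smul_mem, show s • F = F from hPF hs]; exact hp),
          smul_inv_smul]⟩
    refine hB z hz.1 hzo hzc ?_
    rw [h.fix_eq P.2 hz.1 (fun hh => by rw [hh, orderOf_one] at hzo; omega) (mem_fixing.1 hz.2) hFr, hFr]
  refine ⟨?_, lt_of_le_of_ne (card_le_of_le hlt.le) fun e =>
    hlt.ne (eq_of_le_of_card_ge hlt.le e.ge)⟩
  obtain ⟨s, hsP, hsN, hsn⟩ := exists_normalizing P.2 hlt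
  have hNp : IsPGroup 3 N := P.2.to_le hlt.le
  have hNF : N ≤ stabilizer G F := hN ▸ inf_le_right
  obtain ⟨i, hi, hcard⟩ := exists_image_pow hNp F hNF
  rw [hFr] at hi
  rw [hcard]
  refine le_trans (Nat.mul_le_mul ?_ (three_pow_le hi h.k_le)) (show 3 * 3 ≤ 9 by norm_num)
  obtain ⟨K', hK'⟩ : ∃ K', K' = (N ⊓ fixingSubgroup G F).map (MulAut.conj s).toMonoidHom := ⟨_, rfl⟩
  have hK'N : K' ≤ N := by
    rw [hK']
    rintro _ ⟨v, hv, rfl⟩
    exact hsn v hv.1
  have hKc : Nat.card K' = Nat.card (N ⊓ fixingSubgroup G F : Subgroup G) := by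
    rw [hK', card_map_of_injective (MulAut.conj s).injective]
  obtain ⟨j, hj, hcard'⟩ := exists_image_pow (hNp.to_le hK'N) F (hK'N.trans hNF)
  rw [hFr] at hj
  have hbot : K' ⊓ fixingSubgroup G F = ⊥ := by
    rw [eq_bot_iff]
    rintro x ⟨hx, hxF⟩
    have hxN := hK'N hx
    rw [hK'] at hx
    obtain ⟨v, hv, rfl⟩ := hx
    rw [mem_bot]
    refine h.eq_one hNp hxN (F ∪ s • F) ?_ ?_
    · rintro p (hp | hp)
      · exact mem_fixing.1 hxF p hp
      · rw [Set.mem_smul_set_iff_inv_smul_mem] at hp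
        show (s * v * s⁻¹) • p = p
        rw [mul_smul, mul_smul, mem_fixing.1 hv.2 _ hp, smul_inv_smul]
    · rw [← hFr]
      refine Set.ncard_lt_ncard ⟨Set.subset_union_left, fun hs => hsN (hN ▸ ⟨hsP, ?_⟩)⟩
        (Set.toFinite _)
      exact Set.eq_of_subset_of_ncard_le (fun p hp => hs (Or.inr hp)) (by rw [smul_ncard])
        (Set.toFinite _)
  rw [hbot, card_bot, one_mul] at hcard'
  rw [← hKc, hcard']
  exact three_pow_le hj h.k_le

/-- All fixers of a Sylow 3-subgroup with one fixed point set. -/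
theorem OddCtx.share (h : OddCtx G Ω k) [IsSimpleGroup G] (hna : ¬ IsMulCommutative G) (P : Sylow 3 G)
    {F : Set Ω} (hFk : F.ncard = k) (hPF : (P : Subgroup G) ≤ stabilizer G F) {r0 : G}
    (hr0P : r0 ∈ (P : Subgroup G)) (hr0 : orderOf r0 = 3) (hr0F : fixedBy Ω r0 = F)
    (hall : ∀ x ∈ (P : Subgroup G), orderOf x = 3 → (fixedBy Ω x).ncard = k → fixedBy Ω x = F) :
    (P : Subgroup G) ≤ fixingSubgroup G F := by
  classical
  haveI : Fact (Nat.Prime 3) := ⟨Nat.prime_three⟩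
  by_contra hnot
  let f : (P : Subgroup G) →* Equiv.Perm F := (actOn F).comp (Subgroup.inclusion hPF)
  have hf1 : ∀ x : (P : Subgroup G), f x = 1 ↔ (x : G) ∈ fixingSubgroup G F := fun x => actOn_eq_one
  have hR3 : Nat.card f.range = 3 := by
    obtain ⟨i, hi, hcard⟩ := exists_image_pow P.2 F hPF
    rw [hFk] at hi
    have he := card_eq_mul_image (P : Subgroup G) F hPF
    rw [hcard] at he
    have he' : 3 ^ i = Nat.card f.range := Nat.eq_of_mul_eq_mul_left Nat.card_pos he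
    have := three_pow_le hi h.k_le
    rw [← he']
    rcases i with _ | _ | i
    · exfalso
      refine hnot ?_
      rw [pow_zero, mul_one] at hcard
      exact inf_eq_left.1 (eq_of_le_of_card_ge inf_le_left hcard.le)
    · rfl
    · rw [pow_succ, pow_succ] at this
      have := Nat.one_le_pow i 3 (by norm_num)
      omega
  haveI := isCyclic_of_prime_card (p := 3) hR3
  letI : CommGroup f.range := IsCyclic.commGroup
  obtain ⟨φ, hφ⟩ : ∃ φ : (P : Subgroup G) →* f.range, φ = f.rangeRestrict := ⟨_, rfl⟩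
  obtain ⟨z, hz, hzo, hzc⟩ := exists_central_order (p := 3) P.2
    (K := (P : Subgroup G) ⊓ fixingSubgroup G F) inf_le_left
    (fun hb => by
      have : r0 ∈ (P : Subgroup G) ⊓ fixingSubgroup G F :=
        ⟨hr0P, mem_fixing.2 fun p hp => by rw [← hr0F] at hp; exact hp⟩
      rw [hb, mem_bot] at this; rw [this, orderOf_one] at hr0; omega)
    fun s hs v hv => ⟨(P : Subgroup G).mul_mem ((P : Subgroup G).mul_mem hs hv.1) ((P : Subgroup G).inv_mem hs), mem_fixing.2 fun p hp => by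
      rw [mul_smul, mul_smul, mem_fixing.1 hv.2 _ (by
        rw [← Set.mem_smul_set_iff_inv_smul_mem, show s • F = F from hPF hs]; exact hp),
        smul_inv_smul]⟩
  have hzF : fixedBy Ω z = F :=
    h.fix_eq P.2 hz.1 (fun hh => by rw [hh, orderOf_one] at hzo; omega) (mem_fixing.1 hz.2) hFk
  have hker : ∀ (x y : (P : Subgroup G)) (g : G), g⁻¹ * (x : G) * g = y →
      (x : G) ∈ fixingSubgroup G F → (y : G) ∈ fixingSubgroup G F := by
    intro x y g hxy hx
    by_cases hy1 : (y : G) = 1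
    · rw [hy1]; exact one_mem _
    have hyF : ∀ p ∈ g⁻¹ • F, (y : G) • p = p := by
      intro p hp
      rw [Set.mem_smul_set_iff_inv_smul_mem, inv_inv] at hp
      rw [← hxy, mul_smul, mul_smul, mem_fixing.1 hx _ hp, inv_smul_smul]
    have hcardF : (g⁻¹ • F).ncard = k := by rw [smul_ncard, hFk]
    obtain ⟨j, hj⟩ := exists_order_pow P.2 y.2 hy1
    have e1 := h.fix_eq P.2 y.2 hy1 hyF hcardF
    have e2 := h.fix_eq P.2 (pow_mem y.2 j) (fun hh => by rw [hh, orderOf_one] at hj; omega)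
      (A := g⁻¹ • F) (fun p hp => fix_subset_pow (y : G) j (by rw [mem_fixedBy]; exact hyF p hp)) hcardF
    have e3 := hall _ (pow_mem y.2 j) hj (by rw [e2, hcardF])
    rw [e2] at e3
    rw [e3] at e1
    exact mem_fixing.2 fun p hp => by rw [← e1] at hp; exact hp
  have hstab : ∀ (x y : (P : Subgroup G)) (g : G), g⁻¹ * (x : G) * g = y → φ y = φ x := by
    intro x y g hxy
    refine Subtype.ext ?_
    rw [hφ]
    show f y = f x
    have hxy' : (g⁻¹)⁻¹ * (y : G) * g⁻¹ = x := by rw [← hxy]; group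
    by_cases hx : f x = 1
    · rw [hx, hf1]
      exact hker x y g hxy ((hf1 x).1 hx)
    by_cases hy : f y = 1
    · exact absurd ((hf1 x).2 (hker y x g⁻¹ hxy' ((hf1 y).1 hy))) hx
    obtain ⟨n, hn⟩ := mem_powers_of_prime_card (p := 3) hR3
      (g := (⟨f x, x, rfl⟩ : f.range)) (g' := ⟨f y, y, rfl⟩) fun he => hx (congrArg Subtype.val he)
    have hn' : f x ^ n = f y := congrArg Subtype.val hn
    have hfx3 : f x ^ 3 = 1 := by
      have := pow_card_eq_one' (G := f.range) (x := ⟨f x, x, rfl⟩)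
      rw [hR3] at this
      exact congrArg Subtype.val this
    rw [pow_eq_pow_mod n hfx3] at hn'
    have hcases : n % 3 = 0 ∨ n % 3 = 1 ∨ n % 3 = 2 := by omega
    rcases hcases with e | e | e <;> rw [e] at hn'
    · exact absurd hn'.symm (by rwa [pow_zero])
    · rw [pow_one] at hn'; exact hn'.symm
    exfalso
    have hinv : f y = (f x)⁻¹ := by
      rw [← hn']
      exact eq_inv_of_mul_eq_one_left (by rw [← pow_succ, hfx3])
    -- an element of the stabilizer of `F` taking `x` to `y`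
    obtain ⟨Q, hQC, hQp, hzQ, hmax⟩ := exists_sylow_in (C := centralizer ({(y : G)} : Set G))
      (pgroup_zpowers_of_order hzo) (zpowers_le.2 (mem_centralizer_singleton_iff.2 (hzc y y.2).symm))
    obtain ⟨w, hw⟩ : ∃ w, w = g⁻¹ * z * g := ⟨_, rfl⟩
    have hwo : orderOf w = 3 := by
      rw [hw, ← hzo, show g⁻¹ * z * g = (MulAut.conj g⁻¹).toMonoidHom z by simp]
      exact orderOf_injective _ (MulAut.conj g⁻¹).injective z
    obtain ⟨⟨c, hcC, hcw⟩, -⟩ := hmax (zpowers w) (pgroup_zpowers_of_order hwo)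
      (zpowers_le.2 (mem_centralizer_singleton_iff.2 (by
        rw [hw, ← hxy]
        calc g⁻¹ * z * g * (g⁻¹ * (x : G) * g) = g⁻¹ * (z * x) * g := by group
          _ = g⁻¹ * ((x : G) * z) * g := by rw [hzc x x.2]
          _ = _ := by group)))
    obtain ⟨Q', hQ'⟩ := hQp.exists_le_sylow
    obtain ⟨t, ht⟩ := MulAction.exists_smul_eq G Q' P
    have htQ : ∀ q ∈ Q, t * q * t⁻¹ ∈ (P : Subgroup G) := fun q hq => by
      rw [← ht, Sylow.smul_def, Sylow.pointwise_smul_def]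
      exact ⟨q, hQ' hq, rfl⟩
    have htF : ∀ u : G, (∀ p ∈ F, p ∈ fixedBy Ω z) → t * (u * z * u⁻¹) * t⁻¹ ∈ (P : Subgroup G) →
        (t * u) • F = F := fun u _ hu => by
      rw [show t * (u * z * u⁻¹) * t⁻¹ = (t * u) * z * (t * u)⁻¹ by group] at hu
      rw [← hzF, ← fixedBy_conj]
      rw [hzF]
      refine hall _ hu ?_ (by rw [fixedBy_conj, smul_ncard, hzF, hFk])
      rw [← hzo]
      exact orderOf_injective (MulAut.conj (t * u)).toMonoidHom (MulAut.conj (t * u)).injective z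
    have hsub : ∀ p ∈ F, p ∈ fixedBy Ω z := fun p hp => hzF.symm ▸ hp
    have h1 := htF 1 hsub (by rw [one_mul, inv_one, mul_one]; exact htQ z (hzQ (mem_zpowers z)))
    have h2 := htF (c * g⁻¹) hsub (by
      have := htQ _ (hcw w (mem_zpowers w))
      rwa [hw, show c * (g⁻¹ * z * g) * c⁻¹ = c * g⁻¹ * z * (c * g⁻¹)⁻¹ by group] at this)
    obtain ⟨m, hm⟩ : ∃ m, m = c * g⁻¹ := ⟨_, rfl⟩
    rw [← hm, mul_smul] at h2
    rw [mul_one] at h1
    have hmF : m • F = F := by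
      refine (MulAction.injective t) ?_
      show t • (m • F) = t • F
      rw [h2, h1]
    have hmx : m * (x : G) * m⁻¹ = y := by
      rw [hm, show c * g⁻¹ * (x : G) * (c * g⁻¹)⁻¹ = c * (g⁻¹ * x * g) * c⁻¹ by group, hxy,
        mem_centralizer_singleton_iff.1 hcC, mul_inv_cancel_right]
    have hmodd : Odd (orderOf m) := by
      rcases h.hk with hk | hk
      · exact odd_of_fix (hodd := h.hodd) hmF (by rw [hFk, hk]; decide)
      obtain ⟨A, hA⟩ : ∃ A, A = F ∩ fixedBy Ω (x : G) := ⟨_, rfl⟩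
      have hA1 : A.ncard = 1 := by
        obtain ⟨j, hj⟩ : ∃ j, (x : G) • F = F ∧ j = 0 := ⟨0, hPF x.2, rfl⟩
        have h3 := ncard_modEq (isPGroup_zpowers P.2 x.2) F (zpowers_le_stabilizer hj.1)
        have h4 : {p ∈ F | ∀ v ∈ zpowers (x : G), v • p = p} = A := by
          rw [hA]
          ext p
          exact ⟨fun hp => ⟨hp.1, hp.2 _ (mem_zpowers _)⟩, fun hp => ⟨hp.1, fun v hv =>
            (zpowers_le.2 (show (x : G) ∈ stabilizer G p from hp.2)) hv⟩⟩
        rw [h4, hFk, hk, Nat.ModEq] at h3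
        have h5 : A.ncard < 4 := by
          rw [← hk, ← hFk, hA]
          exact Set.ncard_lt_ncard ⟨Set.inter_subset_left, fun hs =>
            hx ((hf1 x).2 (mem_fixing.2 fun p hp => (hs hp).2))⟩ (Set.toFinite _)
        omega
      refine odd_of_fix (hodd := h.hodd) (A := A) ?_ (hA1 ▸ odd_one)
      have hxyF : (x : G) * y ∈ fixingSubgroup G F := by
        refine (hf1 (x * y)).1 ?_
        rw [map_mul, hinv, mul_inv_cancel]
      rw [hA, Set.smul_set_inter, hmF, ← fixedBy_conj, hmx]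
      ext p
      simp only [Set.mem_inter_iff, mem_fixedBy]
      refine and_congr_right fun hp => ?_
      have h6 := mem_fixing.1 hxyF p hp
      rw [mul_smul] at h6
      refine ⟨fun hh => ?_, fun hh => ?_⟩
      · rwa [hh] at h6
      · exact (MulAction.injective (x : G)) (h6.trans hh.symm)
    obtain ⟨M, hM⟩ : ∃ M : stabilizer G F, M = ⟨m, hmF⟩ := ⟨_, rfl⟩
    refine no_invert (g := actOn F M) (r := f x) ?_ hfx3 hx ?_
    · refine hmodd.of_dvd_nat ?_
      rw [show m = (M : G) by rw [hM], orderOf_coe]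
      exact orderOf_map_dvd _ M
    · rw [← hinv]
      show actOn F M * actOn F ⟨x, hPF x.2⟩ * (actOn F M)⁻¹ = actOn F ⟨y, hPF y.2⟩
      have e : (⟨(y : G), hPF y.2⟩ : stabilizer G F) = M * ⟨x, hPF x.2⟩ * M⁻¹ :=
        Subtype.ext (by rw [hM]; exact hmx.symm)
      have := congrArg (actOn F) e
      rw [map_mul, map_mul, map_inv] at this
      exact this.symm
  refine hnot fun x hx => ?_
  rw [← show ((⟨x, hx⟩ : (P : Subgroup G)) : G) = x from rfl, ← hf1]
  have h1 := Cfsg.Agent.H31.transfer_eq_pow_index φ hstab ⟨x, hx⟩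
  rw [hom_comm_trivial hna] at h1
  have h2 : φ ⟨x, hx⟩ ^ 3 = 1 := by
    have := pow_card_eq_one' (G := f.range) (x := φ ⟨x, hx⟩)
    rwa [hR3] at this
  have h3 := pow_gcd_eq_one.2 ⟨h1.symm, h2⟩
  rw [Nat.Coprime.gcd_eq_one ((Nat.prime_three.coprime_iff_not_dvd.2 P.not_dvd_index).symm), pow_one,
    hφ] at h3
  exact congrArg Subtype.val h3

/-- Point stabilisers of odd order divisible by three. -/
theorem odd_branch [IsSimpleGroup G] (hna : ¬ IsMulCommutative G) [FaithfulSMul G Ω]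
    (htr : IsPretransitive G Ω) (h4 : Small4 G Ω)
    (hodd : ∀ (g : G) (x : Ω), g • x = x → Odd (orderOf g)) (a : Ω)
    (h3 : 3 ∣ Nat.card (stabilizer G a)) (P : Sylow 3 G) :
    (∃ H : Subgroup G, H ≠ ⊤ ∧ 3 ∣ Nat.card H ∧
      ∀ g : G, g ∉ H → ¬ 3 ∣ Nat.card ↥(H ⊓ H.map (MulAut.conj g).toMonoidHom)) ∨
    (Nat.card (P : Subgroup G) = 9 ∧ ∀ x ∈ (P : Subgroup G), x ^ 3 = 1) ∨
    (Nat.card (P : Subgroup G) = 27 ∧ Cfsg.IsExtraspecial 3 (P : Subgroup G) ∧
      ∀ x ∈ (P : Subgroup G), x ^ 3 = 1) := by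
  haveI : Fact (Nat.Prime 3) := ⟨Nat.prime_three⟩
  obtain ⟨r1, hr1⟩ := exists_prime_orderOf_dvd_card' (G := stabilizer G a) 3 h3
  rw [← orderOf_coe] at hr1
  have hdvd : 3 ∣ Nat.card G := hr1 ▸ orderOf_dvd_natCard _
  have hmod : ∀ X : Subgroup G, IsPGroup 3 X → ∀ x ∈ X,
      (fixedBy Ω x).ncard % 3 = Nat.card Ω % 3 := fun X hX x hx =>
    (card_fixed_modEq (isPGroup_zpowers hX hx)).symm
  have hne1 : ∀ x : G, orderOf x = 3 → x ≠ 1 := fun x hx h => by rw [h, orderOf_one] at hx; omega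
  -- one fixed set for all of `P`
  have huni : ∀ F : Set Ω, F.Nonempty → F.ncard ≤ 4 → (P : Subgroup G) ≤ stabilizer G F →
      (∀ x ∈ (P : Subgroup G), orderOf x = 3 → fixedBy Ω x = F) →
      ∃ H : Subgroup G, H ≠ ⊤ ∧ 3 ∣ Nat.card H ∧
        ∀ g : G, g ∉ H → ¬ 3 ∣ Nat.card ↥(H ⊓ H.map (MulAut.conj g).toMonoidHom) :=
    fun F hF hF4 hPF hall => ⟨_, uniform hna htr P F hF hF4 hPF hall hdvd⟩
  have hfixedset : ∀ c : ℕ, (∀ x ∈ (P : Subgroup G), orderOf x = 3 → (fixedBy Ω x).ncard ≤ c) →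
      Nat.card Ω % 3 = c → c ≠ 0 → c ≤ 4 →
      ∃ H : Subgroup G, H ≠ ⊤ ∧ 3 ∣ Nat.card H ∧
        ∀ g : G, g ∉ H → ¬ 3 ∣ Nat.card ↥(H ⊓ H.map (MulAut.conj g).toMonoidHom) := by
    intro c hc hn hc0 hc4
    obtain ⟨F, hF⟩ : ∃ F : Set Ω, F = {x ∈ (Set.univ : Set Ω) | ∀ g ∈ (P : Subgroup G), g • x = x} :=
      ⟨_, rfl⟩
    have h := ncard_modEq P.2 (Set.univ : Set Ω) (fun x _ => by
      rw [mem_stabilizer_iff, Set.smul_set_univ])
    rw [Set.ncard_univ, ← hF, Nat.ModEq, hn] at h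
    obtain ⟨x0, hx0⟩ := exists_prime_orderOf_dvd_card' (G := (P : Subgroup G)) 3
      (P.dvd_card_of_dvd_card hdvd)
    rw [← orderOf_coe] at hx0
    have hsub : ∀ x ∈ (P : Subgroup G), F ⊆ fixedBy Ω x := fun x hx p hp => by
      rw [hF] at hp; exact hp.2 x hx
    have hle := Set.ncard_le_ncard (hsub _ x0.2) (Set.toFinite _)
    have := hc _ x0.2 hx0
    refine huni F (Set.nonempty_of_ncard_ne_zero (by omega)) (by omega) (fun s hs => ?_) fun x hx hxo => ?_
    · refine fixing_le_stabilizer F (mem_fixing.2 fun p hp => hsub s hs hp)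
    · refine fixedBy_eq_of_subset (fun p hp => hsub x hx hp) ?_
      have h1 := hc x hx hxo
      have h2 := hmod _ P.2 x hx
      omega
  have hfr : 1 ≤ (fixedBy Ω (r1 : G)).ncard :=
    (Set.ncard_pos (Set.toFinite _)).2 ⟨a, r1.2⟩
  have hr1mod := hmod _ (pgroup_zpowers_of_order hr1) _ (mem_zpowers _)
  have hb4 : ∀ x : G, orderOf x = 3 → (fixedBy Ω x).ncard ≤ 4 := fun x hx => h4 x (hne1 x hx)
  by_cases hn2 : Nat.card Ω % 3 = 2
  · refine Or.inl (hfixedset 2 (fun x hx hxo => ?_) hn2 (by norm_num) (by norm_num))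
    have := hmod _ P.2 x hx
    have := hb4 x hxo
    omega
  by_cases hf1 : Nat.card Ω % 3 = 1 ∧ ∀ x ∈ (P : Subgroup G), orderOf x = 3 → (fixedBy Ω x).ncard ≤ 1
  · exact Or.inl (hfixedset 1 hf1.2 hf1.1 (by norm_num) (by norm_num))
  obtain ⟨k, hk⟩ : ∃ k, k = 3 + Nat.card Ω % 3 := ⟨_, rfl⟩
  have hctx : OddCtx G Ω k := ⟨by omega, hodd, fun X hX x hx hx1 => by
    have := hmod X hX x hx
    have := h4 x hx1
    omega⟩
  obtain ⟨r0, hr0P, hr0, hr0k⟩ : ∃ r ∈ (P : Subgroup G), orderOf r = 3 ∧ (fixedBy Ω r).ncard = k := by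
    by_cases h0 : Nat.card Ω % 3 = 0
    · obtain ⟨m, -, hm⟩ := sylow_conj_mem P le_top (pgroup_zpowers_of_order hr1) le_top
      refine ⟨_, hm _ (mem_zpowers _),
        hr1 ▸ orderOf_injective (MulAut.conj m).toMonoidHom (MulAut.conj m).injective _, ?_⟩
      rw [fixedBy_conj, smul_ncard]
      have := hb4 _ hr1
      omega
    · push Not at hf1
      have hn1 : Nat.card Ω % 3 = 1 := by clear * - hn2 h0; omega
      obtain ⟨x, hx, hxo, hx1⟩ := hf1 hn1
      refine ⟨x, hx, hxo, ?_⟩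
      have := hmod _ P.2 x hx
      have := hb4 x hxo
      omega
  by_cases hshare : ∀ x ∈ (P : Subgroup G), orderOf x = 3 → (fixedBy Ω x).ncard = k →
      fixedBy Ω x = fixedBy Ω r0
  · left
    have hPF : (P : Subgroup G) ≤ stabilizer G (fixedBy Ω r0) := fun s hs => by
      rw [mem_stabilizer_iff, ← fixedBy_conj]
      refine hshare _ (mul_mem (mul_mem hs hr0P) (inv_mem hs)) ?_ (by rw [fixedBy_conj, smul_ncard, hr0k])
      exact hr0 ▸ orderOf_injective (MulAut.conj s).toMonoidHom (MulAut.conj s).injective r0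
    have hfx := hctx.share hna P hr0k hPF hr0P hr0 rfl hshare
    refine huni _ (Set.nonempty_of_ncard_ne_zero (by omega)) (by omega) hPF fun x hx hxo => ?_
    exact hctx.fix_eq P.2 hx (hne1 x hxo) (mem_fixing.1 (hfx hx)) hr0k
  by_cases hA : ∃ z ∈ (P : Subgroup G), orderOf z = 3 ∧ (∀ s ∈ (P : Subgroup G), s * z = z * s) ∧
      (fixedBy Ω z).ncard = k
  · obtain ⟨z, hzP, hzo, hzc, hzk⟩ := hA
    obtain ⟨r, hrP, hro, hrk, hrne⟩ : ∃ r ∈ (P : Subgroup G), orderOf r = 3 ∧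
        (fixedBy Ω r).ncard = k ∧ fixedBy Ω z ≠ fixedBy Ω r := by
      by_contra hcon
      push Not at hcon
      exact hshare fun x hx hxo hxk => (hcon x hx hxo hxk).symm.trans (hcon r0 hr0P hr0 hr0k)
    have hzr : z ∉ zpowers r := fun hm => by
      obtain ⟨i, rfl⟩ := (isOfFinOrder_of_finite r).mem_powers_iff_mem_zpowers.2 hm
      exact hrne (Set.eq_of_subset_of_ncard_le (fix_subset_pow r i) (by rw [hrk]; exact hzk.le)
        (Set.toFinite _)).symm
    have h9 := nine_le_card P.2 hro hrP hzP hzr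
    by_cases h9' : Nat.card (P : Subgroup G) = 9
    · refine Or.inr (Or.inl ⟨h9', ?_⟩)
      have hPRz : (P : Subgroup G) = zpowers r ⊔ zpowers z := by
        refine (eq_of_le_of_card_ge (sup_le (zpowers_le.2 hrP) (zpowers_le.2 hzP)) ?_).symm
        rw [h9']
        exact nine_le_card (P.2.to_le (sup_le (zpowers_le.2 hrP) (zpowers_le.2 hzP))) hro
          (mem_sup_left (mem_zpowers r)) (mem_sup_right (mem_zpowers z)) hzr
      intro x hx
      rw [hPRz] at hx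
      have hr3 : r ^ 3 = 1 := hro ▸ pow_orderOf_eq_one r
      have hz3 : z ^ 3 = 1 := hzo ▸ pow_orderOf_eq_one z
      obtain ⟨i, j, -, -, rfl⟩ := mem_sup_two hr3 hz3 (hzc r hrP) hx
      rw [((show Commute r z from hzc r hrP).symm.pow_pow i j).mul_pow, ← pow_mul, ← pow_mul,
        mul_comm i, mul_comm j, pow_mul, pow_mul, hz3, hr3, one_pow, one_pow, one_mul]
    · right; right
      have h27 := twenty_seven_le P.2 (by omega)
      have hmove : ¬ fixedBy Ω r ⊆ fixedBy Ω z := fun hs =>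
        hrne (Set.eq_of_subset_of_ncard_le hs (by rw [hzk]; exact hrk.ge) (Set.toFinite _)).symm
      have hb := hctx.nine_central P h27 hrP hzP hzc hro hzo hrk hzk hrne
      exact nonreal_nine hna P h27 r hro
        (fun g => hctx.nonreal hro hrk hzo (hzc r hrP).symm hmove hb g) hb
  push Not at hA
  right; right
  obtain ⟨z0, hz0, hz0o, hz0c⟩ := exists_central_order (p := 3) P.2 le_rfl
    (fun hb => by rw [hb, mem_bot] at hr0P; exact hne1 r0 hr0 hr0P)
    fun s hs v hv => mul_mem (mul_mem hs hv) (inv_mem hs)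
  have hmove : ¬ fixedBy Ω r0 ⊆ fixedBy Ω z0 := fun hs => hA z0 hz0 hz0o hz0c (by
    rw [hctx.fix_eq P.2 hz0 (hne1 z0 hz0o) hs hr0k, hr0k])
  have hz0r : z0 * r0 = r0 * z0 := (hz0c r0 hr0P).symm
  have h27 : 27 ≤ Nat.card (P : Subgroup G) := by
    obtain ⟨-, hlt⟩ := hctx.nine_noncentral P hA hr0P hr0 hr0k
    refine twenty_seven_le P.2 (lt_of_le_of_lt ?_ hlt)
    refine nine_le_card (P.2.to_le inf_le_left) hr0 ⟨hr0P, smul_fixedBy_of_comm rfl⟩
      ⟨hz0, smul_fixedBy_of_comm hz0r⟩ fun hm => ?_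
    obtain ⟨i, rfl⟩ := (isOfFinOrder_of_finite r0).mem_powers_iff_mem_zpowers.2 hm
    exact hmove (fix_subset_pow r0 i)
  have hb : ∀ X : Subgroup G, IsPGroup 3 X → X ≤ centralizer {r0} → Nat.card X ≤ 9 := by
    intro X hX hXr
    have hY : IsPGroup 3 (X ⊔ zpowers r0 : Subgroup G) := by
      refine IsPGroup.to_sup_of_normal_right' hX (pgroup_zpowers_of_order hr0)
        (le_trans ?_ (centralizer_le_normalizer _))
      rwa [zpowers_eq_closure r0, centralizer_closure]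
    obtain ⟨m, -, hm⟩ := sylow_conj_mem P le_top hY le_top
    obtain ⟨r', hr'⟩ : ∃ r', r' = m * r0 * m⁻¹ := ⟨_, rfl⟩
    obtain ⟨h1, -⟩ := hctx.nine_noncentral P hA (r := r')
      (hr' ▸ hm r0 (mem_sup_right (mem_zpowers r0)))
      (by rw [hr', ← hr0]; exact orderOf_injective (MulAut.conj m).toMonoidHom (MulAut.conj m).injective r0)
      (by rw [hr', fixedBy_conj, smul_ncard, hr0k])
    have e : Nat.card (X.map (MulAut.conj m).toMonoidHom) = Nat.card X :=
      card_map_of_injective (MulAut.conj m).injective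
    rw [← e]
    refine le_trans (card_le_of_le ?_) h1
    rintro _ ⟨v, hv, rfl⟩
    refine ⟨hm v (mem_sup_left hv), smul_fixedBy_of_comm ?_⟩
    show m * v * m⁻¹ * r' = r' * (m * v * m⁻¹)
    rw [hr']
    calc m * v * m⁻¹ * (m * r0 * m⁻¹) = m * (v * r0) * m⁻¹ := by group
      _ = m * (r0 * v) * m⁻¹ := by rw [mem_centralizer_singleton_iff.1 (hXr hv)]
      _ = _ := by group
  exact nonreal_nine hna P h27 r0 hr0 (fun g => hctx.nonreal hr0 hr0k hz0o hz0r hmove hb g) hb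

end Cfsg.Agent.H81.Fix4
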