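import Cfsg.Agent.H24.PGroupBasic
import Cfsg.Prelude.Def_Transfer

/-!
3-groups with an element of order three whose centralizer has order nine.
-/

set_option autoImplicit false
set_option linter.unusedSectionVars false

namespace Cfsg.Agent.H81.Fix4

open Subgroup
open scoped commutatorElement

variable {Q : Type*} [Group Q] [Finite Q]

theorem nine_le_index_frattini (hQ : IsPGroup 3 Q) {x : Q}
    (hC : Nat.card (centralizer ({x} : Set Q)) = 9) (h27 : 27 ≤ Nat.card Q) :
    9 ≤ (frattini Q).index := by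
  haveI : Fact (Nat.Prime 3) := ⟨Nat.prime_three⟩
  by_contra h
  obtain ⟨n, hn⟩ := hQ.index (frattini Q)
  haveI : IsCyclic (Q ⧸ frattini Q) := by
    rcases n with _ | _ | n
    · haveI : Subsingleton (Q ⧸ frattini Q) := (Nat.card_eq_one_iff_unique.1 hn).1
      infer_instance
    · exact isCyclic_of_prime_card (p := 3) hn
    · rw [hn, pow_succ, pow_succ] at h
      have := Nat.one_le_pow n 3 (by norm_num)
      omega
  haveI := Cfsg.Agent.H24.isCyclic_of_quotient (frattini Q) le_rfl
  have htop : centralizer ({x} : Set Q) = ⊤ := eq_top_iff.2 fun y _ =>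
    mem_centralizer_singleton_iff.2 (IsCyclic.isMulCommutative.is_comm.comm y x)
  rw [htop, card_top] at hC
  omega

/-- The class of `x` is a coset of the Frattini subgroup, of index nine. -/
theorem class_eq_coset (hQ : IsPGroup 3 Q) {x : Q} (hC : Nat.card (centralizer ({x} : Set Q)) = 9)
    (h27 : 27 ≤ Nat.card Q) :
    (frattini Q).index = 9 ∧ commutator Q = frattini Q ∧ x ∉ frattini Q ∧
      ∀ y : Q, x⁻¹ * y ∈ frattini Q → ∃ s : Q, s * x * s⁻¹ = y := by
  haveI : Fact (Nat.Prime 3) := ⟨Nat.prime_three⟩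
  have hle := Cfsg.Agent.H24.commutator_le_frattini (p := 3) hQ
  have hcl : ∀ s : Q, x⁻¹ * (s * x * s⁻¹) ∈ commutator Q := fun s => by
    have h := commutator_mem_commutator (mem_top (x⁻¹)) (mem_top s)
    rw [← commutator_def, commutatorElement_def, inv_inv] at h
    rw [show x⁻¹ * (s * x * s⁻¹) = x⁻¹ * s * x * s⁻¹ by group]
    exact h
  let f : Q ⧸ centralizer ({x} : Set Q) → commutator Q := fun q =>
    ⟨x⁻¹ * (q.out * x * q.out⁻¹), hcl q.out⟩
  have hf : Function.Injective f := by
    intro q q' h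
    have h1 : q.out * x * q.out⁻¹ = q'.out * x * q'.out⁻¹ :=
      mul_left_cancel (congrArg Subtype.val h)
    rw [← QuotientGroup.out_eq' q, ← QuotientGroup.out_eq' q']
    refine QuotientGroup.eq.2 (mem_centralizer_singleton_iff.2 ?_)
    calc q.out⁻¹ * q'.out * x = q.out⁻¹ * (q'.out * x * q'.out⁻¹) * q'.out := by group
      _ = q.out⁻¹ * (q.out * x * q.out⁻¹) * q'.out := by rw [h1]
      _ = x * (q.out⁻¹ * q'.out) := by group
  have h1 := Nat.card_le_card_of_injective f hf
  have h2 := card_le_of_le hle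
  have h3 := nine_le_index_frattini hQ hC h27
  have h4 := index_mul_card (centralizer ({x} : Set Q))
  have h5 := index_mul_card (frattini Q)
  rw [hC] at h4
  rw [← index_eq_card] at h1
  have h6 : Nat.card (commutator Q) ≤ (centralizer ({x} : Set Q)).index := by
    nlinarith [Nat.card_pos (α := frattini Q)]
  have heq : commutator Q = frattini Q := eq_of_le_of_card_ge hle (by
    nlinarith [Nat.card_pos (α := frattini Q)])
  have hidx : (frattini Q).index = 9 := by
    have h7 : Nat.card (frattini Q) = (centralizer ({x} : Set Q)).index := by rw [← heq]; omega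
    refine Nat.eq_of_mul_eq_mul_right (Nat.card_pos (α := frattini Q)) ?_
    rw [h5, ← h4, h7, mul_comm]
  have hsurj := (hf.bijective_of_nat_card_le (by rw [← index_eq_card]; exact h6)).2
  have hclass : ∀ y : Q, x⁻¹ * y ∈ frattini Q → ∃ s : Q, s * x * s⁻¹ = y := fun y hy => by
    obtain ⟨q, hq⟩ := hsurj ⟨x⁻¹ * y, heq ▸ hy⟩
    exact ⟨q.out, mul_left_cancel (congrArg Subtype.val hq)⟩
  refine ⟨hidx, heq, fun hx => ?_, hclass⟩
  obtain ⟨s, hs⟩ := hclass 1 (by rw [mul_one]; exact inv_mem hx)
  rw [conj_eq_one_iff] at hs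
  rw [hs, show centralizer ({(1 : Q)} : Set Q) = ⊤ from
    eq_top_iff.2 fun y _ => mem_centralizer_singleton_iff.2 (by simp), card_top] at hC
  omega

/-- For order at least 81, such elements avoid a maximal subgroup. -/
theorem exists_avoided (hQ : IsPGroup 3 Q) (h81 : 81 ≤ Nat.card Q) (z : Q) (hz : orderOf z = 3)
    (hzc : z ∈ center Q) :
    ∃ M : Subgroup Q, frattini Q ≤ M ∧ M.index ≤ 3 ∧
      ∀ x : Q, x ^ 3 = 1 → Nat.card (centralizer ({x} : Set Q)) = 9 → x ∉ M := by
  classical
  haveI : Fact (Nat.Prime 3) := ⟨Nat.prime_three⟩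
  have hZn : (zpowers z).Normal := ⟨fun a ha g => by
    have hac : a ∈ center Q := zpowers_le.2 hzc ha
    rwa [mem_center_iff.1 hac g, mul_inv_cancel_right]⟩
  have hne : zpowers z ≠ ⊤ := fun h => by
    have := Nat.card_zpowers z
    rw [h, card_top, hz] at this
    omega
  obtain ⟨W, hWn, hzW, -, hWc, -⟩ :=
    Cfsg.Agent.H24.exists_normal_between (p := 3) hQ (le_top (a := zpowers z)) hne
  rw [Nat.card_zpowers, hz] at hWc
  obtain ⟨w, hw, hwz⟩ : ∃ w ∈ W, w ∉ zpowers z := by
    by_contra h
    push Not at h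
    have := card_le_of_le (show W ≤ zpowers z from h)
    rw [hWc, Nat.card_zpowers, hz] at this
    omega
  -- the centralizer of `W`
  have hcW : centralizer (W : Set Q) = centralizer ({w} : Set Q) := by
    refine le_antisymm (centralizer_le (by simpa using hw)) fun y hy => ?_
    have hsub : W ⊓ centralizer ({y} : Set Q) = W := by
      refine eq_of_le_of_card_ge inf_le_left ?_
      have h1 : zpowers z ≤ W ⊓ centralizer ({y} : Set Q) := le_inf hzW (zpowers_le.2
        (mem_centralizer_singleton_iff.2 (mem_center_iff.1 hzc y).symm))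
      have h2 : w ∈ W ⊓ centralizer ({y} : Set Q) :=
        ⟨hw, mem_centralizer_singleton_iff.2 (mem_centralizer_singleton_iff.1 hy).symm⟩
      obtain ⟨k, hk⟩ := IsPGroup.iff_card.1 (hQ.to_subgroup (W ⊓ centralizer ({y} : Set Q)))
      have h3 : 3 < Nat.card (W ⊓ centralizer ({y} : Set Q) : Subgroup Q) := by
        refine lt_of_le_of_ne ?_ fun h => ?_
        · have := card_le_of_le h1
          rwa [Nat.card_zpowers, hz] at this
        · exact hwz ((eq_of_le_of_card_ge h1 (by rw [Nat.card_zpowers, hz, ← h])).ge h2)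
      rw [hk] at h3 ⊢
      rw [hWc]
      rcases k with _ | _ | k
      · omega
      · omega
      · calc 3 * 3 = 3 ^ 2 := by norm_num
          _ ≤ _ := Nat.pow_le_pow_right (by norm_num) (by omega)
    exact mem_centralizer_iff.2 fun v hv => mem_centralizer_singleton_iff.1 (hsub.ge hv).2
  have hcn : (centralizer (W : Set Q)).Normal := inferInstance
  have hidx : (centralizer (W : Set Q)).index ≤ 3 := by
    rw [hcW]
    obtain ⟨k, hk⟩ := hQ.index (centralizer ({w} : Set Q))
    let f : Q ⧸ centralizer ({w} : Set Q) → ((W : Set Q) \ (zpowers z : Set Q) : Set Q) := fun q =>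
      ⟨q.out * w * q.out⁻¹, hWn.conj_mem w hw _, fun h => hwz (by
        have h' := hZn.conj_mem _ h q.out⁻¹
        rwa [show q.out⁻¹ * (q.out * w * q.out⁻¹) * q.out⁻¹⁻¹ = w by group] at h')⟩
    have hf : Function.Injective f := by
      intro q q' h
      have h1 : q.out * w * q.out⁻¹ = q'.out * w * q'.out⁻¹ := congrArg Subtype.val h
      rw [← QuotientGroup.out_eq' q, ← QuotientGroup.out_eq' q']
      refine QuotientGroup.eq.2 (mem_centralizer_singleton_iff.2 ?_)
      calc q.out⁻¹ * q'.out * w = q.out⁻¹ * (q'.out * w * q'.out⁻¹) * q'.out := by group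
        _ = q.out⁻¹ * (q.out * w * q.out⁻¹) * q'.out := by rw [h1]
        _ = w * (q.out⁻¹ * q'.out) := by group
    have h1 := Nat.card_le_card_of_injective f hf
    rw [← index_eq_card, Nat.card_coe_set_eq, Set.ncard_sdiff (by exact hzW) (Set.toFinite _),
      ← Nat.card_coe_set_eq, ← Nat.card_coe_set_eq] at h1
    have e1 : Nat.card ((W : Set Q)) = 9 := hWc
    have e2 : Nat.card ((zpowers z : Set Q)) = 3 := (Nat.card_zpowers z).trans hz
    rw [e1, e2, hk] at h1
    rw [hk]
    rcases k with _ | _ | k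
    · norm_num
    · norm_num
    · rw [pow_succ, pow_succ] at h1
      have := Nat.one_le_pow k 3 (by norm_num)
      omega
  have hdvd : (centralizer (W : Set Q)).index ∣ 3 := by
    obtain ⟨k, hk⟩ := hQ.index (centralizer (W : Set Q))
    rw [hk] at hidx ⊢
    rcases k with _ | _ | k
    · simp
    · simp
    · rw [pow_succ, pow_succ] at hidx
      have := Nat.one_le_pow k 3 (by norm_num)
      omega
  have hfr : frattini Q ≤ centralizer (W : Set Q) := by
    refine Cfsg.Agent.H24.frattini_le_of (p := 3) _ ?_ fun y => ?_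
    · have hcyc : IsCyclic (Q ⧸ centralizer (W : Set Q)) := by
        rcases (Nat.dvd_prime Nat.prime_three).1 hdvd with h | h
        · haveI : Subsingleton (Q ⧸ centralizer (W : Set Q)) := (Nat.card_eq_one_iff_unique.1 h).1
          infer_instance
        · exact isCyclic_of_prime_card (p := 3) h
      rw [← Normal.quotient_commutative_iff_commutator_le]
      exact IsCyclic.commutative
    · obtain ⟨d, hd⟩ := hdvd
      rw [hd, pow_mul]
      exact pow_mem (pow_index_mem (centralizer (W : Set Q)) y) d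
  refine ⟨centralizer (W : Set Q), hfr, hidx, fun x hx3 hxC hxM => ?_⟩
  -- then `W` is the centralizer of `x`
  have hWC : W = centralizer ({x} : Set Q) := eq_of_le_of_card_ge
    (fun v hv => mem_centralizer_singleton_iff.2 (mem_centralizer_iff.1 hxM v hv)) (by rw [hxC, hWc])
  have hle : centralizer (W : Set Q) ≤ centralizer ({x} : Set Q) :=
    centralizer_le (by simpa [hWC] using mem_centralizer_singleton_iff.2 rfl)
  have h1 := card_le_of_le hle
  have h2 := index_mul_card (centralizer (W : Set Q))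
  rw [hxC] at h1
  nlinarith

theorem extraspecial_of_two (hQ : IsPGroup 3 Q) (h27 : Nat.card Q = 27) {x y : Q}
    (hx : x ^ 3 = 1) (hy : y ^ 3 = 1) (hC : Nat.card (centralizer ({x} : Set Q)) = 9)
    (hgen : frattini Q ⊔ zpowers x ⊔ zpowers y = ⊤) :
    Cfsg.IsExtraspecial 3 Q ∧ ∀ g : Q, g ^ 3 = 1 := by
  haveI : Fact (Nat.Prime 3) := ⟨Nat.prime_three⟩
  obtain ⟨hidx, hcomm, -, -⟩ := class_eq_coset hQ hC (by omega)
  have hΦ : Nat.card (frattini Q) = 3 := by
    have := index_mul_card (frattini Q)
    rw [hidx, h27] at this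
    omega
  haveI : Nontrivial Q := Finite.one_lt_card_iff_nontrivial.1 (by omega)
  haveI := hQ.center_nontrivial
  have hxZ : x ∉ center Q := fun h => by
    have : centralizer ({x} : Set Q) = ⊤ := eq_top_iff.2 fun v _ =>
      mem_centralizer_singleton_iff.2 (mem_center_iff.1 h v)
    rw [this, card_top, h27] at hC
    omega
  have hZ3 : Nat.card (center Q) = 3 := by
    obtain ⟨k, hk⟩ := IsPGroup.iff_card.1 (hQ.to_subgroup (center Q))
    have h1 := Finite.one_lt_card (α := center Q)
    have h2 : Nat.card (center Q) < 9 := by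
      have hle : center Q ≤ centralizer ({x} : Set Q) := center_le_centralizer _
      refine lt_of_le_of_ne (hC ▸ card_le_of_le hle) fun h => hxZ ?_
      rw [eq_of_le_of_card_ge hle (by rw [hC, h])]
      exact mem_centralizer_singleton_iff.2 rfl
    rw [hk] at h1 h2 ⊢
    rcases k with _ | _ | k
    · simp at h1
    · rfl
    · rw [pow_succ, pow_succ] at h2
      have := Nat.one_le_pow k 3 (by norm_num)
      omega
  -- the Frattini subgroup is the centre
  have hΦZ : frattini Q = center Q := by
    refine eq_of_le_of_card_ge ?_ (by rw [hΦ, hZ3])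
    haveI : Fact (1 < Nat.card (frattini Q)) := ⟨by omega⟩
    have hne : frattini Q ≠ ⊥ := fun h => by rw [h, card_bot] at hΦ; omega
    obtain ⟨K, hKn, -, hKΦ, hKc, hKcomm⟩ :=
      Cfsg.Agent.H24.exists_normal_between (p := 3) hQ (bot_le (a := frattini Q)) hne.symm
    rw [card_bot, mul_one] at hKc
    rw [← eq_of_le_of_card_ge hKΦ (by rw [hΦ, hKc])]
    intro k hk
    rw [mem_center_iff]
    intro g
    have h := hKcomm (commutator_mem_commutator (mem_top g) hk)
    rwa [mem_bot, commutatorElement_eq_one_iff_mul_comm] at h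
  refine ⟨⟨⟨hQ, hΦZ, hcomm.trans hΦZ⟩, hZ3⟩, ?_⟩
  -- cubing is a homomorphism
  have hc : ∀ a b : Q, ⁅b, a⁆ ∈ center Q := fun a b => hΦZ ▸ hcomm ▸ (by
    rw [commutator_def]; exact commutator_mem_commutator (mem_top b) (mem_top a))
  have hcube : ∀ c ∈ center Q, c ^ 3 = 1 := fun c hc => by
    have := pow_card_eq_one' (G := center Q) (x := ⟨c, hc⟩)
    rw [hZ3] at this
    exact congrArg Subtype.val this
  have hmul : ∀ a b : Q, (a * b) ^ 3 = a ^ 3 * b ^ 3 := by
    intro a b
    obtain ⟨c, hcdef⟩ : ∃ c, c = ⁅b, a⁆ := ⟨_, rfl⟩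
    have hcZ : c ∈ center Q := hcdef ▸ hc a b
    have hba : ∀ v : Q, b * (a * v) = c * (a * (b * v)) := fun v => by
      rw [hcdef, commutatorElement_def]; group
    have hmv : ∀ u v : Q, u * (c * v) = c * (u * v) := fun u v => by
      rw [← mul_assoc, mem_center_iff.1 hcZ u, mul_assoc]
    simp only [pow_succ, pow_zero, one_mul, mul_assoc]
    rw [hba (b * (a * b)), hba b, hmv b (a * (b * b)), hba (b * b)]
    simp only [hmv a]
    rw [← mul_assoc, ← mul_assoc, ← pow_two, ← pow_succ, hcube c hcZ, one_mul]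
  intro g
  let f : Q →* Q := MonoidHom.mk' (fun v => v ^ 3) hmul
  have hker : f.ker = ⊤ := by
    rw [eq_top_iff, ← hgen]
    exact sup_le (sup_le (fun v hv => hcube v (hΦZ ▸ hv)) (zpowers_le.2 hx)) (zpowers_le.2 hy)
  exact (MonoidHom.mem_ker.1 (hker ▸ mem_top g) : f g = 1)

end Cfsg.Agent.H81.Fix4
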