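import Cfsg.Agent.H81.Fix4.Basic
import Cfsg.Agent.H81.Fix4.OddClass

/-!
A simple group with a non-real element of order three whose centralizer has Sylow 3-order nine.
-/

set_option autoImplicit false
set_option linter.unusedSectionVars false

namespace Cfsg.Agent.H81.Fix4

open MulAction Subgroup
open scoped commutatorElement

theorem finite_product {A : Type*} [CommGroup A] [Finite A] (hA : Nat.card A = 9) (hexp : ∀ a : A, a ^ 3 = 1)
    (S : Finset A) (h1 : (1 : A) ∉ S) (hinv : ∀ a ∈ S, a⁻¹ ∉ S) (hprod : ∏ a ∈ S, a = 1)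
    (hne : S.Nonempty) :
    ∃ a ∈ S, ∃ b ∈ S, zpowers a ⊔ zpowers b = ⊤ := by
  haveI : Fact (Nat.Prime 3) := ⟨Nat.prime_three⟩
  obtain ⟨a, ha⟩ := hne
  by_cases h : ∀ b ∈ S, b ∈ zpowers a
  · exfalso
    have hS : S = {a} := by
      refine Finset.eq_singleton_iff_unique_mem.2 ⟨ha, fun b hb => ?_⟩
      obtain ⟨i, rfl⟩ := h b hb
      simp only at hb ⊢
      have hcases : i % 3 = 0 ∨ i % 3 = 1 ∨ i % 3 = 2 := by omega
      have hred : a ^ i = a ^ (i % 3) := by
        conv_lhs => rw [← Int.emod_add_mul_ediv i 3, zpow_add, zpow_mul,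
          show a ^ (3 : ℤ) = 1 from (zpow_natCast a 3).trans (hexp a)]
        rw [one_zpow, mul_one]
      rcases hcases with h0 | h0 | h0
      · exact absurd (by rwa [hred, h0, zpow_zero] at hb) h1
      · rw [hred, h0, zpow_one]
      · refine absurd hb ?_
        rw [hred, h0, show a ^ (2 : ℤ) = a⁻¹ from eq_inv_of_mul_eq_one_left (by
          rw [← zpow_add_one, show (2 : ℤ) + 1 = 3 by norm_num]
          exact (zpow_natCast a 3).trans (hexp a))]
        exact hinv a ha
    rw [hS, Finset.prod_singleton] at hprod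
    exact h1 (hprod ▸ ha)
  · push Not at h
    obtain ⟨b, hb, hba⟩ := h
    refine ⟨a, ha, b, hb, ?_⟩
    have ha3 : Nat.card (zpowers a) = 3 := by
      rw [Nat.card_zpowers]
      exact orderOf_eq_prime (hexp a) fun e => h1 (e ▸ ha)
    obtain ⟨k, hk⟩ := IsPGroup.iff_card.1
      ((IsPGroup.of_card (p := 3) (n := 2) (by rw [hA]; norm_num) : IsPGroup 3 A).to_subgroup
        (zpowers a ⊔ zpowers b))
    have h3 : 3 < Nat.card (zpowers a ⊔ zpowers b : Subgroup A) := by
      rw [← ha3]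
      refine lt_of_le_of_ne (card_le_of_le le_sup_left) fun e => hba ?_
      exact (eq_of_le_of_card_ge le_sup_left e.ge).ge (mem_sup_right (mem_zpowers b))
    refine eq_top_of_le_card _ ?_
    rw [hA, hk] at *
    rcases k with _ | _ | k
    · omega
    · omega
    · calc 9 = 3 ^ 2 := by norm_num
        _ ≤ _ := Nat.pow_le_pow_right (by norm_num) (by omega)

theorem finite_product_avoid {A : Type*} [CommGroup A] [Finite A] (hA : Nat.card A = 9)
    (S : Finset A) (h1 : (1 : A) ∉ S) (hinv : ∀ a ∈ S, a⁻¹ ∉ S) (hprod : ∏ a ∈ S, a = 1)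
    (L : Subgroup A) (hL : 3 ≤ Nat.card L) (hav : ∀ a ∈ S, a ∉ L) (hmod : S.card % 3 ≠ 0) : False := by
  classical
  haveI := Fintype.ofFinite A
  have hcard : S.card ≤ 3 := by
    let T : Finset A := S.image fun a => a⁻¹
    have hdis : Disjoint S T := Finset.disjoint_left.2 fun a ha hT => by
      obtain ⟨b, hb, rfl⟩ := Finset.mem_image.1 hT
      exact hinv b hb ha
    have hsub : S ∪ T ⊆ (Finset.univ.filter fun a : A => a ∈ L)ᶜ := by
      intro a ha
      rw [Finset.mem_compl, Finset.mem_filter]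
      rintro ⟨-, haL⟩
      rcases Finset.mem_union.1 ha with h | h
      · exact hav a h haL
      · obtain ⟨b, hb, rfl⟩ := Finset.mem_image.1 h
        exact hav b hb (inv_mem_iff.1 haL)
    have h2 := Finset.card_le_card hsub
    rw [Finset.card_union_of_disjoint hdis, Finset.card_image_of_injective _ inv_injective,
      Finset.card_compl, ← Nat.card_eq_fintype_card, hA] at h2
    have h3 : (Finset.univ.filter fun a : A => a ∈ L).card = Nat.card L := by
      rw [Nat.card_eq_fintype_card, Fintype.card_subtype]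
    omega
  have hcases : S.card = 1 ∨ S.card = 2 := by omega
  rcases hcases with h | h
  · obtain ⟨a, rfl⟩ := Finset.card_eq_one.1 h
    rw [Finset.prod_singleton] at hprod
    exact h1 (hprod ▸ Finset.mem_singleton_self a)
  · obtain ⟨a, b, hab, rfl⟩ := Finset.card_eq_two.1 h
    rw [Finset.prod_pair hab] at hprod
    exact hinv a (by simp) (by rw [inv_eq_of_mul_eq_one_right hprod]; simp)

variable {G : Type*} [Group G] [Finite G]

/-- A non-real element of order three with centralizer of 3-part at most nine. -/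
theorem nonreal_nine [IsSimpleGroup G] (hna : ¬ IsMulCommutative G) (P : Sylow 3 G)
    (h27 : 27 ≤ Nat.card (P : Subgroup G)) (r : G) (hr : orderOf r = 3)
    (hnr : ∀ g : G, g * r * g⁻¹ ≠ r⁻¹)
    (h9 : ∀ X : Subgroup G, IsPGroup 3 X → X ≤ centralizer {r} → Nat.card X ≤ 9) :
    Nat.card (P : Subgroup G) = 27 ∧ Cfsg.IsExtraspecial 3 (P : Subgroup G) ∧
      ∀ x ∈ (P : Subgroup G), x ^ 3 = 1 := by
  classical
  haveI : Fact (Nat.Prime 3) := ⟨Nat.prime_three⟩
  have hQ : IsPGroup 3 (P : Subgroup G) := P.2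
  haveI : Nontrivial (P : Subgroup G) := Finite.one_lt_card_iff_nontrivial.1 (by omega)
  haveI := hQ.center_nontrivial
  obtain ⟨zc, hzc⟩ := exists_prime_orderOf_dvd_card' (G := center (P : Subgroup G)) 3 (by
    obtain ⟨k, hk⟩ := IsPGroup.iff_card.1 (hQ.to_subgroup (center (P : Subgroup G)))
    have := Finite.one_lt_card (α := center (P : Subgroup G))
    rw [hk] at this ⊢
    exact dvd_pow_self 3 (fun h => by rw [h, pow_zero] at this; omega))
  obtain ⟨z, hz⟩ : ∃ z : (P : Subgroup G), z = zc := ⟨_, rfl⟩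
  have hzo : orderOf z = 3 := by rw [hz, orderOf_coe, hzc]
  have hzZ : z ∈ center (P : Subgroup G) := hz ▸ zc.2
  have hr3 : r ^ 3 = 1 := hr ▸ pow_orderOf_eq_one r
  have hr1 : r ≠ 1 := fun h => by rw [h, orderOf_one] at hr; omega
  -- conjugates of `r` in `P`
  have hconj : ∀ x : (P : Subgroup G), (∃ g : G, g⁻¹ * r * g = x) →
      x ^ 3 = 1 ∧ Nat.card (centralizer ({x} : Set (P : Subgroup G))) = 9 := by
    rintro x ⟨g, hg⟩
    have hx3 : x ^ 3 = 1 := Subtype.ext (by
      rw [SubgroupClass.coe_pow, ← hg, show g⁻¹ * r * g = g⁻¹ * r * g⁻¹⁻¹ by group, conj_pow, hr3]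
      simp)
    refine ⟨hx3, ?_⟩
    obtain ⟨C, hC⟩ : ∃ C, C = centralizer ({x} : Set (P : Subgroup G)) := ⟨_, rfl⟩
    have hle : Nat.card C ≤ 9 := by
      obtain ⟨X, hX⟩ : ∃ X : Subgroup G, X = (C.map (P : Subgroup G).subtype).map (MulAut.conj g).toMonoidHom :=
        ⟨_, rfl⟩
      have hXc : Nat.card X = Nat.card C := by
        rw [hX, card_map_of_injective (MulAut.conj g).injective,
          card_map_of_injective (P : Subgroup G).subtype_injective]
      rw [← hXc]
      refine h9 X (hX ▸ ((hQ.to_subgroup C).map _).map _) fun v hv => ?_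
      rw [hX] at hv
      obtain ⟨u, ⟨c, hc, rfl⟩, rfl⟩ := hv
      rw [hC] at hc
      have h1 : (c : G) * x = x * c := congrArg Subtype.val (mem_centralizer_singleton_iff.1 hc)
      rw [← hg] at h1
      rw [mem_centralizer_singleton_iff]
      show g * (c : G) * g⁻¹ * r = r * (g * c * g⁻¹)
      calc g * (c : G) * g⁻¹ * r = g * ((c : G) * (g⁻¹ * r * g)) * g⁻¹ := by group
        _ = g * (g⁻¹ * r * g * c) * g⁻¹ := by rw [h1]
        _ = r * (g * c * g⁻¹) := by group
    have hxC : x ∈ C := hC ▸ mem_centralizer_singleton_iff.2 rfl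
    have hzC : z ∈ C := hC ▸ mem_centralizer_singleton_iff.2 (mem_center_iff.1 hzZ x).symm
    obtain ⟨k, hk⟩ := IsPGroup.iff_card.1 (hQ.to_subgroup C)
    have h3 : 3 < Nat.card C := by
      refine lt_of_le_of_ne ?_ fun e => ?_
      · have := card_le_of_le (zpowers_le.2 hzC)
        rwa [Nat.card_zpowers, hzo] at this
      have hCz : zpowers z = C :=
        eq_of_le_of_card_ge (zpowers_le.2 hzC) (by rw [Nat.card_zpowers, hzo, ← e])
      have hxZ : x ∈ center (P : Subgroup G) := zpowers_le.2 hzZ (hCz.ge hxC)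
      have htop : C = ⊤ := hC ▸ eq_top_iff.2 fun v _ =>
        mem_centralizer_singleton_iff.2 (mem_center_iff.1 hxZ v)
      rw [htop, card_top] at e
      omega
    rw [← hC, hk]
    rw [hk] at h3 hle
    rcases k with _ | _ | _ | k
    · omega
    · omega
    · rfl
    · rw [pow_succ, pow_succ, pow_succ] at hle
      have := Nat.one_le_pow k 3 (by norm_num)
      omega
  -- one conjugate
  obtain ⟨R, hR⟩ := (IsPGroup.of_card (p := 3) (n := 1) (G := zpowers r)
    (by rw [Nat.card_zpowers, hr, pow_one])).exists_le_sylow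
  obtain ⟨g0, hg0⟩ := MulAction.exists_smul_eq G R P
  have hx0 : ∃ x : (P : Subgroup G), ∃ g : G, g⁻¹ * r * g = x := by
    have h : g0 * r * g0⁻¹ ∈ ((g0 • R : Sylow 3 G) : Subgroup G) := by
      rw [Sylow.smul_def, Sylow.pointwise_smul_def]
      exact ⟨r, hR (mem_zpowers r), rfl⟩
    rw [hg0] at h
    exact ⟨⟨_, h⟩, g0⁻¹, by rw [inv_inv]⟩
  obtain ⟨x0, hx0⟩ := hx0
  obtain ⟨hidx, hcomm, -, -⟩ := class_eq_coset hQ (hconj x0 hx0).2 h27
  -- the abelian quotient
  let A := (P : Subgroup G) ⧸ frattini (P : Subgroup G)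
  letI : CommGroup A :=
    { (inferInstance : Group A) with
      mul_comm := fun a b => by
        obtain ⟨a, rfl⟩ := QuotientGroup.mk'_surjective _ a
        obtain ⟨b, rfl⟩ := QuotientGroup.mk'_surjective _ b
        show ((a * b : (P : Subgroup G)) : A) = ((b * a : (P : Subgroup G)) : A)
        refine QuotientGroup.eq.2 ?_
        rw [show (a * b)⁻¹ * (b * a) = b⁻¹ * a⁻¹ * b * a by group, ← hcomm, commutator_def]
        have h := commutator_mem_commutator (mem_top b⁻¹) (mem_top a⁻¹)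
        rwa [commutatorElement_def, inv_inv, inv_inv] at h }
  let φ : (P : Subgroup G) →* A := QuotientGroup.mk' (frattini (P : Subgroup G))
  have hA : Nat.card A = 9 := hidx
  have hexp : ∀ a : A, a ^ 3 = 1 := fun a => by
    obtain ⟨a, rfl⟩ := QuotientGroup.mk'_surjective _ a
    rw [← map_pow]
    exact (QuotientGroup.eq_one_iff _).2 (Cfsg.Agent.H24.pow_mem_frattini (p := 3) hQ a)
  -- fixed cosets
  let T : Set (G ⧸ (P : Subgroup G)) := fixedBy _ r
  have hTmem : ∀ t : G ⧸ (P : Subgroup G), t ∈ T → t.out⁻¹ * r * t.out ∈ (P : Subgroup G) := by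
    intro t ht
    have h : ((r * t.out : G) : G ⧸ (P : Subgroup G)) = t := by
      rw [← smul_eq_mul, MulAction.Quotient.coe_smul_out]
      exact ht
    have h1 := QuotientGroup.eq.1 ((QuotientGroup.out_eq' t).trans h.symm)
    rwa [← mul_assoc] at h1
  let f : T → A := fun t => φ ⟨_, hTmem t.1 t.2⟩
  -- the fibres
  have hfib : ∀ t0 : T, Nat.card {t : T // f t = f t0} * 9 = Nat.card (centralizer ({r} : Set G)) := by
    intro t0
    obtain ⟨g1, hg1⟩ : ∃ g1, g1 = (t0 : G ⧸ (P : Subgroup G)).out := ⟨_, rfl⟩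
    obtain ⟨x, hx⟩ : ∃ x : (P : Subgroup G), x = ⟨_, hTmem t0.1 t0.2⟩ := ⟨_, rfl⟩
    have hxg : g1⁻¹ * r * g1 = (x : G) := by rw [hx, hg1]
    obtain ⟨hx3, hxC⟩ := hconj x ⟨g1, hxg⟩
    obtain ⟨-, -, -, hcls⟩ := class_eq_coset hQ hxC h27
    let C := centralizer ({r} : Set G)
    have hCr : ∀ c : C, (c : G) * r = r * c := fun c => mem_centralizer_singleton_iff.1 c.2
    have horb : {t : T // f t = f t0} ≃ orbit C (t0 : G ⧸ (P : Subgroup G)) := by
      refine
        { toFun := fun t => ⟨(t.1 : G ⧸ (P : Subgroup G)), ?_⟩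
          invFun := fun t => ⟨⟨(t : G ⧸ (P : Subgroup G)), ?_⟩, ?_⟩
          left_inv := fun _ => rfl
          right_inv := fun _ => rfl }
      · -- a fibre element lies in the orbit
        obtain ⟨⟨t, ht⟩, he⟩ := t
        have h1 : x⁻¹ * ⟨_, hTmem t ht⟩ ∈ frattini (P : Subgroup G) := by
          rw [hx]
          exact QuotientGroup.eq.1 he.symm
        obtain ⟨s, hs⟩ := hcls _ h1
        have hs' : (s : G) * x * (s : G)⁻¹ = t.out⁻¹ * r * t.out := congrArg Subtype.val hs
        rw [← hxg] at hs'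
        have hc : t.out * s * g1⁻¹ ∈ C := by
          rw [mem_centralizer_singleton_iff]
          calc t.out * (s : G) * g1⁻¹ * r = t.out * ((s : G) * (g1⁻¹ * r * g1) * (s : G)⁻¹) * s * g1⁻¹ := by
                group
            _ = t.out * (t.out⁻¹ * r * t.out) * s * g1⁻¹ := by rw [hs']
            _ = r * (t.out * s * g1⁻¹) := by group
        refine ⟨⟨_, hc⟩, ?_⟩
        show (t.out * s * g1⁻¹) • (t0 : G ⧸ (P : Subgroup G)) = t
        rw [← MulAction.Quotient.coe_smul_out, ← hg1, smul_eq_mul, inv_mul_cancel_right]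
        conv_rhs => rw [← QuotientGroup.out_eq' t]
        refine QuotientGroup.eq.2 ?_
        rw [show (t.out * (s : G))⁻¹ * t.out = (s : G)⁻¹ by group]
        exact inv_mem s.2
      · -- orbit elements are fixed
        obtain ⟨c, hc⟩ := t.2
        show r • (t : G ⧸ (P : Subgroup G)) = t
        rw [← hc]
        show r • ((c : G) • (t0 : G ⧸ (P : Subgroup G))) = (c : G) • (t0 : G ⧸ (P : Subgroup G))
        rw [← mul_smul, ← hCr c, mul_smul]
        congr 1
        exact t0.2
      · -- with the same value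
        obtain ⟨c, hc⟩ := t.2
        obtain ⟨gt, hgt⟩ : ∃ gt, gt = (t : G ⧸ (P : Subgroup G)).out := ⟨_, rfl⟩
        have h1 : ((((c : G) * g1 : G)) : G ⧸ (P : Subgroup G)) = t := by
          rw [hg1, ← smul_eq_mul, MulAction.Quotient.coe_smul_out]
          exact hc
        have h2 := QuotientGroup.eq.1 (h1.trans (QuotientGroup.out_eq' (t : G ⧸ (P : Subgroup G))).symm)
        rw [← hgt] at h2
        obtain ⟨s, hs⟩ : ∃ s : (P : Subgroup G), s = ⟨_, h2⟩ := ⟨_, rfl⟩
        have htP : gt⁻¹ * r * gt ∈ (P : Subgroup G) := by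
          rw [show gt = (c : G) * g1 * s by rw [hs]; group,
            show ((c : G) * g1 * s)⁻¹ * r * ((c : G) * g1 * s) =
              (s : G)⁻¹ * (g1⁻¹ * ((c : G)⁻¹ * (r * c)) * g1) * s by group, ← hCr c, inv_mul_cancel_left,
            hxg]
          exact mul_mem (mul_mem (inv_mem s.2) x.2) s.2
        show φ ⟨(t : G ⧸ (P : Subgroup G)).out⁻¹ * r * (t : G ⧸ (P : Subgroup G)).out, _⟩ = φ ⟨_, _⟩
        have e : (⟨(t : G ⧸ (P : Subgroup G)).out⁻¹ * r * (t : G ⧸ (P : Subgroup G)).out,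
            by rw [← hgt]; exact htP⟩ : (P : Subgroup G)) = s⁻¹ * x * s := Subtype.ext (by
          have key : gt⁻¹ * r * gt = (s : G)⁻¹ * (x : G) * (s : G) := by
            rw [hs, ← hxg]
            simp only
            calc gt⁻¹ * r * gt = gt⁻¹ * r * (c : G) * g1 * (((c : G) * g1)⁻¹ * gt) := by group
              _ = gt⁻¹ * (r * (c : G)) * g1 * (((c : G) * g1)⁻¹ * gt) := by group
              _ = gt⁻¹ * ((c : G) * r) * g1 * (((c : G) * g1)⁻¹ * gt) := by rw [hCr c]
              _ = _ := by group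
          subst hgt
          exact key)
        rw [e, map_mul, map_mul, map_inv, mul_comm (φ s)⁻¹, inv_mul_cancel_right, hx]
    rw [Nat.card_congr horb, Nat.card_coe_set_eq, ← index_stabilizer]
    have hst : Nat.card (stabilizer C (t0 : G ⧸ (P : Subgroup G))) =
        Nat.card (centralizer ({x} : Set (P : Subgroup G))) := by
      have hkey : ∀ c : C, (c : G) • (t0 : G ⧸ (P : Subgroup G)) = t0 →
          g1⁻¹ * (c : G) * g1 ∈ (P : Subgroup G) := by
        intro c hc
        rw [← MulAction.Quotient.coe_smul_out, ← hg1, smul_eq_mul] at hc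
        conv_rhs at hc => rw [← QuotientGroup.out_eq' (t0 : G ⧸ (P : Subgroup G)), ← hg1]
        have := inv_mem (QuotientGroup.eq.1 hc)
        rwa [mul_inv_rev, inv_inv, ← mul_assoc] at this
      refine Nat.card_congr
        { toFun := fun c => ⟨⟨_, hkey c.1 c.2⟩, mem_centralizer_singleton_iff.2 (Subtype.ext ?_)⟩
          invFun := fun s => ⟨⟨g1 * ((s : (P : Subgroup G)) : G) * g1⁻¹,
            mem_centralizer_singleton_iff.2 ?_⟩, ?_⟩
          left_inv := fun c => Subtype.ext (Subtype.ext (by simp [mul_assoc]))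
          right_inv := fun s => Subtype.ext (Subtype.ext (by simp [mul_assoc])) }
      · show g1⁻¹ * ((c : C) : G) * g1 * (x : G) = (x : G) * (g1⁻¹ * ((c : C) : G) * g1)
        rw [← hxg]
        calc g1⁻¹ * ((c : C) : G) * g1 * (g1⁻¹ * r * g1) = g1⁻¹ * (((c : C) : G) * r) * g1 := by group
          _ = g1⁻¹ * (r * ((c : C) : G)) * g1 := by rw [hCr]
          _ = _ := by group
      · have h1 : ((s : (P : Subgroup G)) : G) * x = x * (s : (P : Subgroup G)) :=
          congrArg Subtype.val (mem_centralizer_singleton_iff.1 s.2)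
        rw [← hxg] at h1
        calc g1 * ((s : (P : Subgroup G)) : G) * g1⁻¹ * r
            = g1 * (((s : (P : Subgroup G)) : G) * (g1⁻¹ * r * g1)) * g1⁻¹ := by group
          _ = g1 * (g1⁻¹ * r * g1 * ((s : (P : Subgroup G)) : G)) * g1⁻¹ := by rw [h1]
          _ = _ := by group
      · show (g1 * ((s : (P : Subgroup G)) : G) * g1⁻¹) • (t0 : G ⧸ (P : Subgroup G)) = t0
        rw [← MulAction.Quotient.coe_smul_out, ← hg1, smul_eq_mul, inv_mul_cancel_right]
        conv_rhs => rw [← QuotientGroup.out_eq' (t0 : G ⧸ (P : Subgroup G)), ← hg1]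
        refine QuotientGroup.eq.2 ?_
        rw [show (g1 * ((s : (P : Subgroup G)) : G))⁻¹ * g1 = ((s : (P : Subgroup G)) : G)⁻¹ by group]
        exact inv_mem (s : (P : Subgroup G)).2
    have := index_mul_card (stabilizer C (t0 : G ⧸ (P : Subgroup G)))
    rw [hst, hxC] at this
    exact this
  -- count
  have hT0 : Nonempty T := by
    obtain ⟨g, hg⟩ := hx0
    refine ⟨⟨(g : G ⧸ (P : Subgroup G)), ?_⟩⟩
    show r • (g : G ⧸ (P : Subgroup G)) = g
    rw [MulAction.Quotient.smul_coe, smul_eq_mul]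
    refine QuotientGroup.eq.2 ?_
    rw [show (r * g)⁻¹ * g = (g⁻¹ * r * g)⁻¹ by group, hg]
    exact inv_mem x0.2
  haveI := Fintype.ofFinite T
  obtain ⟨t1⟩ := hT0
  obtain ⟨e, he⟩ : ∃ e, e = Nat.card {t : T // f t = f t1} := ⟨_, rfl⟩
  have hee : ∀ t0 : T, (Finset.univ.filter fun t => f t = f t0).card = e := fun t0 => by
    rw [← Fintype.card_subtype, ← Nat.card_eq_fintype_card, he]
    exact Nat.eq_of_mul_eq_mul_right (by norm_num) ((hfib t0).trans (hfib t1).symm)
  let S : Finset A := Finset.univ.image f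
  have hTS : Fintype.card T = S.card * e := by
    rw [← Finset.card_univ, Finset.card_eq_sum_card_image f Finset.univ,
      Finset.sum_congr rfl (g := fun _ => e) (fun a ha => by
        obtain ⟨t, -, rfl⟩ := Finset.mem_image.1 ha
        exact hee t), Finset.sum_const, smul_eq_mul]
  have hmod : ¬ 3 ∣ Fintype.card T := by
    intro h
    have h1 := card_fixed_modEq (p := 3) (Ω := G ⧸ (P : Subgroup G)) (g := r)
      (IsPGroup.of_card (n := 1) (by rw [Nat.card_zpowers, hr, pow_one]))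
    rw [← Nat.card_coe_set_eq, show Nat.card (fixedBy (G ⧸ (P : Subgroup G)) r) = Fintype.card T from
      Nat.card_eq_fintype_card] at h1
    exact P.not_dvd_index (Nat.modEq_zero_iff_dvd.1 (h1.trans (Nat.modEq_zero_iff_dvd.2 h)))
  have he3 : ¬ 3 ∣ e := fun h => hmod (hTS ▸ h.mul_left _)
  have hS3 : S.card % 3 ≠ 0 := fun h => hmod (hTS ▸ (Nat.dvd_of_mod_eq_zero h).mul_right _)
  have hS1 : (1 : A) ∉ S := fun h => by
    obtain ⟨t, -, ht⟩ := Finset.mem_image.1 h
    exact (class_eq_coset hQ (hconj _ ⟨_, rfl⟩).2 h27).2.2.1 ((QuotientGroup.eq_one_iff _).1 ht)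
  have hSinv : ∀ a ∈ S, a⁻¹ ∉ S := by
    intro a ha hai
    obtain ⟨t, -, rfl⟩ := Finset.mem_image.1 ha
    obtain ⟨t', -, ht'⟩ := Finset.mem_image.1 hai
    obtain ⟨x, hx⟩ : ∃ x : (P : Subgroup G), x = ⟨_, hTmem t.1 t.2⟩ := ⟨_, rfl⟩
    obtain ⟨x', hx'⟩ : ∃ x' : (P : Subgroup G), x' = ⟨_, hTmem t'.1 t'.2⟩ := ⟨_, rfl⟩
    have h1 : φ x' = φ x⁻¹ := by rw [map_inv, hx, hx']; exact ht'
    obtain ⟨s, hs⟩ := (class_eq_coset hQ (hconj x' ⟨_, by rw [hx']⟩).2 h27).2.2.2 x⁻¹
      (QuotientGroup.eq.1 h1)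
    obtain ⟨g, hg⟩ : ∃ g, g = (t.1).out := ⟨_, rfl⟩
    obtain ⟨g', hg'⟩ : ∃ g', g' = (t'.1).out := ⟨_, rfl⟩
    have e1 : (x : G) = g⁻¹ * r * g := by rw [hx, hg]
    have e2 : (x' : G) = g'⁻¹ * r * g' := by rw [hx', hg']
    have h2 : (s : G) * x' * (s : G)⁻¹ = (x : G)⁻¹ := congrArg Subtype.val hs
    rw [e1, e2] at h2
    refine hnr (g * s * g'⁻¹) ?_
    calc g * (s : G) * g'⁻¹ * r * (g * s * g'⁻¹)⁻¹
        = g * ((s : G) * (g'⁻¹ * r * g') * (s : G)⁻¹) * g⁻¹ := by group
      _ = g * (g⁻¹ * r * g)⁻¹ * g⁻¹ := by rw [h2]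
      _ = r⁻¹ := by group
  have hprod : ∏ a ∈ S, a = 1 := by
    have hV : MonoidHom.transfer φ r = ∏ t : T, f t := by
      haveI := (P : Subgroup G).fintypeQuotientOfFiniteIndex
      letI := Fintype.ofFinite (Quotient (orbitRel (zpowers r) (G ⧸ (P : Subgroup G))))
      rw [MonoidHom.transfer_eq_prod_quotient_orbitRel_zpowers_quot]
      obtain ⟨mp, hmp⟩ : ∃ mp : Quotient (orbitRel (zpowers r) (G ⧸ (P : Subgroup G))) → ℕ,
          ∀ q, mp q = Function.minimalPeriod (r • ·) q.out := ⟨_, fun _ => rfl⟩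
      have hper : ∀ q, mp q = 1 ∨ mp q = 3 := fun q => by
        rw [hmp]
        refine (Nat.dvd_prime Nat.prime_three).1 (Function.IsPeriodicPt.minimalPeriod_dvd ?_)
        show (fun y => r • y)^[3] q.out = q.out
        rw [smul_iterate_apply, hr3, one_smul]
      have hfixed : ∀ q, r • q.out = q.out ↔ mp q = 1 := fun q => by
        rw [hmp, Function.minimalPeriod_eq_one_iff_isFixedPt]
        rfl
      refine (Finset.prod_subset (Finset.subset_univ
        (Finset.univ.filter fun q => r • q.out = q.out)) fun q _ hq => ?_).symm.trans ?_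
      · simp only [Finset.mem_filter, Finset.mem_univ, true_and, hfixed] at hq
        rcases hper q with h | h
        · exact absurd h hq
        · rw [hmp] at h
          convert map_one φ using 2
          refine Subtype.ext ?_
          show q.out.out⁻¹ * r ^ Function.minimalPeriod (r • ·) q.out * q.out.out = 1
          rw [h, hr3]
          group
      · refine Finset.prod_bij' (fun q hq => (⟨q.out, (Finset.mem_filter.1 hq).2⟩ : T))
          (fun t _ => Quotient.mk _ (t : G ⧸ (P : Subgroup G))) (fun q hq => Finset.mem_univ _)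
          (fun t _ => ?_) (fun q hq => Quotient.out_eq q) (fun t _ => ?_) fun q hq => ?_
        · refine Finset.mem_filter.2 ⟨Finset.mem_univ _, ?_⟩
          obtain ⟨⟨v, hv⟩, hvt⟩ := @Quotient.mk_out _ (orbitRel (zpowers r) (G ⧸ (P : Subgroup G)))
            (t : G ⧸ (P : Subgroup G))
          rw [← hvt]
          show r • (v • (t : G ⧸ (P : Subgroup G))) = v • (t : G ⧸ (P : Subgroup G))
          rw [(zpowers_le.2 (show r ∈ stabilizer G (t : G ⧸ (P : Subgroup G)) from t.2)) hv]
          exact t.2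
        · refine Subtype.ext ?_
          obtain ⟨⟨v, hv⟩, hvt⟩ := @Quotient.mk_out _ (orbitRel (zpowers r) (G ⧸ (P : Subgroup G)))
            (t : G ⧸ (P : Subgroup G))
          exact hvt.symm.trans
            ((zpowers_le.2 (show r ∈ stabilizer G (t : G ⧸ (P : Subgroup G)) from t.2)) hv)
        · have h1 := (hfixed q).1 (Finset.mem_filter.1 hq).2
          rw [hmp] at h1
          show φ ⟨q.out.out⁻¹ * r ^ Function.minimalPeriod (r • ·) q.out * q.out.out, _⟩ = φ ⟨_, _⟩
          congr 1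
          exact Subtype.ext (by simp only [h1, pow_one])
    have hpow : (∏ a ∈ S, a) ^ e = 1 := by
      rw [← hom_comm_trivial hna (MonoidHom.transfer φ) r, hV, Finset.prod_comp (fun a => a) f,
        ← Finset.prod_pow]
      refine Finset.prod_congr rfl fun a ha => ?_
      obtain ⟨t, -, rfl⟩ := Finset.mem_image.1 ha
      rw [hee t]
    have h9' : (∏ a ∈ S, a) ^ 3 = 1 := hexp _
    have := pow_gcd_eq_one.2 ⟨hpow, h9'⟩
    rwa [Nat.Coprime.gcd_eq_one ((Nat.prime_three.coprime_iff_not_dvd.2 he3).symm), pow_one] at this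
  by_cases h81 : 81 ≤ Nat.card (P : Subgroup G)
  · exfalso
    obtain ⟨M, hΦM, hMi, hMav⟩ := exists_avoided hQ h81 z hzo hzZ
    refine finite_product_avoid hA S hS1 hSinv hprod (M.map φ) ?_ ?_ hS3
    · have h1 := index_map (f := φ) (H := M)
      rw [QuotientGroup.ker_mk', sup_eq_left.2 hΦM,
        MonoidHom.range_eq_top.2 (QuotientGroup.mk'_surjective _), index_top, mul_one] at h1
      have h2 := index_mul_card (M.map φ)
      rw [h1, hA] at h2
      by_contra h
      have h3 : M.index * Nat.card (M.map φ) ≤ 3 * 2 := Nat.mul_le_mul hMi (by omega)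
      omega
    · intro a ha haM
      obtain ⟨t, -, rfl⟩ := Finset.mem_image.1 ha
      obtain ⟨m, hm, hme⟩ := haM
      obtain ⟨x, hx⟩ : ∃ x : (P : Subgroup G), x = ⟨_, hTmem t.1 t.2⟩ := ⟨_, rfl⟩
      have hx' := hconj x ⟨_, by rw [hx]⟩
      refine hMav x hx'.1 hx'.2 ?_
      have h1 : m⁻¹ * x ∈ frattini (P : Subgroup G) := QuotientGroup.eq.1 (by rw [hx]; exact hme)
      have := mul_mem hm (hΦM h1)
      rwa [mul_inv_cancel_left] at this
  · have h27' : Nat.card (P : Subgroup G) = 27 := by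
      obtain ⟨k, hk⟩ := IsPGroup.iff_card.1 hQ
      rw [hk] at h27 h81 ⊢
      rcases k with _ | _ | _ | _ | k
      · omega
      · omega
      · omega
      · rfl
      · exfalso
        refine h81 ?_
        calc 81 = 3 ^ 4 := by norm_num
          _ ≤ _ := Nat.pow_le_pow_right (by norm_num) (by omega)
    obtain ⟨a, ha, b, hb, hab⟩ := finite_product hA hexp S hS1 hSinv hprod
      (Finset.card_pos.1 (Nat.pos_of_ne_zero fun h => hS3 (by rw [h])))
    obtain ⟨ta, -, rfl⟩ := Finset.mem_image.1 ha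
    obtain ⟨tb, -, rfl⟩ := Finset.mem_image.1 hb
    obtain ⟨x, hx⟩ : ∃ x : (P : Subgroup G), x = ⟨_, hTmem ta.1 ta.2⟩ := ⟨_, rfl⟩
    obtain ⟨y, hy⟩ : ∃ y : (P : Subgroup G), y = ⟨_, hTmem tb.1 tb.2⟩ := ⟨_, rfl⟩
    have hx' := hconj x ⟨_, by rw [hx]⟩
    have hy' := hconj y ⟨_, by rw [hy]⟩
    have hgen : frattini (P : Subgroup G) ⊔ zpowers x ⊔ zpowers y = ⊤ := by
      have h1 : (zpowers x ⊔ zpowers y).map φ = ⊤ := by
        rw [Subgroup.map_sup, MonoidHom.map_zpowers, MonoidHom.map_zpowers, hx, hy]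
        exact hab
      have h2 := comap_map_eq φ (zpowers x ⊔ zpowers y)
      rw [h1, comap_top, QuotientGroup.ker_mk'] at h2
      rw [sup_assoc, sup_comm]
      exact h2.symm
    obtain ⟨hes, hexp3⟩ := extraspecial_of_two hQ h27' hx'.1 hy'.1 hx'.2 hgen
    exact ⟨h27', hes, fun g hg => congrArg Subtype.val (hexp3 ⟨g, hg⟩)⟩

end Cfsg.Agent.H81.Fix4
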