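import Cfsg.Agent.H81.Fix4.Odd
import Cfsg.Agent.H81.SelfEight.Main

/-!
Sectional rank criteria for 2-groups with a normal elementary abelian subgroup of order eight.
-/

set_option autoImplicit false
set_option linter.unusedSectionVars false

namespace Cfsg.Agent.H81.Fix4

open Subgroup
open Cfsg.Agent.H81.MacW (sqSub sq_mem_sqSub card_split card_pow_two sectional_of_sq comm_mem_sqSub)
open Cfsg.Agent.H81.SelfEight (flag_bound bound_of two_le_card)
open scoped commutatorElement

variable {S : Type*} [Group S] [Finite S]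

/-- Groups of order at most sixteen, or thirty-two and not of exponent two. -/
theorem rank_of_small (hP : IsPGroup 2 S) (h32 : Nat.card S ≤ 32)
    (hne : 16 < Nat.card S → ∃ x : S, x ^ 2 ≠ 1) : Cfsg.SectionalPRankLE 2 4 S := by
  refine sectional_of_sq 4 fun H => ?_
  have h1 : 1 ≤ Nat.card (sqSub H) := Nat.card_pos
  have h2 := H.card_le_card_group
  by_cases h16 : Nat.card H ≤ 16
  · omega
  obtain ⟨n, hn⟩ := card_pow_two hP H
  obtain ⟨m, hm⟩ := card_pow_two hP (⊤ : Subgroup S)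
  rw [card_top] at hm
  have htop : H = ⊤ := by
    refine eq_top_of_le_card H ?_
    rw [hn] at h16
    rw [hm] at h32
    rw [hn, hm]
    have h5 : 5 ≤ n := by
      by_contra hh
      have := Nat.pow_le_pow_right (show 1 ≤ 2 by norm_num) (show n ≤ 4 by omega)
      omega
    have h6 : m ≤ 5 := by
      by_contra hh
      have := Nat.pow_le_pow_right (show 1 ≤ 2 by norm_num) (show 6 ≤ m by omega)
      omega
    exact Nat.pow_le_pow_right (by norm_num) (by omega)
  subst htop
  rw [card_top] at h16 ⊢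
  obtain ⟨x, hx⟩ := hne (by omega)
  have := two_le_card (sq_mem_sqSub (H := (⊤ : Subgroup S)) (mem_top x)) hx
  omega

/-- The group induced on a normal elementary abelian subgroup of order eight. -/
theorem index_le_eight (hP : IsPGroup 2 S) (E : Subgroup S) [hEn : E.Normal]
    (hE2 : ∀ x ∈ E, x * x = 1) (h8 : Nat.card E = 8) : (centralizer (E : Set S)).index ≤ 8 := by
  classical
  haveI : Fact (Nat.Prime 2) := ⟨Nat.prime_two⟩
  have hne : (⊥ : Subgroup S) ≠ E := fun h => by rw [← h, card_bot] at h8; omega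
  obtain ⟨K, hKn, -, hKE, hKcard, hcomm⟩ :=
    Cfsg.Agent.H24.exists_normal_between (p := 2) hP bot_le hne
  rw [card_bot, mul_one] at hKcard
  haveI := hKn
  have hKne : K ≠ E := fun h => by rw [h] at hKcard; omega
  obtain ⟨P2, hP2n, hKP, hPE, hPcard, hcommP⟩ :=
    Cfsg.Agent.H24.exists_normal_between (p := 2) hP hKE hKne
  rw [hKcard] at hPcard
  obtain ⟨p, hp, hpK⟩ : ∃ v ∈ P2, v ∉ K := by
    by_contra hh
    push Not at hh
    have := card_le_of_le (show P2 ≤ K from hh)
    omega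
  obtain ⟨q, hq, hqP⟩ : ∃ v ∈ E, v ∉ P2 := by
    by_contra hh
    push Not at hh
    have := card_le_of_le (show E ≤ P2 from hh)
    omega
  have hKfix : ∀ g : S, ∀ k ∈ K, g * k * g⁻¹ = k := fun g k hk => by
    have h := hcomm (commutator_mem_commutator (mem_top g) hk)
    rwa [mem_bot, commutatorElement_def, mul_inv_eq_one] at h
  have hpmove : ∀ g : S, g * p * g⁻¹ * p⁻¹ ∈ K := fun g => by
    have h := hcommP (commutator_mem_commutator (mem_top g) hp)
    rwa [commutatorElement_def] at h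
  have hidx : (P2.subgroupOf E).index = 2 := by
    have h := index_mul_card (P2.subgroupOf E)
    rw [Nat.card_congr (subgroupOfEquivOfLe hPE).toEquiv, hPcard, h8] at h
    omega
  have hidx' : (K.subgroupOf P2).index = 2 := by
    have h := index_mul_card (K.subgroupOf P2)
    rw [Nat.card_congr (subgroupOfEquivOfLe hKP).toEquiv, hKcard, hPcard] at h
    omega
  have hgen : ∀ {A B : Subgroup S}, (A.subgroupOf B).index = 2 → ∀ {b : S}, b ∈ B → b ∉ A →
      ∀ v ∈ B, v ∈ A ∨ v * b ∈ A := by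
    intro A B hi b hb hbA v hv
    by_cases hvA : v ∈ A
    · exact Or.inl hvA
    refine Or.inr ?_
    have := (mul_mem_iff_of_index_two hi (a := (⟨v, hv⟩ : B)) (b := ⟨b, hb⟩)).2
      (by simp [mem_subgroupOf, hvA, hbA])
    simpa [mem_subgroupOf] using this
  have hqmove : ∀ g : S, g * q * g⁻¹ * q⁻¹ ∈ P2 := fun g => by
    rw [inv_eq_of_mul_eq_one_right (hE2 q hq)]
    rcases hgen hidx hq hqP _ (hEn.conj_mem q hq g) with h | h
    · exfalso
      have := hP2n.conj_mem _ h g⁻¹
      rw [inv_inv, show g⁻¹ * (g * q * g⁻¹) * g = q by group] at this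
      exact hqP this
    · exact h
  -- the moves determine the coset
  have hinj : Function.Injective (fun c : S ⧸ centralizer (E : Set S) =>
      ((⟨c.out * p * c.out⁻¹ * p⁻¹, hpmove _⟩, ⟨c.out * q * c.out⁻¹ * q⁻¹, hqmove _⟩) : K × P2)) := by
    intro c d hcd
    obtain ⟨x, hx⟩ : ∃ x, x = c.out := ⟨_, rfl⟩
    obtain ⟨y, hy⟩ : ∃ y, y = d.out := ⟨_, rfl⟩
    have e1 : x * p * x⁻¹ = y * p * y⁻¹ := by
      rw [hx, hy]; exact mul_right_cancel (congrArg (fun v : K × P2 => (v.1 : S)) hcd)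
    have e2 : x * q * x⁻¹ = y * q * y⁻¹ := by
      rw [hx, hy]; exact mul_right_cancel (congrArg (fun v : K × P2 => (v.2 : S)) hcd)
    have ext2 : ∀ {v b : S}, b * b = 1 → x * (v * b) * x⁻¹ = y * (v * b) * y⁻¹ →
        x * b * x⁻¹ = y * b * y⁻¹ → x * v * x⁻¹ = y * v * y⁻¹ := fun {v b} hb h1 h2 => by
      have e : v = v * b * b := by rw [mul_assoc, hb, mul_one]
      rw [e, show x * (v * b * b) * x⁻¹ = x * (v * b) * x⁻¹ * (x * b * x⁻¹) by group, h1, h2]
      group
    have hP2eq : ∀ v ∈ P2, x * v * x⁻¹ = y * v * y⁻¹ := by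
      intro v hv
      rcases hgen hidx' hp hpK v hv with h | h
      · rw [hKfix x v h, hKfix y v h]
      · exact ext2 (hE2 p (hPE hp)) (by rw [hKfix x _ h, hKfix y _ h]) e1
    have hEeq : ∀ v ∈ E, x * v * x⁻¹ = y * v * y⁻¹ := by
      intro v hv
      rcases hgen hidx hq hqP v hv with h | h
      · exact hP2eq v h
      · exact ext2 (hE2 q hq) (hP2eq _ h) e2
    rw [← QuotientGroup.out_eq' c, ← QuotientGroup.out_eq' d, ← hx, ← hy]
    refine QuotientGroup.eq.2 (mem_centralizer_iff.2 fun w hw => ?_)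
    calc w * (x⁻¹ * y) = x⁻¹ * (x * w * x⁻¹) * y := by group
      _ = x⁻¹ * (y * w * y⁻¹) * y := by rw [hEeq w hw]
      _ = x⁻¹ * y * w := by group
  have h := Nat.card_le_card_of_injective _ hinj
  rwa [← index_eq_card, Nat.card_prod, hKcard, hPcard] at h

theorem card_le_mul_fibre {α β : Type*} [Finite α] [Finite β] (f : α → β) (n : ℕ)
    (h : ∀ a : α, Nat.card {d // f d = f a} ≤ n) : Nat.card α ≤ n * Nat.card β := by
  classical
  haveI := Fintype.ofFinite α
  haveI := Fintype.ofFinite β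
  rw [Nat.card_eq_fintype_card, Nat.card_eq_fintype_card, ← Finset.card_univ, ← Finset.card_univ]
  refine Finset.card_le_mul_card_image_of_maps_to (f := f) (fun _ _ => Finset.mem_univ _) n ?_
  intro b _
  by_cases hb : ∃ a, f a = b
  · obtain ⟨a, rfl⟩ := hb
    refine le_trans (le_of_eq ?_) (h a)
    rw [Nat.card_eq_fintype_card, Fintype.card_subtype]
  · rw [Finset.card_eq_zero.2 (Finset.filter_eq_empty_iff.2 fun a _ ha => hb ⟨a, ha⟩)]
    exact Nat.zero_le n

/-- Abelian centralizer of order sixteen. -/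
theorem rank_of_cent16 (hP : IsPGroup 2 S) (E : Subgroup S) [hEn : E.Normal]
    (hEc : ∀ x ∈ E, ∀ y ∈ E, x * y = y * x) (hE2 : ∀ x ∈ E, x * x = 1) (h8 : Nat.card E = 8)
    (h16 : Nat.card (centralizer (E : Set S)) = 16)
    (hwit : ∀ X : Subgroup S,
      4 ≤ Nat.card (X.map (QuotientGroup.mk' (centralizer (E : Set S)))) →
        ∃ s ∈ X, s ∉ centralizer (E : Set S) ∧
          Nat.card (centralizer (E : Set S) ⊓ centralizer ({s} : Set S) : Subgroup S) ≤ 4) :
    Cfsg.SectionalPRankLE 2 4 S := by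
  refine sectional_of_sq 4 fun H => ?_
  obtain ⟨C, hC⟩ : ∃ C, C = centralizer (E : Set S) := ⟨_, rfl⟩
  haveI : C.Normal := hC ▸ inferInstance
  have hker : (QuotientGroup.mk' C).ker = centralizer (E : Set S) := by rw [QuotientGroup.ker_mk', hC]
  have hflag := flag_bound hP E hEc hE2 h8 (QuotientGroup.mk' C) hker H
  have h1 : 1 ≤ Nat.card (sqSub H) := Nat.card_pos
  have hD : Nat.card (H ⊓ C : Subgroup S) ≤ 16 :=
    le_trans (card_le_of_le inf_le_right) (by rw [hC, h16])
  have hsplit := card_split (QuotientGroup.mk' C) H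
  rw [QuotientGroup.ker_mk'] at hsplit
  by_cases h4 : 4 ≤ Nat.card (H.map (QuotientGroup.mk' C))
  · refine bound_of (QuotientGroup.mk' C) (QuotientGroup.ker_mk' C) H 4 4 le_rfl ?_ hflag
    obtain ⟨s, hsH, -, hs4⟩ := hwit H (by subst hC; exact h4)
    rw [← hC] at hs4
    let φ : (H ⊓ C : Subgroup S) → (sqSub H ⊓ C : Subgroup S) := fun d =>
      ⟨(d : S)⁻¹ * s⁻¹ * d * s, comm_mem_sqSub d.2.1 hsH, by
        have h := (inferInstance : C.Normal).conj_mem _ d.2.2 s⁻¹
        rw [inv_inv] at h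
        show (d : S)⁻¹ * s⁻¹ * d * s ∈ C
        have := C.mul_mem (C.inv_mem d.2.2) h
        rwa [← mul_assoc, ← mul_assoc] at this⟩
    have key := card_le_mul_fibre φ 4 fun a => ?_
    · exact key
    refine le_trans (Nat.card_le_card_of_injective
      (fun d : {d // φ d = φ a} => (⟨((d.1 : S) * (a : S)⁻¹), ?_, ?_⟩ :
        (C ⊓ centralizer ({s} : Set S) : Subgroup S))) ?_) hs4
    · exact C.mul_mem d.1.2.2 (C.inv_mem a.2.2)
    · have h := congrArg Subtype.val d.2
      change (d.1 : S)⁻¹ * s⁻¹ * d.1 * s = (a : S)⁻¹ * s⁻¹ * a * s at h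
      have h' := mul_right_cancel h
      refine mem_centralizer_singleton_iff.2 ?_
      calc (d.1 : S) * (a : S)⁻¹ * s = (d.1 : S) * ((a : S)⁻¹ * s⁻¹ * a)⁻¹ * (a : S)⁻¹ := by group
        _ = (d.1 : S) * ((d.1 : S)⁻¹ * s⁻¹ * d.1)⁻¹ * (a : S)⁻¹ := by rw [h']
        _ = s * ((d.1 : S) * (a : S)⁻¹) := by group
    · intro x y hxy
      exact Subtype.ext (Subtype.ext (mul_right_cancel (congrArg Subtype.val hxy)))
  · obtain ⟨n, hn⟩ := card_pow_two (hP.to_quotient C) (H.map (QuotientGroup.mk' C))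
    rcases n with _ | _ | n
    · rw [hn, pow_zero, mul_one] at hsplit
      omega
    · rw [hn, pow_one] at hsplit
      by_cases h32 : Nat.card H ≤ 16
      · omega
      have hCH : C ≤ H := by
        refine inf_eq_right.1 (eq_of_le_of_card_ge inf_le_right ?_)
        obtain ⟨m, hm⟩ := card_pow_two hP (H ⊓ C)
        rw [hC] at hm ⊢
        rw [h16]
        rw [← hC] at hm ⊢
        by_contra hh
        have h5 : m < 4 := (Nat.pow_lt_pow_iff_right (show 1 < 2 by norm_num)).1 (by omega)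
        have := Nat.pow_le_pow_right (show 1 ≤ 2 by norm_num) (show m ≤ 3 by omega)
        omega
      obtain ⟨h, hh, hhC⟩ : ∃ h ∈ H, h ∉ C := by
        by_contra hcon
        push Not at hcon
        have := card_le_of_le (show H ≤ C from hcon)
        rw [hC, h16] at this
        omega
      obtain ⟨e, he, hne⟩ : ∃ e ∈ E, e * h ≠ h * e := by
        by_contra hcon
        push Not at hcon
        exact hhC (hC ▸ mem_centralizer_iff.2 hcon)
      have heH : e ∈ H := hCH (hC ▸ mem_centralizer_iff.2 fun w hw => hEc w hw e he)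
      have := two_le_card (comm_mem_sqSub (inv_mem heH) (inv_mem hh)) fun hcon => hne (by
        rw [inv_inv, inv_inv] at hcon
        calc e * h = e * h * e⁻¹ * h⁻¹ * (h * e) := by group
          _ = h * e := by rw [hcon, one_mul])
      omega
    · rw [hn, pow_succ, pow_succ] at h4
      have := Nat.one_le_two_pow (n := n)
      omega

/-- The product of a subgroup of exponent two with a subgroup it normalises. -/
def extBy (W K : Subgroup S) (hW2 : ∀ w ∈ W, w * w = 1) (hK : ∀ w ∈ W, ∀ k ∈ K, w * k * w ∈ K) :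
    Subgroup S where
  carrier := {x | ∃ w ∈ W, ∃ k ∈ K, x = w * k}
  one_mem' := ⟨1, one_mem _, 1, one_mem _, by simp⟩
  mul_mem' := by
    rintro _ _ ⟨w, hw, k, hk, rfl⟩ ⟨w', hw', k', hk', rfl⟩
    refine ⟨w * w', mul_mem hw hw', w' * k * w' * k', mul_mem (hK w' hw' k hk) hk', ?_⟩
    calc w * k * (w' * k') = w * (w' * w') * k * w' * k' := by rw [hW2 w' hw']; group
      _ = _ := by group
  inv_mem' := by
    rintro _ ⟨w, hw, k, hk, rfl⟩
    refine ⟨w, hw, w * k⁻¹ * w, hK w hw _ (inv_mem hk), ?_⟩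
    rw [mul_inv_rev, inv_eq_of_mul_eq_one_right (hW2 w hw), ← mul_assoc, ← mul_assoc, hW2 w hw, one_mul]

/-- A four group with the same fixed points in the centralizer of a normal elementary subgroup of
order eight. -/
theorem rank_of_four_group (hP : IsPGroup 2 S) (E W V : Subgroup S) [hEn : E.Normal]
    (hEc : ∀ x ∈ E, ∀ y ∈ E, x * y = y * x) (hE2 : ∀ x ∈ E, x * x = 1) (h8 : Nat.card E = 8)
    (hW : Nat.card W = 4) (hW2 : ∀ w ∈ W, w * w = 1) (hVE : V ≤ E) (hV : Nat.card V = 4)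
    (hfix : ∀ v ∈ V, ∀ w ∈ W, w * v = v * w)
    (hmax : ∀ w ∈ W, w ≠ 1 → ∀ x ∈ centralizer (E : Set S), x * w = w * x → x ∈ V) :
    Cfsg.SectionalPRankLE 2 4 S := by
  classical
  haveI : Fact (Nat.Prime 2) := ⟨Nat.prime_two⟩
  obtain ⟨C, hC⟩ : ∃ C, C = centralizer (E : Set S) := ⟨_, rfl⟩
  rw [← hC] at hmax
  haveI : C.Normal := hC ▸ inferInstance
  have hEC : E ≤ C := hC ▸ fun x hx => mem_centralizer_iff.2 fun y hy => hEc y hy x hx
  have hce : ∀ x ∈ C, ∀ e ∈ E, e * x = x * e := fun x hx e he => by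
    rw [hC] at hx; exact mem_centralizer_iff.1 hx e he
  have hWC : ∀ w ∈ W, w ∈ C → w = 1 := by
    intro w hw hwC
    by_contra hw1
    have hwV := hmax w hw hw1 w hwC rfl
    have h := card_le_of_le (show E ≤ V from fun e he =>
      hmax w hw hw1 e (hEC he) (hEc e he w (hVE hwV)))
    omega
  have hwi : ∀ w ∈ W, w⁻¹ = w := fun w hw => inv_eq_of_mul_eq_one_right (hW2 w hw)
  have hWc : ∀ a ∈ W, ∀ b ∈ W, a * b = b * a := fun a ha b hb => by
    calc a * b = (a * b)⁻¹ := (hwi _ (mul_mem ha hb)).symm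
      _ = b * a := by rw [mul_inv_rev, hwi a ha, hwi b hb]
  have hCw : ∀ w ∈ W, ∀ x ∈ C, w * x * w ∈ C := fun w hw x hx => by
    have := (inferInstance : C.Normal).conj_mem x hx w
    rwa [hwi w hw] at this
  let D : S → S → S := fun x w => x⁻¹ * (w * x * w)
  have hD1 : ∀ w ∈ W, D 1 w = 1 := fun w hw => by simp [D, hW2 w hw]
  have hDC : ∀ x ∈ C, ∀ w ∈ W, D x w ∈ C := fun x hx w hw => mul_mem (inv_mem hx) (hCw w hw x hx)
  have hDfix : ∀ x, ∀ w ∈ W, D x w = 1 → x * w = w * x := by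
    intro x w hw h
    calc x * w = x * D x w * w := by rw [h, mul_one]
      _ = w * x * (w * w) := by simp only [D]; group
      _ = w * x := by rw [hW2 w hw, mul_one]
  have hDmul : ∀ x y, ∀ w ∈ W, D x w ∈ V → y ∈ C → D (x * y) w = D x w * D y w := by
    intro x y w hw hx hy
    have h1 : w * (x * y) * w = w * x * w * (w * y * w) := by
      calc w * (x * y) * w = w * x * (w * w) * y * w := by rw [hW2 w hw, mul_one]; group
        _ = _ := by group
    simp only [D] at hx ⊢
    calc (x * y)⁻¹ * (w * (x * y) * w) = y⁻¹ * (x⁻¹ * (w * x * w)) * (w * y * w) := by rw [h1]; group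
      _ = x⁻¹ * (w * x * w) * y⁻¹ * (w * y * w) := by rw [← hce _ (inv_mem hy) _ (hVE hx)]
      _ = _ := by group
  let K : Subgroup S :=
    { carrier := {x | x ∈ C ∧ ∀ w ∈ W, D x w ∈ V}
      one_mem' := ⟨one_mem _, fun w hw => by rw [hD1 w hw]; exact one_mem _⟩
      mul_mem' := fun {a b} ha hb => ⟨mul_mem ha.1 hb.1, fun w hw => by
        rw [hDmul a b w hw (ha.2 w hw) hb.1]; exact mul_mem (ha.2 w hw) (hb.2 w hw)⟩
      inv_mem' := fun {a} ha => ⟨inv_mem ha.1, fun w hw => by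
        have h := hDmul a a⁻¹ w hw (ha.2 w hw) (inv_mem ha.1)
        rw [mul_inv_cancel, hD1 w hw] at h
        rw [eq_inv_of_mul_eq_one_right h.symm]
        exact inv_mem (ha.2 w hw)⟩ }
  have hKC : K ≤ C := fun x hx => hx.1
  have hDV : ∀ w ∈ W, ∀ e ∈ E, D e w ∈ V := by
    intro w hw e he
    by_cases hw1 : w = 1
    · subst hw1; simp [D]
    have hwew : w * e * w ∈ E := by
      have := hEn.conj_mem e he w; rwa [hwi w hw] at this
    refine hmax w hw hw1 _ (hDC e (hEC he) w hw) ?_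
    have hei : e⁻¹ = e := inv_eq_of_mul_eq_one_right (hE2 e he)
    simp only [D, hei]
    calc e * (w * e * w) * w = e * w * e * (w * w) := by group
      _ = w * (w * e * w) * e := by rw [hW2 w hw, mul_one, ← mul_assoc, ← mul_assoc, hW2 w hw, one_mul]
      _ = w * ((w * e * w) * e) := by group
      _ = w * (e * (w * e * w)) := by rw [hEc _ hwew e he]
  have hEK : E ≤ K := fun e he => ⟨hEC he, fun w hw => hDV w hw e he⟩
  obtain ⟨w0, hw0, hw01⟩ : ∃ w ∈ W, w ≠ 1 := by
    by_contra hcon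
    push Not at hcon
    have h := card_le_of_le (show W ≤ ⊥ from fun w hw => mem_bot.2 (hcon w hw))
    rw [card_bot, hW] at h
    omega
  have hK16 : Nat.card K ≤ 16 := by
    refine (card_le_mul_fibre (fun x : K => (⟨D x w0, x.2.2 w0 hw0⟩ : V)) 4 fun a => ?_).trans (by rw [hV])
    refine le_trans (Nat.card_le_card_of_injective
      (fun d : {d : K // (⟨D d w0, d.2.2 w0 hw0⟩ : V) = ⟨D a w0, a.2.2 w0 hw0⟩} =>
        (⟨(a : S)⁻¹ * (d.1 : S), ?_⟩ : V)) ?_) hV.le
    · refine hmax w0 hw0 hw01 _ (mul_mem (inv_mem a.2.1) d.1.2.1) (hDfix _ w0 hw0 ?_)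
      have h2 := hDmul (a : S) ((a : S)⁻¹ * d.1) w0 hw0 (a.2.2 w0 hw0)
        (mul_mem (inv_mem a.2.1) d.1.2.1)
      rw [mul_inv_cancel_left, show D d.1 w0 = D a w0 from congrArg Subtype.val d.2] at h2
      exact left_eq_mul.1 h2
    · intro x y hxy
      exact Subtype.ext (Subtype.ext (mul_left_cancel (congrArg Subtype.val hxy)))
  have hEK2 : ∀ x ∈ K, x ∉ E → ∀ y ∈ K, y ∉ E → x * y ∈ E := by
    intro x hx hxE y hy hyE
    have h := index_mul_card (E.subgroupOf K)
    rw [Nat.card_congr (subgroupOfEquivOfLe hEK).toEquiv, h8] at h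
    obtain ⟨n, hn⟩ := (hP.to_subgroup K).index (E.subgroupOf K)
    rcases n with _ | _ | n
    · exfalso
      rw [pow_zero, index_eq_one, subgroupOf_eq_top] at hn
      exact hxE (hn hx)
    · rw [pow_one] at hn
      have := (mul_mem_iff_of_index_two hn (a := (⟨x, hx⟩ : K)) (b := ⟨y, hy⟩)).2
        (by simp [mem_subgroupOf, hxE, hyE])
      simpa [mem_subgroupOf] using this
    · rw [hn, pow_succ, pow_succ] at h
      have := Nat.one_le_two_pow (n := n)
      omega
  have hKc : ∀ x ∈ K, ∀ y ∈ K, x * y = y * x := by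
    intro x hx y hy
    by_cases hxE : x ∈ E
    · exact hce y hy.1 x hxE
    by_cases hyE : y ∈ E
    · exact (hce x hx.1 y hyE).symm
    have h := hEK2 x⁻¹ (inv_mem hx) (fun h => hxE (inv_inv x ▸ inv_mem h)) y hy hyE
    calc x * y = x * (x * (x⁻¹ * y)) := by group
      _ = x * ((x⁻¹ * y) * x) := by rw [hce x hx.1 _ h]
      _ = y * x := by group
  have hKw : ∀ w ∈ W, ∀ k ∈ K, w * k * w ∈ K := by
    intro w hw k hk
    have : w * k * w = k * D k w := by simp only [D]; group
    rw [this]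
    exact mul_mem hk (hEK (hVE (hk.2 w hw)))
  have hCK : C ≤ K := by
    intro c0 hc0
    by_contra hc0K
    -- a coset fixed by `W`
    have hlt : extBy W K hW2 hKw < extBy W C hW2 hCw := by
      refine lt_of_le_not_ge ?_ fun hh => ?_
      · rintro _ ⟨w, hw, k, hk, rfl⟩; exact ⟨w, hw, k, hKC hk, rfl⟩
      · obtain ⟨w, hw, k, hk, e⟩ := hh (show c0 ∈ extBy W C hW2 hCw from ⟨1, one_mem _, c0, hc0, by simp⟩)
        have : w ∈ C := by
          rw [show w = c0 * k⁻¹ by rw [e, mul_inv_cancel_right]]; exact mul_mem hc0 (inv_mem (hKC hk))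
        rw [hWC w hw this, one_mul] at e
        exact hc0K (e ▸ hk)
    obtain ⟨y, hy, hyn, hyN⟩ := exists_normalizing (hP.to_subgroup _) hlt
    obtain ⟨u, hu, c, hc, rfl⟩ := hy
    have hcK : c ∉ K := fun h => hyn ⟨u, hu, c, h, rfl⟩
    have hx : ∀ w ∈ W, D c⁻¹ w ∈ K := by
      intro w hw
      have h1 := hyN w ⟨w, hw, 1, one_mem _, by simp⟩
      have hu' : u ∈ extBy W K hW2 hKw := ⟨u, hu, 1, one_mem _, by simp⟩
      have hw' : w ∈ extBy W K hW2 hKw := ⟨w, hw, 1, one_mem _, by simp⟩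
      have h2 := mul_mem (mul_mem (mul_mem (inv_mem hu') h1) hu') hw'
      rw [show u⁻¹ * (u * c * w * (u * c)⁻¹) * u * w = D c⁻¹ w by simp only [D]; group] at h2
      obtain ⟨v, hv, k, hk, e⟩ := h2
      have hvC : v ∈ C := by
        rw [show v = D c⁻¹ w * k⁻¹ by rw [e, mul_inv_cancel_right]]
        exact mul_mem (hDC _ (inv_mem hc) w hw) (inv_mem (hKC hk))
      rw [hWC v hv hvC, one_mul] at e
      exact e ▸ hk
    obtain ⟨x, hxdef⟩ : ∃ x, x = c⁻¹ := ⟨_, rfl⟩
    rw [← hxdef] at hx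
    have hab : ∀ a ∈ W, ∀ b ∈ W, D x (a * b) = D x a * (D x b * D (D x b) a) := by
      intro a ha b hb
      have e : a * b * x * (a * b) = a * (b * x * b) * a := by nth_rw 2 [hWc a ha b hb]; group
      simp only [D]
      rw [e]
      calc x⁻¹ * (a * (b * x * b) * a) = x⁻¹ * (a * x * (a * a) * (x⁻¹ * (b * x * b)) * a) := by
            rw [hW2 a ha, mul_one]; group
        _ = x⁻¹ * (a * x * a) * (a * (x⁻¹ * (b * x * b)) * a) := by group
        _ = _ := by group
    have hsym : ∀ a ∈ W, ∀ b ∈ W, D (D x b) a = D (D x a) b := by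
      intro a ha b hb
      have h1 := hab a ha b hb
      have h2 := hab b hb a ha
      have h3 : D x a * (D x b * D (D x b) a) = D x a * (D x b * D (D x a) b) := by
        rw [← h1, hWc a ha b hb, h2, ← mul_assoc, ← mul_assoc, hKc _ (hx b hb) _ (hx a ha)]
        simp only [D, mul_assoc]
      exact mul_left_cancel (mul_left_cancel h3)
    have hnotV : ∀ a ∈ W, a ≠ 1 → D x a ∉ V := by
      intro a ha ha1 haV
      refine hcK (inv_inv c ▸ hxdef ▸ inv_mem (⟨hxdef ▸ inv_mem hc, fun b hb => ?_⟩ : x ∈ K))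
      refine hmax a ha ha1 _ (hDC _ (hxdef ▸ inv_mem hc) b hb) (hDfix _ a ha ?_)
      rw [hsym a ha b hb]
      simp only [D]
      rw [show b * (x⁻¹ * (a * x * a)) * b = (x⁻¹ * (a * x * a)) * (b * b) by
        rw [hfix _ haV b hb]; simp only [D]; group, hW2 b hb, mul_one, inv_mul_cancel]
    have hone : ∀ a ∈ W, a ≠ 1 → D x a ∉ E := by
      intro a ha ha1 haE
      refine hnotV a ha ha1 (hmax a ha ha1 _ (hEC haE) (hDfix _ a ha ?_))
      have h := hab a ha a ha
      rw [hW2 a ha, show D x 1 = 1 by simp [D], ← mul_assoc, hE2 _ haE, one_mul] at h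
      exact h.symm
    obtain ⟨w1, hw1, hw11⟩ : ∃ w ∈ W, w ≠ 1 ∧ w ≠ w0 := by
      by_contra hcon
      push Not at hcon
      have h : (W : Set S) ⊆ {1, w0} := fun w hw => by
        by_cases e : w = 1
        · exact Or.inl e
        · exact Or.inr (hcon w hw e)
      have h' := (Set.ncard_le_ncard h (Set.toFinite _)).trans (Set.ncard_insert_le _ _)
      rw [← Nat.card_coe_set_eq, Set.ncard_singleton] at h'
      have e4 : Nat.card (W : Set S) = 4 := hW
      omega
    have hprod : w0 * w1 ≠ 1 := fun h => hw11.2 (by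
      rw [← hwi w0 hw0]; exact eq_inv_of_mul_eq_one_right h)
    refine hone _ (mul_mem hw0 hw1) hprod ?_
    rw [hab w0 hw0 w1 hw1, ← mul_assoc]
    exact mul_mem (hEK2 _ (hx w0 hw0) (hone w0 hw0 hw01) _ (hx w1 hw1) (hone w1 hw1 hw11.1))
      (hVE ((hx w1 hw1).2 w0 hw0))
  have hCeq : C = K := le_antisymm hCK hKC
  obtain ⟨n, hn⟩ := card_pow_two hP C
  have hC8 := card_le_of_le hEC
  have hC16 : Nat.card C ≤ 16 := hCeq ▸ hK16
  rw [h8, hn] at hC8
  rw [hn] at hC16
  have hn' : n = 3 ∨ n = 4 := by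
    have h1 := (Nat.pow_le_pow_iff_right (show 1 < 2 by norm_num)).1
      (show 2 ^ 3 ≤ 2 ^ n by simpa using hC8)
    have h2 := (Nat.pow_le_pow_iff_right (show 1 < 2 by norm_num)).1
      (show 2 ^ n ≤ 2 ^ 4 by simpa using hC16)
    omega
  rcases hn' with rfl | rfl
  · refine Cfsg.Agent.H81.SelfEight.sectional_rank_le_four hP E
      ⟨⟨⟨fun a b => Subtype.ext (hEc a a.2 b b.2)⟩⟩, fun g hg => by rw [pow_two]; exact hE2 g hg⟩ h8 ?_
    rw [← hC]
    exact (eq_of_le_of_card_ge hEC (by rw [hn, h8]; norm_num)).symm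
  refine rank_of_cent16 hP E hEc hE2 h8 (by rw [← hC, hn]; norm_num) fun X hX => ?_
  subst hC
  have hi := index_le_eight hP E hE2 h8
  rw [index_eq_card] at hi
  obtain ⟨q, hq⟩ : ∃ q, q = QuotientGroup.mk' (centralizer (E : Set S)) := ⟨_, rfl⟩
  rw [← hq] at hX
  have hWq : Nat.card (W.map q) = 4 := by
    refine le_antisymm (hW ▸ Nat.card_le_card_of_surjective _
      (q.subgroupMap_surjective W)) ?_
    rw [← hW]
    refine Nat.card_le_card_of_injective (fun w : W => (⟨q w, mem_map_of_mem q w.2⟩ : W.map q)) ?_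
    intro a b hab
    have h : (a : S)⁻¹ * b ∈ centralizer (E : Set S) := QuotientGroup.eq.1 (by
      have := congrArg Subtype.val hab; rwa [hq] at this)
    exact Subtype.ext (inv_mul_eq_one.1 (hWC _ (mul_mem (inv_mem a.2) b.2) h))
  obtain ⟨s, hs, hs1⟩ : ∃ s ∈ X.map q ⊓ W.map q, s ≠ 1 := by
    by_contra hcon
    push Not at hcon
    have hdis : Disjoint (X.map q) (W.map q) := disjoint_iff_inf_le.2 fun s hs => mem_bot.2 (hcon s hs)
    have h := Nat.card_le_card_of_injective _ (Subgroup.mul_injective_of_disjoint hdis)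
    rw [Nat.card_prod, hWq] at h
    omega
  obtain ⟨⟨s', hs', rfl⟩, ⟨w, hw, hws⟩⟩ := hs
  have hsC : s' ∉ centralizer (E : Set S) := fun h => hs1 (by rw [hq]; exact (QuotientGroup.eq_one_iff s').2 h)
  refine ⟨s', hs', hsC, le_trans (card_le_of_le (show centralizer (E : Set S) ⊓ centralizer {s'} ≤ V from ?_)) hV.le⟩
  have hw1 : w ≠ 1 := fun h => hs1 (by rw [← hws, h, map_one])
  have hd : w⁻¹ * s' ∈ centralizer (E : Set S) := QuotientGroup.eq.1 (by rw [hq] at hws; exact hws)
  rintro x ⟨hx, hxs⟩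
  refine hmax w hw hw1 x hx ?_
  have h := mem_centralizer_singleton_iff.1 hxs
  have h2 := hKc x (hCK hx) _ (hCK hd)
  calc x * w = x * s' * (w⁻¹ * s')⁻¹ := by group
    _ = s' * (x * (w⁻¹ * s')⁻¹) := by rw [h, mul_assoc]
    _ = s' * ((w⁻¹ * s')⁻¹ * x) := by
        rw [show x * (w⁻¹ * s')⁻¹ = (w⁻¹ * s')⁻¹ * x from (Commute.inv_right (show Commute x _ from h2)).eq]
    _ = w * x := by group

end Cfsg.Agent.H81.Fix4
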